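import Cfsg.Agent.TwoF.DC.TC.Iface

/-!
# TwoF, defining characteristic, type `C` in characteristic two: dimensions, the spin module (helper64)
-/

set_option autoImplicit false
set_option linter.unusedSectionVars false

namespace Cfsg.Agent.TwoF.DC.TC

open Finset Matrix Sum Module

namespace Dim

/-! ### orthogonal roots commute in characteristic two -/

section gen

variable {ι Φ : Type} [Fintype ι] [DecidableEq ι] [Fintype Φ] [DecidableEq Φ] {R : RC ι Φ}

theorem not_nz {x y : Bool × Φ} (h : R.pair (R.wt y) x = 0) : ¬ R.NZ 2 x y := by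
  rintro ⟨⟨z, hz⟩, r, h1, h2, h3⟩
  rcases r with _ | _ | r
  · have h4 := R.isRt_rf x z
    rw [RC.wt, hz, R.pair_add_string, h] at h4
    refine h2 ?_
    convert h4 using 1
    push_cast
    module
  · exact h3 (dvd_refl _)
  · have h4 := (R.pair_of_isRt (h1 2 (by omega)) x).1
    rw [R.pair_string, h] at h4
    omega

theorem comm {k L : Type} [Field k] [CharP k 2] [AddCommGroup L] [Module k L] (H : HW R 2 k L) {x y : Bool × Φ}
    (h : R.pair (R.wt y) x = 0) : H.E x 1 * H.E y 1 = H.E y 1 * H.E x 1 := by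
  have : Fact (Nat.Prime 2) := ⟨Nat.prime_two⟩
  refine H.comm_of_not_nz (fun h0 => ?_) (not_nz h)
  have h1 := R.pair_add_string x y
  rw [h0, R.toWt_zero, R.pair_zero, h] at h1
  omega

end gen

variable {m : ℕ}

/-! ### orbits of signed permutations -/

/-- `A` consists of signed permutations of `y` -/
def Orb (y : Fin m → ℤ) (A : Finset (Fin m → ℤ)) : Prop := ∀ v ∈ A, ∃ π ε, v = sp π ε y

theorem abs_sp {y : Fin m → ℤ} (hy : ∀ i, 0 ≤ y i) (π : Equiv.Perm (Fin m)) (ε : Fin m → ℤˣ) (i : Fin m) :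
    |sp π ε y i| = y (π i) := by
  rw [sp_apply, abs_mul, Int.isUnit_iff_abs_eq.1 (ε i).isUnit, one_mul, abs_of_nonneg (hy _)]

theorem sign_eq {y : Fin m → ℤ} {π : Equiv.Perm (Fin m)} {ε ε' : Fin m → ℤˣ} (h : sp π ε y = sp π ε' y) {i : Fin m}
    (hi : y (π i) ≠ 0) : ε i = ε' i := Units.ext (mul_right_cancel₀ hi (congrFun h i))

theorem orb_sign {y : Fin m → ℤ} (hy : ∀ i, 0 < y i) : ∃ A, Orb y A ∧ A.card = 2 ^ m := by
  refine ⟨univ.image fun ε => sp 1 ε y, fun v hv => ?_, ?_⟩
  · obtain ⟨ε, -, rfl⟩ := mem_image.1 hv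
    exact ⟨1, ε, rfl⟩
  · rw [card_image_of_injective _ fun ε ε' h => funext fun i => sign_eq h (hy _).ne']
    simp [Fintype.card_units_int]

theorem shift_inj {n : ℕ} {y : Fin (n + 1) → ℤ} (ha : Antitone y) (hy : y (Fin.last n) < y 0) {s t : Fin (n + 1)}
    (h : ∀ l, y (l + s) = y (l + t)) : s = t := by
  by_contra hst
  have h1 := h (-t)
  have h2 := h (-t - 1)
  rw [neg_add_cancel] at h1
  rw [show -t - 1 + t = -1 by abel, show -t - 1 + s = -t + s - 1 by abel] at h2
  have h3 : -t + s - 1 < -t + s := Fin.sub_one_lt_iff.2 (Fin.pos_iff_ne_zero.2 fun e => hst (neg_add_eq_zero.1 e).symm)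
  have h4 := ha h3.le
  have h5 : (-1 : Fin (n + 1)) = Fin.last n := by
    exact neg_eq_of_add_eq_zero_left (Fin.last_add_one n)
  rw [h5] at h2
  omega

theorem orb_all {n : ℕ} {y : Fin (n + 1) → ℤ} (ha : Antitone y) (hy : y (Fin.last n) < y 0) (h0 : ∀ i, 0 < y i) :
    ∃ A, Orb y A ∧ A.card = (n + 1) * 2 ^ (n + 1) := by
  refine ⟨univ.image fun q : Fin (n + 1) × (Fin (n + 1) → ℤˣ) => sp (Equiv.addRight q.1) q.2 y, fun v hv => ?_, ?_⟩
  · obtain ⟨q, -, rfl⟩ := mem_image.1 hv
    exact ⟨_, _, rfl⟩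
  · rw [card_image_of_injective]
    · simp [Fintype.card_units_int]
    · rintro ⟨s, ε⟩ ⟨t, ε'⟩ h
      have h1 : s = t := shift_inj ha hy fun l => by
        have h2 := abs_sp (fun i => (h0 i).le) (Equiv.addRight s) ε l
        rw [show sp (Equiv.addRight s) ε y = _ from h, abs_sp fun i => (h0 i).le] at h2
        exact h2.symm
      subst h1
      exact Prod.ext rfl (funext fun i => sign_eq h (h0 _).ne')

theorem orb_two {n : ℕ} {y : Fin (n + 1) → ℤ} (ha : Antitone y) (hy : y (Fin.last n) < y 0) (h0 : ∀ i, 0 ≤ y i) :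
    ∃ A, Orb y A ∧ A.card = 2 * (n + 1) := by
  refine ⟨univ.image fun q : Fin (n + 1) × ℤˣ => sp (Equiv.addRight q.1) (fun _ => q.2) y, fun v hv => ?_, ?_⟩
  · obtain ⟨q, -, rfl⟩ := mem_image.1 hv
    exact ⟨_, _, rfl⟩
  · rw [card_image_of_injective]
    · simp [Fintype.card_units_int, mul_comm]
    · rintro ⟨s, ε⟩ ⟨t, ε'⟩ h
      have h1 : s = t := shift_inj ha hy fun l => by
        have h2 := abs_sp h0 (Equiv.addRight s) (fun _ => ε) l
        rw [show sp (Equiv.addRight s) (fun _ => ε) y = _ from h, abs_sp h0] at h2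
        exact h2.symm
      subst h1
      refine Prod.ext rfl (sign_eq h (i := -s) ?_)
      have := h0 (Fin.last n)
      show y (-s + s) ≠ 0
      rw [neg_add_cancel]
      omega

theorem orb_zero {y : Fin m → ℤ} {j : Fin m} (hj : y j = 0) (h0 : ∀ i, i ≠ j → 0 < y i) :
    ∃ A, Orb y A ∧ A.card = m * 2 ^ (m - 1) := by
  have hy : ∀ i, 0 ≤ y i := fun i => by
    by_cases h : i = j
    · rw [h, hj]
    · exact (h0 i h).le
  refine ⟨(univ.sigma fun i : Fin m => (univ.erase i).powerset).image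
    fun q => sp (Equiv.swap q.1 j) (fun l => if l ∈ q.2 then -1 else 1) y, fun v hv => ?_, ?_⟩
  · obtain ⟨q, -, rfl⟩ := mem_image.1 hv
    exact ⟨_, _, rfl⟩
  · rw [card_image_of_injOn]
    · simp [card_sigma]
    · rintro ⟨s, T⟩ hs ⟨t, T'⟩ ht h
      have h1 : s = t := by
        by_contra h1
        have h2 := abs_sp hy (Equiv.swap s j) (fun l => if l ∈ T then -1 else 1) s
        rw [show sp (Equiv.swap s j) (fun l => if l ∈ T then -1 else 1) y = _ from h, abs_sp hy, Equiv.swap_apply_left,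
          hj] at h2
        refine (h0 _ fun e => h1 ?_).ne' h2
        rwa [Equiv.swap_apply_eq_iff, Equiv.swap_apply_right] at e
      subst h1
      simp only [coe_sigma, coe_univ, Set.mem_sigma_iff, mem_coe, mem_powerset] at hs ht
      have h2 : T = T' := by
        ext l
        by_cases hl : l = s
        · subst hl
          exact iff_of_false (fun e => by simpa using hs.2 e) fun e => by simpa using ht.2 e
        · have h3 := sign_eq h (i := l) (h0 _ fun e => hl (by
            rwa [Equiv.swap_apply_eq_iff, Equiv.swap_apply_right] at e)).ne'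
          by_cases e : l ∈ T <;> by_cases e' : l ∈ T' <;> simp [e, e'] at h3 ⊢
      rw [h2]

variable {k L : Type} [Field k] [CharP k 2] [AddCommGroup L] [Module k L] (H : HW (eC m).rc 2 k L)

theorem sum_orb {y : Fin m → ℤ} {A : Finset (Fin m → ℤ)} (h : Orb y A) :
    ∑ μ ∈ A.image tw, H.m μ = A.card * H.m (tw y) := by
  rw [sum_image fun _ _ _ _ e => tw_inj e, sum_congr rfl (g := fun _ => H.m (tw y)), sum_const, smul_eq_mul]
  intro v hv
  obtain ⟨π, ε, rfl⟩ := h v hv
  exact m_tw_sp H π ε y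

theorem card_le {A : Finset (Fin m → ℤ)} (h : Orb (x0 H) A) : A.card ≤ H.d := by
  have h1 := H.sum_m_le_d (A.image tw)
  rwa [sum_orb H h, tw_x0, H.m_lz, mul_one] at h1

theorem lam_le (i : Fin m) : H.lam i ≤ 1 := Nat.lt_succ_iff.1 (H.lam_lt i)

end Dim

open Dim

section dim

variable {n : ℕ} {k L : Type} [Field k] [CharP k 2] [AddCommGroup L] [Module k L] (H : HW (eC (n + 1)).rc 2 k L)

theorem Dim.x0_last : x0 H (Fin.last n) = H.lam (Fin.last n) := by
  rw [x0_step, dif_neg (by simp), add_zero]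

theorem Dim.last_of_not {l : Fin (n + 1) → ℕ} (h : ¬ okS l) : l (Fin.last n) ≠ 0 := fun e => h fun i hi => by
  rwa [show i = Fin.last n from Fin.ext (by have := i.2; simp; omega)]

theorem Dim.lt_of_not (h : ¬ okL H.lam) : x0 H (Fin.last n) < x0 H 0 := by
  simp only [okL, not_forall] at h
  obtain ⟨i, hi, h⟩ := h
  have h1 := x0_step H i
  rw [dif_pos hi] at h1
  have h2 := x0_anti H (Fin.zero_le i)
  have h3 := x0_anti H (Fin.le_last ⟨i.1 + 1, hi⟩)
  omega

theorem Dim.pos_of_not (h : ¬ okS H.lam) (i : Fin (n + 1)) : 0 < x0 H i := by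
  have h1 := x0_anti H (Fin.le_last i)
  have h2 := last_of_not h
  rw [x0_last] at h1
  omega

theorem Dim.dim_spin (h : ¬ okS H.lam) : 2 ^ (n + 1) ≤ H.d := by
  obtain ⟨A, h1, h2⟩ := orb_sign (pos_of_not H h)
  exact h2 ▸ card_le H h1

theorem Dim.dim_nat : 2 * (n + 1) ≤ H.d := by
  by_cases h : okL H.lam
  · refine le_trans ?_ (dim_spin H fun h' => H.lam_ne (funext fun i => ?_))
    · have : n < 2 ^ n := Nat.lt_two_pow_self
      rw [pow_succ]; omega
    · by_cases hi : i.1 + 1 < n + 1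
      · exact h i hi
      · exact h' i hi
  · obtain ⟨A, h1, h2⟩ := orb_two (x0_anti H) (lt_of_not H h) (x0_nonneg H)
    exact h2.symm.trans_le (card_le H h1)

/-- the weight `λ - ε_i - ε_m` has multiplicity at least two -/
theorem Dim.two_le_m {i : Fin (n + 1)} (hi : i < Fin.last n) (h1 : x0 H (Fin.last n) = 1) (h2 : x0 H i = 2) :
    2 ≤ H.m (tw (x0 H - wv (inl i) - wv (inl (Fin.last n)))) := by
  have := H.fd
  have hi' : i.1 < n := hi
  let a : PR (n + 1) := ⟨(inl i, inl (Fin.last n)), by simp only [ps, Fin.val_last]; omega⟩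
  let b : PR (n + 1) := ⟨(inl i, inr (Fin.last n)), by simp only [ps, Fin.val_last]; omega⟩
  have ha : a.1.1 ≠ a.1.2 := fun e => hi.ne (inl_injective e)
  have hb : b.1.1 ≠ b.1.2 := inl_ne_inr
  obtain ⟨v, hv, hv0⟩ := H.isWt_iff.1 H.isWt_lz
  have hE := ext_sp H 1 (Pi.mulSingle (Fin.last n) (-1))
  have hx : sp 1 (Pi.mulSingle (Fin.last n) (-1)) (x0 H) = x0 H - (2 : ℤ) • wv (inl (Fin.last n)) := by
    funext l
    by_cases hl : l = Fin.last n
    · simp [sp, hl, wv, h1]
    · simp [sp, hl, wv]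
  rw [hx] at hE
  obtain ⟨v', hv', hv0'⟩ := H.isWt_iff.1 hE.isWt
  have hp : (eC (n + 1)).rc.pair (tw (x0 H - (2 : ℤ) • wv (inl (Fin.last n)))) (true, b) = 3 := by
    rw [pair_tw_true, if_neg hb]
    simp [b, xv, wv, h1, h2, hi.ne]
  have hu : H.E (false, a) 1 v ∈ H.w (tw (x0 H - wv (inl i) - wv (inl (Fin.last n)))) := by
    have h3 := H.E1_w (false, a) hv
    rw [wt_false, ← tw_x0, ← tw_add] at h3
    convert h3 using 3
    rw [rv]; abel
  have hu' : H.E (false, b) 1 v' ∈ H.w (tw (x0 H - wv (inl i) - wv (inl (Fin.last n)))) := by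
    have h3 := H.E1_w (false, b) hv'
    rw [wt_false, ← tw_add] at h3
    convert h3 using 3
    rw [rv, show wv b.1.2 = -wv (inl (Fin.last n)) from wv_swap (inl _), two_smul]; abel
  have hu0 : H.E (false, a) 1 v ≠ 0 := fun e => hv0 (H.inj_of_ef (x := (false, a)) (by
    rw [RC.pair_false, ← tw_x0, pair_tw_true, if_neg ha]
    show ¬ _ ∣ -(x0 H i + x0 H (Fin.last n))
    rw [h1, h2]; decide) hv (H.E_top hv _ Nat.one_pos) e)
  have h4 : H.E (true, b) 1 (H.E (false, a) 1 v) = 0 := by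
    rw [← Module.End.mul_apply, comm H, Module.End.mul_apply, H.E_top hv _ Nat.one_pos, map_zero]
    rw [wt_false, pair_tw_true, if_neg hb]
    simp [a, b, rv, xv, wv, hi.ne, hi.ne']
  have h5 : H.E (true, b) 1 (H.E (false, b) 1 v') ≠ 0 := by
    obtain ⟨ε, hε⟩ := H.ef b
    have h6 := hε _ v' hv'
    rw [hE.E_eq_zero (x := (true, b)) (by rw [hp]; decide) Nat.one_pos hv', map_zero, sub_zero, hp] at h6
    rw [h6]
    refine smul_ne_zero (mul_ne_zero ε.ne_zero fun e => ?_) hv0'
    exact absurd ((CharP.intCast_eq_zero_iff k 2 3).1 e) (by decide)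
  have h6 := H.finrank_inf_lt (N := LinearMap.ker (H.E (true, b) 1)) fun e => h5 (e hu')
  have h7 : finrank k ↥(LinearMap.ker (H.E (true, b) 1) ⊓ H.w (tw (x0 H - wv (inl i) - wv (inl (Fin.last n))))) ≠ 0 :=
    fun e => hu0 ((Submodule.eq_bot_iff _).1 (Submodule.finrank_eq_zero.1 e) _ ⟨h4, hu⟩)
  omega

theorem Dim.dim_mixed (h : ¬ okS H.lam) (h' : ¬ okL H.lam) : 2 * (n + 1) * 2 ^ (n + 1) ≤ H.d := by
  have h0 := pos_of_not H h
  have h1 : x0 H (Fin.last n) = 1 := by
    have := h0 (Fin.last n)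
    have := lam_le H (Fin.last n)
    rw [x0_last] at *
    omega
  have h2 := lt_of_not H h'
  obtain ⟨i, hi, hm⟩ := exists_max_image (univ.filter fun i => 2 ≤ x0 H i) id ⟨0, by simp; omega⟩
  replace hi := (mem_filter.1 hi).2
  have h3 : i < Fin.last n := lt_of_le_of_ne (Fin.le_last i) fun e => by rw [e] at hi; omega
  have h4 : x0 H i = 2 := by
    have h5 : i.1 + 1 < n + 1 := Nat.succ_lt_succ h3
    have h6 := x0_step H i
    rw [dif_pos h5] at h6
    have h7 := lam_le H i
    have h8 : ¬ 2 ≤ x0 H ⟨i.1 + 1, h5⟩ := fun e => by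
      have : i.1 + 1 ≤ i.1 := hm ⟨i.1 + 1, h5⟩ (mem_filter.2 ⟨mem_univ _, e⟩)
      omega
    omega
  obtain ⟨A, hA, hA'⟩ := orb_all (x0_anti H) h2 h0
  have hz : (x0 H - wv (inl i) - wv (inl (Fin.last n))) (Fin.last n) = 0 := by simp [wv, h1, h3.ne']
  obtain ⟨B, hB, hB'⟩ := orb_zero hz fun l hl => by
    have := h0 l
    by_cases e : l = i
    · simp [wv, e, h4, h3.ne]
    · simp [wv, e, hl, this]
  have h5 := H.sum_m_le_d (A.image tw ∪ B.image tw)
  rw [sum_union, sum_orb H hA, sum_orb H hB, tw_x0, H.m_lz, hA', hB', Nat.add_sub_cancel] at h5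
  · have h6 := Nat.mul_le_mul_left ((n + 1) * 2 ^ n) (two_le_m H h3 h1 h4)
    rw [pow_succ] at h5 ⊢
    nlinarith
  · rw [disjoint_image tw_inj, disjoint_left]
    intro v h6 h7
    obtain ⟨π, ε, rfl⟩ := hB v h7
    obtain ⟨π', ε', e⟩ := hA _ h6
    have h8 := abs_sp (fun i => (h0 i).le) π' ε' (π.symm (Fin.last n))
    rw [← e, sp_apply, Equiv.apply_symm_apply, hz, mul_zero, abs_zero] at h8
    exact (h0 _).ne h8

/-! ### the spin module -/

theorem Dim.xv_short {a b : II (n + 1)} (h : a ≠ b) (c : II (n + 1)) : xv (wv a + wv b) c ≤ 1 := by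
  rw [xv_add, xv_wv, xv_wv]
  split_ifs with h1 h2 <;> first | omega | exact (h (h1.symm.trans h2)).elim

/-- if a long root is the sum of a root and a short root, the summands are orthogonal -/
theorem Dim.orth {x y : Bool × PR (n + 1)} {a b c : II (n + 1)} (hy : (eC (n + 1)).rx y = wv a + wv b) (hab : a ≠ b)
    (h0 : b ≠ a.swap) (h : wv c + wv c = (eC (n + 1)).rx x + (eC (n + 1)).rx y) :
    (eC (n + 1)).rc.pair ((eC (n + 1)).rc.wt y) x = 0 := by
  obtain ⟨a', b', -, h1, h2⟩ := rt_exists x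
  have h3 := congrArg (xv · c) h
  have h4 := xv_short hab c
  simp only [xv_add, xv_wv_self, ← hy] at h3 h4
  by_cases e : a' = b'
  · subst e
    have h5 : c = a' := by
      rw [h1, xv_add, xv_wv] at h3
      split_ifs at h3 with h6 <;> first | exact h6 | omega
    rw [h1, h5, left_eq_add, hy, add_eq_zero_iff_neg_eq, ← wv_swap] at h
    exact (h0 (wv_inj h).symm).elim
  · rw [if_neg e, ← h1] at h2
    have h5 := xv_short e c
    have h6 := (eC (n + 1)).rc.pair_wt_self x
    have h7 := congrArg ((eC (n + 1)).rx x ⬝ᵥ ·) h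
    rw [← h1] at h5
    rw [Euc.pair_wt, h2] at h6 ⊢
    simp only [dotProduct_add, h6, dotProduct_comm _ (wv c), wv_dot] at h7
    omega

section spin

variable (h : okL H.lam)
include h

theorem Dim.x0_one (i : Fin (n + 1)) : x0 H i = 1 := by
  have h1 : ∀ i, x0 H i = x0 H (Fin.last n) := fun i => by
    induction i using Fin.reverseInduction with
    | last => rfl
    | cast i ih =>
      have h2 : i.castSucc.1 + 1 < n + 1 := Nat.succ_lt_succ i.2
      rw [x0_step, dif_pos h2, h _ h2, Nat.cast_zero, zero_add]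
      exact ih
  have h2 := lam_le H (Fin.last n)
  have h3 : H.lam (Fin.last n) ≠ 0 := last_of_not fun h' => H.lam_ne (funext fun i => by
    by_cases hi : i.1 + 1 < n + 1
    · exact h i hi
    · exact h' i hi)
  rw [h1, x0_last]
  omega

theorem Dim.xv_ext {ν : Fin (n + 1) → ℤ} (hν : H.Ext ν) : ∃ y, ν = tw y ∧ ∀ a, xv y a = 1 ∨ xv y a = -1 := by
  obtain ⟨π, ε, rfl⟩ := (ext_C H).1 hν
  refine ⟨_, rfl, fun a => ?_⟩
  rcases a with i | i <;> simp only [xv, sp, x0_one H h, mul_one] <;> rcases Int.units_eq_one_or (ε i) with e | e <;>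
    simp [e]

theorem Dim.pair_ext {ν : Fin (n + 1) → ℤ} (hν : H.Ext ν) (b : PR (n + 1)) :
    -2 ≤ (eC (n + 1)).rc.pair ν (true, b) ∧ (eC (n + 1)).rc.pair ν (true, b) ≤ 2 ∧
      (b.1.1 ≠ b.1.2 ↔ 2 ∣ (eC (n + 1)).rc.pair ν (true, b)) := by
  obtain ⟨y, rfl, hy⟩ := xv_ext H h hν
  have h1 := hy b.1.1
  have h2 := hy b.1.2
  rw [pair_tw_true]
  split_ifs with e
  · simp only [e, ne_eq, not_true, false_iff] at *; omega
  · simp only [e, ne_eq, not_false_iff, true_iff]; omega

theorem Dim.F_top {v : L} (hv : v ∈ H.w H.lz) (b : PR (n + 1)) (hb : b.1.1 ≠ b.1.2) : H.E (false, b) 1 v = 0 := by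
  induction hn : ∑ j, (eC (n + 1)).rc.cf b j using Nat.strong_induction_on generalizing b with
  | _ N ih =>
    have h1 : H.E (false, b) 1 v ∈ H.w H.lz := H.curtis _ fun β => by
      by_cases e : β = b
      · obtain ⟨ε, hε⟩ := H.ef b
        have h1 := hε _ v hv
        rw [H.E_top hv _ Nat.one_pos, map_zero, sub_zero,
          (CharP.intCast_eq_zero_iff k 2 _).2 ((pair_ext H h H.ext_lz b).2.2.1 hb), mul_zero, zero_smul] at h1
        rw [e, h1]
      by_cases hz : (eC (n + 1)).rc.IsRt ((eC (n + 1)).rc.vec (true, β) + (eC (n + 1)).rc.vec (false, b))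
      · obtain ⟨⟨t, c⟩, hz⟩ := hz
        obtain ⟨r, hr, -⟩ := H.br _ _ _ hz
        have h1 := congrArg (fun f : Module.End k L => f v) hr
        simp only [LinearMap.sub_apply, Module.End.mul_apply, H.E_top hv β Nat.one_pos, map_zero, sub_zero,
          LinearMap.smul_apply] at h1
        cases t
        · by_cases hc : c.1.1 = c.1.2
          · rw [← Module.End.mul_apply, comm H, Module.End.mul_apply, H.E_top hv _ Nat.one_pos, map_zero]
            rw [Euc.vec_eq_iff, Euc.E_add, Euc.E_vec, Euc.E_vec] at hz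
            refine orth (a := b.1.1.swap) (b := b.1.2.swap) (c := c.1.1.swap) ?_ (mt swap_inj.1 hb)
              (mt swap_inj.1 b.ne) ?_
            · show -rv b = _
              rw [rv, wv_swap, wv_swap]; abel
            · rw [← hz]
              show _ = -rv c
              rw [rv, ← hc, wv_swap]; abel
          · rw [h1, ih _ ?_ c hc rfl, smul_zero]
            obtain ⟨j, hj⟩ := (eC (n + 1)).rc.exists_cf_pos β
            rw [← hn]
            refine sum_lt_sum (fun i _ => ?_) ⟨j, mem_univ _, ?_⟩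
            · have := congrFun hz i
              simp only [Pi.add_apply, RC.vec_true, RC.vec_false] at this
              omega
            · have := congrFun hz j
              simp only [Pi.add_apply, RC.vec_true, RC.vec_false] at this
              omega
        · rw [h1, H.E_top hv _ Nat.one_pos, smul_zero]
      · rw [← Module.End.mul_apply, H.br0 _ _ (fun e' => e ?_) hz, Module.End.mul_apply, H.E_top hv _ Nat.one_pos,
          map_zero]
        rw [RC.vec_false', add_neg_eq_zero] at e'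
        exact congrArg Prod.snd ((eC (n + 1)).rc.vec_inj e')
    rw [← H.pr_of_mem h1, H.pr_of_ne (H.E1_w _ hv)]
    exact fun e => (eC (n + 1)).rc.wt_ne_zero _ (add_eq_left.1 e)

theorem Dim.E_ext {ν : Fin (n + 1) → ℤ} (hν : H.Ext ν) {x : Bool × PR (n + 1)} (hx : 2 ∣ (eC (n + 1)).rc.pair ν x)
    {v : L} (hv : v ∈ H.w ν) : H.E x 1 v = 0 := by
  obtain ⟨l, rfl⟩ := hν
  obtain ⟨u, hu, rfl⟩ := H.exists_nnl l hv
  rw [← (eC (n + 1)).rc.srl_srl_rev l x, H.E_nnl_eq_zero]
  rw [RC.pair_swl] at hx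
  generalize (eC (n + 1)).rc.srl l.reverse x = y at hx
  rcases y with ⟨_ | _, b⟩
  · rw [RC.pair_false, dvd_neg] at hx
    exact F_top H h hu b ((pair_ext H h H.ext_lz b).2.2.2 hx)
  · exact H.E_top hu b Nat.one_pos

theorem Dim.all_ext {μ : Fin (n + 1) → ℤ} (hμ : H.IsWt μ) : H.Ext μ := by
  refine H.dep_induction (P := H.Ext) (fun μ hμ ih => ?_) μ hμ
  by_contra hn
  refine hμ (eq_bot_iff.2 ((H.gen μ fun e => hn (e ▸ H.ext_lz)).trans ?_))
  refine iSup_le fun i => iSup_le fun r => iSup_le fun hr => ?_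
  rintro _ ⟨u, hu, rfl⟩
  by_contra h0
  have hr' : (0 : ℤ) < r := by exact_mod_cast hr
  have h1 := ih _ (H.isWt_of_mem hu fun e => h0 (by rw [e, map_zero]; rfl)) (H.sum_dep_lt hμ _ hr')
  have h2 : μ + (r : ℤ) • (eC (n + 1)).rc.wt (true, (eC (n + 1)).rc.zi i) +
      (r : ℤ) • (eC (n + 1)).rc.wt (false, (eC (n + 1)).rc.zi i) = μ := by
    rw [RC.wt_false, smul_neg, add_neg_cancel_right]
  have h3 := h1.le_of_isWt hr' (h2.symm ▸ hμ)
  have h4 := (pair_ext H h h1 ((eC (n + 1)).rc.zi i)).2.1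
  by_cases e : (eC (n + 1)).rc.pair (μ + (r : ℤ) • (eC (n + 1)).rc.wt (true, (eC (n + 1)).rc.zi i))
      (true, (eC (n + 1)).rc.zi i) = r
  · have h5 := h1.rf (true, (eC (n + 1)).rc.zi i)
    rw [RC.rf, e, add_sub_cancel_right] at h5
    exact hn h5
  · rw [RC.pair_false] at h3
    obtain rfl : r = 1 := by omega
    exact h0 (E_ext H h h1 (by rw [RC.pair_false]; omega) hu)

theorem Dim.E_short (x : Bool × PR (n + 1)) (hx : x.2.1.1 ≠ x.2.1.2) (r : ℕ) (h0 : r ≠ 0) (h2 : r ≠ 2) :
    H.E x r = 0 := by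
  by_cases h1 : r = 1
  · subst h1
    refine H.ext_w fun μ hμ v hv => E_ext H h (all_ext H h hμ) ?_ hv
    have h3 := (pair_ext H h (all_ext H h hμ) x.2).2.2.1 hx
    rcases x with ⟨_ | _, b⟩
    · rwa [RC.pair_false, dvd_neg]
    · exact h3
  · exact H.E_eq_zero (M := 2) (fun μ hμ => H.pair_le (fun b => (pair_ext H h H.ext_lz b).2.1) hμ x) (by omega)

end spin

end dim

/-- **dimensions in characteristic two, the short root operators on the spin module** -/
theorem boxDim : BoxDim := by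
  intro m hm k L _ _ _ _ H
  obtain ⟨n, rfl⟩ : ∃ n, m = n + 1 := ⟨m - 1, by omega⟩
  exact ⟨Dim.dim_nat H, Dim.dim_spin H, Dim.dim_mixed H, Dim.E_short H⟩

end Cfsg.Agent.TwoF.DC.TC
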