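import Cfsg.Agent.TwoF.DC.TC.Dat

/-!
# TwoF, defining characteristic, type C (9): the datum `DB` of type `B_m` on `Sp_(2m)(k)`, characteristic two (helper34)
-/

set_option autoImplicit false
set_option linter.unusedSectionVars false

namespace Cfsg.Agent.TwoF.DC.TC

open Finset Matrix Sum Cfsg.Agent.H45.Uni Cfsg.Agent.H45.UniS Cfsg.Agent.H421.UniS

variable {m : ℕ} {k : Type} [Field k] [IsAlgClosed k] [CharP k 2]

/-- `2` for short roots, `1` for long roots -/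
def ee (b : PR m) : ℕ := if Sh b then 2 else 1

variable (k) in
/-- the square root for short roots -/
noncomputable def sr (b : PR m) : k →+* k := if Sh b then ((frobeniusEquiv k 2).symm : k →+* k) else RingHom.id k

theorem sr_pow (b : PR m) (u : k) : sr k b u ^ ee b = u := by
  unfold sr ee
  split_ifs
  · exact frobeniusEquiv_symm_pow_p k 2 u
  · exact pow_one u

theorem sr_pow' (b : PR m) (u : k) : sr k b (u ^ ee b) = u := by
  unfold sr ee
  split_ifs
  · exact frobeniusEquiv_symm_apply_frobenius k 2 u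
  · exact pow_one u

theorem sr_lg {b : PR m} (h : ¬ Sh b) (u : k) : sr k b u = u := by rw [sr, if_neg h]; rfl
theorem sr_sh {a b : PR m} (h : Sh a ↔ Sh b) : sr k a = sr k b := by simp only [sr, h]
theorem sr_sq {b : PR m} (h : Sh b) (u : k) : sr k b u ^ 2 = u := by have := sr_pow b u; rwa [ee, if_pos h] at this
theorem sr_sq' {b : PR m} (h : Sh b) (u : k) : sr k b (u ^ 2) = u := by have := sr_pow' b u; rwa [ee, if_pos h] at this
theorem ee_pos (b : PR m) : 0 < ee b := by unfold ee; split_ifs <;> omega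
theorem ee_le (b : PR m) : ee b ≤ 2 := by unfold ee; split_ifs <;> omega

theorem ee_rv (b : PR m) : (ee b : ℤ) • rv b = (2 : ℤ) • cv b := by
  unfold ee
  split_ifs with h
  · rw [cv_sh h]; rfl
  · rw [rv_lg h]; exact one_smul _ _

theorem cv_sq (b : PR m) : cv b ⬝ᵥ cv b = ee b := by
  have h1 : cv b ⬝ᵥ rv b = 2 := (eC m).two b
  unfold ee
  split_ifs with h
  · rwa [← cv_sh h] at h1
  · rw [rv_lg h, dotProduct_smul, smul_eq_mul] at h1; omega

theorem isRt_B_le {c : Fin m → ℤ} (h : (eC m).dual.rc.IsRt c) : (eC m).dual.E c ⬝ᵥ (eC m).dual.E c ≤ 2 := by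
  obtain ⟨⟨_ | _, b⟩, h1⟩ := ((eC m).dual.isRt_iff c).1 h <;> rw [← h1]
  · show (-cv b) ⬝ᵥ (-cv b) ≤ 2
    rw [neg_dotProduct_neg, cv_sq]; exact_mod_cast ee_le b
  · show cv b ⬝ᵥ cv b ≤ 2
    rw [cv_sq]; exact_mod_cast ee_le b

/-- the root elements of the dual datum -/
noncomputable def ZB (b : PR m) (t : k) : SG m k := Z b (sr k b t)

theorem ZB_add (b : PR m) (s t : k) : ZB b (s + t) = ZB b s * ZB b t := by rw [ZB, map_add, Z_add]; rfl

theorem Z_zero (b : PR m) : Z b (0 : k) = 1 := by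
  have := Z_add b (0 : k) 0
  rw [add_zero] at this
  exact mul_eq_left.1 this.symm

theorem cmB : CmD (eC m).dual.rc 2 (ZB (m := m) (k := k)) := by
  intro β b
  have c1 : ∀ {a : PR m} (i j : ℕ), cv a = (i : ℤ) • cv β + (j : ℤ) • cv b →
      (eC m).dual.rc.cf a = i • (eC m).dual.rc.cf β + j • (eC m).dual.rc.cf b := fun _ _ h =>
    (eC m).dual.cf_add_iff.2 h
  have c2 : ∀ {a : PR m}, (eC m).dual.rc.cf a = (eC m).dual.rc.cf β + (eC m).dual.rc.cf b → cv a = cv β + cv b :=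
    fun h => (eC m).dual.cf_add_iff'.1 h
  have c3 : ∀ {ε : k}, ε * ε = 1 → ε = 1 := fun h => by
    rcases mul_self_eq_one_iff.1 h with h | h
    · exact h
    · rw [h, CharTwo.neg_eq]
  have c4 : ∀ {x y : Fin m → ℤ}, (2 : ℤ) • x = (2 : ℤ) • y → x = y := fun h => smul_right_injective _ two_ne_zero h
  rcases tri (k := k) β b with ⟨h1, h2, -⟩ | ⟨a, ε, e, s1, s2, s3, h1, h2⟩ | ⟨a, ε, e, s1, s2, s3, h1, -, -, h2⟩ |
    ⟨a, a', ε, e, s1, s2, s3, s4, h1, h3, h2⟩ | ⟨a, a', ε, e, s1, s2, s3, s4, h1, h3, h2⟩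
  · refine ⟨[], by simp, fun s t => by simpa [ZB] using h1 _ _, fun a ha hn => ?_⟩
    exfalso
    obtain ⟨-, r, r1, r2, r3⟩ := hn
    have k1 : ∀ n : ℤ, (eC m).dual.E ((eC m).dual.rc.vec (true, b) - n • (eC m).dual.rc.vec (true, β)) =
        cv b - n • cv β := fun n => by rw [Euc.E_sub, Euc.E_smul, Euc.E_vec, Euc.E_vec]; rfl
    have k2 := cv_sq a
    have k3 := cv_sq β
    have k4 := cv_sq b
    have k5 : 0 ≤ cv β ⬝ᵥ cv b := by
      have k6 : ((ee β : ℤ) • rv β) ⬝ᵥ ((ee b : ℤ) • rv b) = ((2 : ℤ) • cv β) ⬝ᵥ ((2 : ℤ) • cv b) := by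
        rw [ee_rv, ee_rv]
      simp only [dotProduct_smul, smul_dotProduct, smul_eq_mul] at k6
      have := mul_nonneg (Int.natCast_nonneg (ee b)) (mul_nonneg (Int.natCast_nonneg (ee β)) h2)
      omega
    rw [c2 ha, add_dotProduct, dotProduct_add, dotProduct_add, dotProduct_comm (cv b) (cv β)] at k2
    have := ee_le a
    have := ee_pos β
    have := ee_pos b
    have s1 : β.1.1 = β.1.2 := not_not.1 fun h : Sh β => by rw [ee, if_pos h] at k3; omega
    have s2 : b.1.1 = b.1.2 := not_not.1 fun h : Sh b => by rw [ee, if_pos h] at k4; omega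
    obtain rfl | rfl | h5 : r = 0 ∨ r = 1 ∨ 2 ≤ r := by omega
    · have k6 : xv (wv b.1.1) β.1.1 = 0 := by
        have k7 : cv β ⬝ᵥ cv b = 0 := by omega
        rwa [cv, cv, if_pos s1, if_pos s2, wv_dot] at k7
      refine r2 ((isRt_B _).2 (Or.inr ⟨b.1.1, β.1.1.swap, fun e => ?_, fun e => ?_, ?_⟩))
      · rw [swap_inj.1 e, xv_wv_self] at k6; omega
      · rw [e, xv_wv_swap] at k6; omega
      · rw [k1, cv, cv, if_pos s1, if_pos s2, wv_swap]; simp [sub_eq_add_neg]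
    · exact r3 dvd_rfl
    · have k6 := isRt_B_le (r1 2 h5)
      rw [k1] at k6
      simp only [sub_dotProduct, dotProduct_sub, dotProduct_smul, smul_dotProduct, smul_eq_mul,
        dotProduct_comm (cv b) (cv β)] at k6
      omega
  · have h4 : cv a = cv β + cv b := by rw [cv_sh s1, cv_sh s2, cv_sh s3, h1]
    refine ⟨[(a, 1, 1, 1)], by simpa using c1 1 1 (by simpa using h4), fun s t => ?_, fun a0 ha _ => ?_⟩
    · simp [ZB, h2, c3 e, sr_sh (iff_of_true s1 s3), sr_sh (iff_of_true s2 s3)]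
    · rw [cv_inj ((c2 ha).trans h4.symm)]
      exact ⟨1, one_ne_zero, by simp⟩
  · refine ⟨[], by simp, fun s t => by simp [ZB, h2, CharTwo.two_eq_zero, Z_zero], fun a0 ha _ => ?_⟩
    have k2 := cv_sq a0
    have k3 := cv_sq a
    have := ee_le a0
    have := ee_pos a
    rw [c2 ha, cv_sh s1, cv_sh s2, ← h1, rv_lg s3, dotProduct_smul, smul_dotProduct, smul_eq_mul, smul_eq_mul] at k2
    omega
  · have h4 : cv a' = cv β + cv b := c4 (by rw [← rv_lg s4, h3, smul_add, cv_sh s1, rv_lg s2])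
    have h5 : a ≠ a' := fun e => s4 (e ▸ s3)
    refine ⟨[(a, 1, 1, 2), (a', 1, 1, 1)], ?_, fun s t => ?_, fun a0 ha _ => ?_⟩
    · simpa using ⟨by simpa using c1 1 2 (by simpa [cv_sh s1, cv_sh s3, rv_lg s2] using h1),
        by simpa using c1 1 1 (by simpa using h4)⟩
    · simp [ZB, h2, c3 e, sr_sh (iff_of_true s1 s3), sr_lg s2, sr_lg s4, sr_sq s3, sr_sq' s3, mul_assoc, -map_pow]
    · rw [cv_inj ((c2 ha).trans h4.symm)]
      exact ⟨1, one_ne_zero, by simp [h5]⟩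
  · have h4 : cv a' = cv β + cv b := c4 (by rw [← rv_lg s4, h3, smul_add, cv_sh s2, rv_lg s1])
    have h5 : a ≠ a' := fun e => s4 (e ▸ s3)
    refine ⟨[(a, 1, 2, 1), (a', -1, 1, 1)], ?_, fun s t => ?_, fun a0 ha _ => ?_⟩
    · simpa using ⟨by simpa using c1 2 1 (by simpa [cv_sh s2, cv_sh s3, rv_lg s1] using h1),
        by simpa using c1 1 1 (by simpa using h4)⟩
    · simp [ZB, h2, c3 e, sr_sh (iff_of_true s2 s3), sr_lg s1, sr_lg s4, sr_sq s3, sr_sq' s3, mul_assoc, -map_pow]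
    · rw [cv_inj ((c2 ha).trans h4.symm)]
      exact ⟨-1, by simp, by simp [h5]⟩

theorem ch_smul (n : ℕ) (x : Fin m → ℤ) (t : Fin m → kˣ) : ch ((n : ℤ) • x) t = ch x t ^ n := by
  simp only [ch, Pi.smul_apply, smul_eq_mul, mul_comm (n : ℤ), _root_.zpow_mul, _root_.zpow_natCast, prod_pow]

theorem ts_ZB (t : Fin m → kˣ) (b : PR m) (s : k) : ts t * ZB b s = ZB b (ch ((2 : ℤ) • cv b) t * s) * ts t := by
  rw [ZB, ts_Z, ZB, ← ee_rv, ch_smul, map_mul, Units.val_pow_eq_pow_val, sr_pow']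

theorem rho_pos' (j : Fin m) : 0 < ((2 : ℤ) • rho m) ⬝ᵥ (eC m).dual.rv ((eC m).dual.zi j) := by
  show 0 < ((2 : ℤ) • rho m) ⬝ᵥ cv (zc j)
  rw [smul_dotProduct, smul_eq_mul]
  exact mul_pos two_pos (rho_cv j)

/-- the square root of a unit -/
noncomputable def su (b : PR m) (c : kˣ) : kˣ := Units.map (sr k b).toMonoidHom c

theorem su_val (b : PR m) (c : kˣ) : (su b c : k) = sr k b c := rfl
theorem su_pow (b : PR m) (c : kˣ) : su b c ^ ee b = c := Units.ext (by rw [Units.val_pow_eq_pow_val, su_val, sr_pow])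
theorem su_pow' (b : PR m) (c : kˣ) : su b (c ^ ee b) = c := Units.ext (by rw [su_val, Units.val_pow_eq_pow_val, sr_pow'])

theorem pol_spin (hD : BoxDim) (hm : 2 ≤ m) {i : Fin m} (hi : ¬ Sh (zc i)) {b : PR m} (hb : Sh b) (g h : SG m k) :
    PolLE (id : k → k) 1 fun s => H45.UniS.mn i (g * ZB b s * h).1 := by
  obtain ⟨C⟩ := boxHW 2 _ _ k _ (DC 2 m k)
  have h1 : ∀ j, (Pi.single i 1 : Fin m → ℕ) j < 2 := fun j => by rw [Pi.single_apply]; split_ifs <;> omega
  have h0 : (Pi.single i 1 : Fin m → ℕ) ≠ 0 := fun e => by simpa using congrFun e i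
  have h2 := (hD m hm k _ (C.H _ h1 h0)).2.2.2 (fun j hj => by
    rw [C.lam, Pi.single_eq_of_ne]; rintro rfl; exact hi ((sh_zc _).2 hj)) (true, b) hb
  have h3 : ∀ g : SG m k, (DC 2 m k).toFDat.cc (Pi.single i 1) g = H45.UniS.mn i g.1 := fun g => cs_single i g.1
  let v : Lc (DC 2 m k) (Pi.single i 1) := ⟨_, mem_Tr _ h⟩
  refine ⟨Polynomial.C (v.1 g) + Polynomial.C (((C.H _ h1 h0).E (true, b) 2 v).1 g) * Polynomial.X,
    by compute_degree, fun s => ?_⟩
  have h4 := (C.rep _ h1 h0).z_sum b (sr k b s) (N := (C.H _ h1 h0).bd + 3) (by omega)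
  rw [C.ρ_eq, sum_eq_add_of_mem 0 2 (by simp) (by simp) (by simp) (fun n _ hn => by rw [h2 n hn.1 hn.2, smul_zero]),
    HW.E_zero, pow_zero, one_smul, sr_sq hb] at h4
  have h5 := congrFun (congrArg Subtype.val (DFunLike.congr_fun h4 v)) g
  simp only [Polynomial.eval_add, Polynomial.eval_mul, Polynomial.eval_C, Polynomial.eval_X, id]
  rw [← h3, mul_comm _ s]
  exact h5

theorem pol_ZB (hD : BoxDim) (hm : 2 ≤ m) (i : Fin m) (b : PR m) (g h : SG m k) :
    PolLE (id : k → k) (2 * m) fun s => H45.UniS.mn i (g * ZB b s * h).1 ^ ee (zc i) := by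
  by_cases hb : Sh b
  · by_cases hi : Sh (zc i)
    · obtain ⟨P, h1, h2⟩ := pol_mn i b g h
      refine ⟨P.map (frobenius k 2), Polynomial.natDegree_map_le.trans (by omega), fun s => ?_⟩
      have h3 : H45.UniS.mn i (g * ZB b s * h).1 = _ := h2 (sr k b s)
      show _ ^ _ = _
      rw [ee, if_pos hi, h3, ← frobenius_def, ← Polynomial.eval_map_apply, id, frobenius_def, sr_sq hb, id]
    · simp only [ee, if_neg hi, pow_one]
      exact (pol_spin hD hm hi hb g h).mono (by omega)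
  · simp only [ZB, sr_lg hb]
    exact ((pol_mn i b g h).pow _).mono (Nat.mul_le_mul_right _ (ee_le _))

theorem sr_surj (b : PR m) : Function.Surjective (sr k b) := fun u => ⟨_, sr_pow' b u⟩

/-- **the dual datum** -/
noncomputable def DB (hD : BoxDim) {m : ℕ} (hm : 2 ≤ m) (k : Type) [Field k] [IsAlgClosed k] [CharP k 2] :
    RDat 2 (Fin m) (PR m) k (SG m k) where
  x i t := xs i (sr k (zc i) t)
  y i t := ys i (sr k (zc i) t)
  z := ZB
  zi := zc
  ht := (eC m).dual.ht ((2 : ℤ) • rho m)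
  T := TS m k
  δ s := ts (dls s)
  hh i c := ts (hs i (su (zc i) c))
  τ := tp
  ht_pos := (eC m).dual.ht_pos rho_pos'
  x_eq i s := (X_xs i _).symm
  z_add := ZB_add
  y_add i s t := by rw [map_add, ys_add]
  δ_mul := (DC 2 m k).δ_mul
  δ_mem s := mem_TS.2 ⟨_, rfl⟩
  hh_mem i c := mem_TS.2 ⟨_, rfl⟩
  δ_z s b a := by
    rw [ts_ZB, dls_eq, ch_cch, ← Units.val_pow_eq_pow_val, ← _root_.zpow_natCast, (eC m).dual.ht_cast rho_pos',
      dotProduct_smul, smul_dotProduct]; rfl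
  T_x t ht i := (T_x ht i).elim fun u hu => ⟨u ^ ee (zc i), fun a => by rw [map_mul, sr_pow', hu.1]⟩
  T_y t ht i := (T_x ht i).elim fun u hu => ⟨u ^ ee (zc i), fun a => by rw [map_mul, sr_pow', hu.2]⟩
  comm i j a s := sComm i j _ _
  rank i a s c h := by
    rw [map_div₀, map_div₀]
    exact sRank i _ _ (su (zc i) c) (by rw [su_val, h, map_add, map_one, map_mul])
  gen := eq_top_iff.2 fun g _ => Subgroup.closure_mono (by
    rintro _ ⟨i, s, h⟩
    obtain ⟨t, rfl⟩ := sr_surj (zc i) s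
    exact ⟨i, t, h⟩) (sGen g)
  cmt i b s := by
    obtain ⟨l, h1, h2, -⟩ := (cmB (k := k)).both ZB_add (zc i) b s
    exact ⟨l, h1, fun t => by rw [← X_xs, ← X_xs]; exact h2 t⟩
  τ_mul := H45.UniS.tp_mul
  τ_τ := H45.UniS.tp_tp
  τ_x _ _ := rfl
  τ_T _ := tp_T
  Δ i g := H45.UniS.mn i g.1 ^ ee (zc i)
  wt j := (DC 2 m k).wt j * ee (zc j)
  N := 2 * (6 * m * m)
  M := 2 * (2 * m * m)
  Δ_one i := by rw [show H45.UniS.mn i (1 : SG m k).1 = 1 from mn_one i, one_pow]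
  Δ_z i b g s := by rw [ZB, mn_mul_Z]
  Δ_T i _ ht g := by rw [mn_T i ht g, mul_pow]
  Δ_hh i j c := by
    rw [mn_ts, chi_hs]
    split_ifs with h
    · rw [h, su_val, sr_pow]
    · exact one_pow _
  Δ_δ i s := by
    rw [_root_.zpow_mul, _root_.zpow_natCast, Units.val_pow_eq_pow_val, ← (DC 2 m k).Δ_δ]; rfl
  Δ_τ i g := congrArg (· ^ ee (zc i)) (mn_transpose i g.1)
  pol_z i b g h := (pol_ZB hD hm i b g h).mono (by nlinarith)
  pol_δ i g h := by
    have h1 := pol_mn_ds i g h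
    unfold ee
    split_ifs
    · exact (h1.pow 2).imp fun P hP => ⟨hP.1, fun s => by rw [← hP.2]; ring⟩
    · have h2 : PolLE (fun s : kˣ => (s : k)) (2 * m * m) fun s => (s : k) ^ (2 * m * m) :=
        ⟨Polynomial.X ^ (2 * m * m), by rw [Polynomial.natDegree_X_pow], fun s => by simp⟩
      exact ((h2.mul h1).mono (by nlinarith)).imp fun P hP =>
        ⟨hP.1, fun s => by rw [← hP.2]; ring⟩
  R := (eC m).dual.rc
  zi_eq := rfl
  ht_eq := (eC m).dual.ht_eq rho_pos'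
  hh_mul i c d := by rw [su, map_mul, hs_mul, H45.UniS.ts_mul]; rfl
  hh_comm i j c d := (DC 2 m k).hh_comm i j _ _
  hh_z i c b a := by
    rw [ts_ZB, hs_eq, ch_cch, dotProduct_smul, ← smul_dotProduct, ← ee_rv, smul_dotProduct, smul_eq_mul,
      _root_.zpow_mul, _root_.zpow_natCast, su_pow, RC.wt, Euc.toWt_eq, Euc.E_vec]; rfl
  n_z i b h := by
    obtain ⟨ε, hε⟩ := n_Z (k := k) i h
    refine ⟨ε ^ ee b, fun t => ?_⟩
    rw [map_neg, map_one, ZB, hε, ZB, show sr k ((eC m).dual.rc.s i b) = sr k b from sr_sh (sh_s i h), map_mul,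
      Units.val_pow_eq_pow_val, sr_pow']
    rfl
  cm := cmB.cm
  nz i b a ha hn := by
    obtain ⟨l, h1, h2, h3⟩ := (cmB (k := k)).both ZB_add (zc i) b 1
    exact ⟨l, h1, fun t => by rw [← X_xs, ← X_xs]; exact h2 t, h3 one_ne_zero a ha hn⟩

theorem sr_frob (b : PR m) (t : k) : frobenius k 2 (sr k b t) = sr k b (t ^ 2) := by rw [frobenius_def, map_pow]

/-- the untwisted data for the dual datum -/
noncomputable def PB (hD : BoxDim) {m : ℕ} (hm : 2 ≤ m) (k : Type) [Field k] [IsAlgClosed k] [CharP k 2] (f : ℕ)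
    (hf : 0 < f) : Tws (DB hD hm k) :=
  tw0 _ f hf (mapS (frobenius k 2)) (fun b t => (mapS_Z _ b _).trans (congrArg (Z b) (sr_frob b t)))
    fun i t => (mapS_ys _ i _).trans (congrArg (ys i) (sr_frob _ t))

variable (hD : BoxDim) (hm : 2 ≤ m)

theorem DB_U : (DB hD hm k).U = (DC 2 m k).U := by
  refine congrArg Subgroup.closure (Set.ext fun g => ⟨?_, ?_⟩)
  · rintro ⟨b, s, rfl⟩
    exact ⟨b, _, rfl⟩
  · rintro ⟨b, s, rfl⟩
    obtain ⟨t, rfl⟩ := sr_surj b s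
    exact ⟨b, t, rfl⟩

theorem DB_Um : (DB hD hm k).Um = (DC 2 m k).Um := by
  refine congrArg Subgroup.closure (Set.ext fun g => ⟨?_, ?_⟩)
  · rintro ⟨b, s, rfl⟩
    exact ⟨b, _, rfl⟩
  · rintro ⟨b, s, rfl⟩
    obtain ⟨t, rfl⟩ := sr_surj b s
    exact ⟨b, t, rfl⟩

theorem DB_hh : {g | ∃ i c, g = (DB hD hm k).hh i c} = {g | ∃ i c, g = (DC 2 m k).hh i c} := by
  refine Set.ext fun g => ⟨?_, ?_⟩
  · rintro ⟨i, c, rfl⟩
    exact ⟨i, _, rfl⟩
  · rintro ⟨i, c, rfl⟩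
    exact ⟨i, c ^ ee (zc i), congrArg (fun c => ts (hs i c)) (su_pow' _ c).symm⟩

theorem PB_TT (f : ℕ) (hf : 0 < f) : (PB hD hm k f hf).TT = (PC 2 m k f hf).TT := by
  rw [Tws.TT, Tws.TT, DB_U, DB_Um]; rfl

theorem DB_cc (n : Fin m → ℕ) (g : SG m k) :
    (DB hD hm k).toFDat.cc n g = (DC 2 m k).toFDat.cc (fun i => ee (zc i) * n i) g :=
  prod_congr rfl fun _ _ => (pow_mul _ _ _).symm

end Cfsg.Agent.TwoF.DC.TC
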