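import Cfsg.Agent.TwoF.DC.TC.ShortB
import Cfsg.Agent.TwoF.DC.Asm.Num

/-!
# TwoF, defining characteristic, type C, `p = 2`, no spin factor (3): `boxShort` (helper89)
-/

set_option autoImplicit false
set_option linter.unusedSectionVars false

namespace Cfsg.Agent.TwoF.DC.TC

open Finset Matrix Sum

namespace Sht

variable {m : ℕ} {o l : Fin m} (ho : o.1 = 0) (hl : l.1 + 1 = m) (hm : 2 ≤ m)
include ho hl hm

section one

variable {R : RC (Fin m) (PR m)} (hR : R = (eC m).rc) {k L : Type} [Field k] [CharP k 2] [AddCommGroup L] [Module k L]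
  (H : HW R 2 k L) (hok : okS H.lam)
include hR hok

omit ho hl hm in
theorem one_x : H.X := by
  subst hR
  exact H.x_of_ch ch_two fun j hj => by_contra fun e => hj (hok j e)

omit ho hl hm in
theorem one_d : 2 * m ≤ H.d := by
  subst hR
  obtain ⟨s, hs⟩ := H.exists_lam_pos
  exact two_mul_le_d hs.ne' (by_contra fun e => hs.ne' (hok s e))

omit hl hm in
theorem one_two (h2 : m = 2) : H.cL (Sie m) ≤ 2 := by
  subst hR
  exact (H.cL_le_cG _).trans ((cG_nat ho fun i hi => hok i (by have := Fin.val_ne_of_ne hi; omega)).trans h2.le)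

theorem one {S : Finset (PR m)} (hS : Shp o l S) : m ≤ H.cL S ∧ (H.cL (Sie m) ≤ m ∨ 2 * S.card < H.cL S ∨
    m = 3 ∧ 8 ≤ H.cL S ∧ S.card ≤ 5 ∧ H.cL (Sie m) ≤ 11) := by
  have hX := one_x hR H hok
  subst hR
  have hc : (univ.erase o).card = m - 1 := by rw [card_erase_of_mem (mem_univ _), card_univ, Fintype.card_fin]
  have c1 := fun (s : Fin m) (hs : H.lam s ≠ 0) => count ho hX hs (by_contra fun e => hs (hok s e)) hS.mem (univ.erase o)
    fun j h e => (e (mem_erase.2 ⟨h.ne', mem_univ _⟩)).elim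
  by_cases h0 : ∀ i, i ≠ o → H.lam i = 0
  · refine ⟨?_, Or.inl ((H.cL_le_cG _).trans (cG_nat ho h0))⟩
    obtain ⟨s, hs⟩ := H.exists_lam_pos
    obtain rfl : s = o := by_contra fun e => hs.ne' (h0 s e)
    have h1 := c1 s hs.ne'
    rw [hc, ho, Nat.choose_zero_right, Nat.zero_add, Nat.choose_one_right] at h1
    omega
  push Not at h0
  obtain ⟨s, h0, hs⟩ := h0
  have h1 : s.1 + 1 < m := by_contra fun e => hs (hok s e)
  have h2 := Fin.val_ne_of_ne h0
  have h3 := c1 s hs
  have h4 := two_card_Sie m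
  obtain ⟨b, rfl⟩ : ∃ b, m = b + 2 := ⟨m - 2, by omega⟩
  rw [hc] at h3
  have h5 := (num (b := b) (s := s) (c := H.cL S) (by omega) (by omega)).1 h3
  refine ⟨by nlinarith, Or.inr ?_⟩
  rcases hS.card with h6 | ⟨⟨h7, h8⟩, h6⟩
  · exact Or.inl (by nlinarith)
  have h9 := count ho hX hs h1 hS.mem ((univ.erase o).erase l) fun j h e => by
    obtain rfl : j = l := by_contra fun e' => e (mem_erase.2 ⟨e', mem_erase.2 ⟨h.ne', mem_univ _⟩⟩)
    exact h8
  rw [card_erase_of_mem (mem_erase.2 ⟨h7.ne', mem_univ _⟩), hc] at h9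
  by_cases hb : 2 ≤ b
  · have h10 := (num (b := b) (s := s) (c := H.cL S) (by omega) (by omega)).2 hb h9
    exact Or.inl (by nlinarith)
  obtain rfl : b = 1 := by omega
  obtain rfl : s = 1 := Fin.ext (show s.1 = 1 by omega)
  obtain rfl : o = 0 := Fin.ext ho
  have h10 : 8 ≤ H.cL S := h9
  have h11 : H.lam 2 = 0 := hok 2 (by decide)
  by_cases h12 : H.lam 0 = 0
  · exact Or.inr ⟨rfl, h10, by omega, (H.cL_le_cG _).trans (cG_two h12 hs h11)⟩
  · have h13 := cL_mixed hX h12 hs h11 hS.mem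
    exact Or.inl (by omega)

end one

variable {k G : Type} [Field k] [CharP k 2] [Group G] {D : RDat 2 (Fin m) (PR m) k G} (hR : D.R = (eC m).rc)
  {σ : Equiv.Perm (Fin m)}
include hR

theorem val_le (F : Fam D σ) (hok : ∀ j, okS (F.H j).lam) {S : Finset (PR m)} (hS : Shp o l S)
    (hv : F.val S ≤ 4 * S.card) : F.val (Sie m) ≤ 4 * (Sie m).card := by
  have h1 := fun j => one ho hl hm hR (F.H j) (hok j) hS
  by_cases h0 : ∀ j, (F.H j).cL (Sie m) ≤ m
  · refine le_trans (sum_le_sum fun j _ => ?_) (hv.trans (Nat.mul_le_mul_left 4 (hS.card_le hm)))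
    have h2 := (h0 j).trans (h1 j).1
    split_ifs
    · exact Num.mul_two_sub_mono h2 ((F.H j).cL_le_d S)
    · omega
  push Not at h0
  obtain ⟨j, h0⟩ := h0
  have h2 := TE.one_le_val F S j
  obtain ⟨h3, h4, h5, h6⟩ := ((h1 j).2.resolve_left (by omega)).resolve_left (by omega)
  have h7 : ∀ i, i = j := fun i => by_contra fun e => by
    classical
    have h8 := (sum_le_sum_of_subset (f := fun j => 2 * (F.H j).cL S) (subset_univ {i, j})).trans (TE.two_cL_le_val F S)
    have h9 := (h1 i).1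
    rw [sum_pair e] at h8
    omega
  have h8 := two_card_Sie m
  rw [Fam.val, Fintype.sum_eq_single j fun i hi => (hi (h7 i)).elim] at hv ⊢
  split_ifs at hv ⊢
  · have h9 := (F.H j).cL_lt_d S
    have h10 := Nat.mul_le_mul h4 (show 10 ≤ 2 * (F.H j).d - (F.H j).cL S by omega)
    omega
  · subst h3; omega

end Sht

open Sht in
/-- **type `C`, characteristic two, no spin factor** -/
theorem boxShort (hB : BoxSie) : BoxShort := by
  intro m hm k G _ _ _ D hR
  obtain ⟨o, ho⟩ : ∃ o : Fin m, o.1 = 0 := ⟨⟨0, by omega⟩, rfl⟩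
  obtain ⟨l, hl⟩ : ∃ l : Fin m, l.1 + 1 = m := ⟨⟨m - 1, by omega⟩, by simp only; omega⟩
  have hl' : ¬ l.1 + 1 < m := by omega
  refine ⟨faith_of_ch _ 2 k (hR ▸ ch_two) (hR ▸ conn_C) fun l h j hj => by_contra fun e => hj (h j e),
    fun σ F hok hT S hS hA hI hv => hB 2 m hm k G D hR σ F (fun j => one_x hR _ (hok j)) ?_, ?_⟩
  · by_cases h : S ⊆ Sie m
    · obtain ⟨S', h1, h2, h3, h4, h5⟩ := hT (Sie m) (hR ▸ up_Sie hl') ⟨S, h, hS, hv⟩
      rw [hR] at h3 h5
      rcases shp_of_sub ho hl h3 h1 h2 fun j hj => h5 j (s_mem_Sie hl' hj).1 (s_mem_Sie hl' hj).2 with rfl | h6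
      · exact h4
      · exact val_le ho hl hm hR F hok h6 h4
    · exact val_le ho hl hm hR F hok (shp_of_notSub ho hl (hR ▸ hA) (hR ▸ hI) h) hv
  · intro _ σ J _ _ L _ _ H rep hok S hA hI sl h1 _ h2
    have h3 := card_le ho hl hm (hR ▸ hA) (hR ▸ hI)
    have h4 := two_card_Sie m
    have h5 := fun j => one_d hR (H j) (hok j)
    have h6 := (card_nsmul_le_sum univ _ (2 * m * (2 * m - 1) + if S.Nonempty then 2 else 0) fun j _ =>
      Nat.add_le_add_right (Nat.mul_le_mul (h5 j) (Nat.sub_le_sub_right (h5 j) 1)) _).trans h2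
    have h7 : 1 ≤ Fintype.card J := Fintype.card_pos
    have h8 := fun j => (single_le_sum (f := fun j => (H j).d * ((H j).d - 1) + if S.Nonempty then 2 else 0)
      (fun _ _ => Nat.zero_le _) (mem_univ j)).trans h2
    rw [card_univ, smul_eq_mul] at h6
    obtain ⟨b, rfl⟩ : ∃ b, m = b + 2 := ⟨m - 2, by omega⟩
    rw [show 2 * (b + 2) - 1 = 2 * b + 3 by omega] at h6
    have h11 := (Nat.le_mul_of_pos_left _ h7).trans h6
    have h9 : S.Nonempty := by_contra fun e => by
      rw [if_neg e, not_nonempty_iff_eq_empty.1 e, card_empty] at h11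
      nlinarith
    simp only [if_pos h9] at h6 h8 h11
    obtain rfl : b = 0 := by nlinarith
    have h10 : Fintype.card J = 1 := by omega
    refine ⟨h10, fun hσ => hB 2 _ hm k G D hR σ _ (fun j => one_x hR _ (hok j)) ?_⟩
    refine (sum_le_card_nsmul univ _ 12 fun j _ => ?_).trans (by rw [card_univ, smul_eq_mul]; change Fintype.card J * 12 ≤ _; omega)
    have e1 := one_two ho hR (H j) (hok j) rfl
    have e2 := h5 j
    have e3 : (H j).d = 4 := by
      have e4 := h8 j
      by_contra e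
      have e5 := Nat.mul_le_mul (show 5 ≤ (H j).d by omega) (show 4 ≤ (H j).d - 1 by omega)
      omega
    show (H j).cL _ * (2 * (H j).d - (H j).cL _) ≤ 12
    rw [e3]
    exact Num.mul_two_sub_mono (d := 4) e1 (by decide)

end Cfsg.Agent.TwoF.DC.TC
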