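import Cfsg.Agent.TwoF.DC.TC.ShortA
import Cfsg.Agent.TwoF.DC.TFG.Ct

/-!
# TwoF, defining characteristic, type C, `p = 2`, no spin factor (2): counts of weights (helper89)
-/

set_option autoImplicit false
set_option linter.unusedSectionVars false

namespace Cfsg.Agent.TwoF.DC.TC.Sht

open Finset Matrix Sum

variable {m : ℕ}

theorem le_choose {n k : ℕ} (h1 : 1 ≤ k) (h2 : k < n) : n ≤ n.choose k := by
  induction n generalizing k with
  | zero => omega
  | succ n ih =>
    obtain ⟨k, rfl⟩ := Nat.exists_eq_add_of_le' h1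
    rw [Nat.choose_succ_succ, Nat.succ_eq_add_one]
    by_cases h3 : k + 1 = n
    · subst h3
      rw [Nat.choose_self, Nat.choose_succ_self_right]
    · have h4 := ih (k := k + 1) (by omega) (by omega)
      have h5 : 1 ≤ n.choose k := Nat.choose_pos (by omega)
      omega

theorem num {b s c : ℕ} (h1 : 1 ≤ s) (h2 : s ≤ b) :
    ((b + 1).choose s * 2 ^ s + (b + 1).choose (s + 1) * 2 ^ (s + 1) ≤ c + (b + 1).choose (s + 1) →
      (b + 1) * (b + 2) + 1 ≤ c) ∧
    (2 ≤ b → (b + 1).choose s * 2 ^ s + (b + 1).choose (s + 1) * 2 ^ (s + 1) ≤ c + b.choose (s + 1) →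
      (b + 1) * (b + 2) + 5 ≤ c) := by
  have e1 : s + 1 ≤ 2 ^ s := Nat.lt_two_pow_self
  rcases h2.eq_or_lt with rfl | h2
  · rw [Nat.choose_self, Nat.choose_succ_self_right, Nat.choose_succ_self, pow_succ]
    refine ⟨fun h => by nlinarith, fun h3 h => ?_⟩
    obtain ⟨t, rfl⟩ : ∃ t, s = t + 1 := ⟨s - 1, by omega⟩
    have e2 : t + 1 ≤ 2 ^ t := Nat.lt_two_pow_self
    rw [pow_succ] at h
    nlinarith
  · have e2 := Nat.add_one_mul_choose_eq b s
    have e3 := le_choose h1 h2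
    have e4 := le_choose h1 (show s < b + 1 by omega)
    have e5 := le_choose (k := s + 1) (n := b + 1) (by omega) (by omega)
    have e6 := Nat.mul_le_mul e4 (show 2 ≤ 2 ^ s by omega)
    have e7 := Nat.mul_le_mul_left ((b + 1).choose (s + 1)) (show (s + 1) + 2 ≤ 2 ^ (s + 1) by rw [pow_succ]; omega)
    have e8 := Nat.mul_le_mul_left (b + 1) e3
    have e9 := Nat.choose_succ_succ' b s
    rw [mul_add, ← e2] at e7
    exact ⟨fun h => by nlinarith, fun h3 h => by nlinarith⟩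

/-- the vector with support `z.1` and negative part `z.2` -/
def sv (z : Finset (Fin m) × Finset (Fin m)) : Fin m → ℤ := fun i => if i ∈ z.2 then -1 else if i ∈ z.1 then 1 else 0

theorem sv_inj {z z' : Finset (Fin m) × Finset (Fin m)} (h : z.2 ⊆ z.1) (h' : z'.2 ⊆ z'.1) (e : sv z = sv z') :
    z = z' := by
  refine Prod.ext (Finset.ext fun i => ?_) (Finset.ext fun i => ?_) <;>
  · have h1 := congrFun e i
    have h2 := @h i
    have h3 := @h' i
    simp only [sv] at h1
    split_ifs at h1 <;> tauto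

theorem tw_ind (s : Fin m) : tw (fun i => if i ≤ s then 1 else 0) = Pi.single s 1 := funext fun i => by
  rw [tw_apply, Pi.single_apply]
  simp only [Fin.le_def, Fin.ext_iff]
  split_ifs <;> omega

theorem orb {z : Finset (Fin m) × Finset (Fin m)} (h : z.2 ⊆ z.1) {s : Fin m} (hs : z.1.card = s + 1) :
    ∃ l, tw (sv z) = (eC m).rc.swl l (Pi.single s 1) := by
  obtain ⟨π, h1, -⟩ := TA.exists_perm_pair (X := z.1) (Z := ∅) (X' := Iic s) (Z' := ∅) (disjoint_empty_right _)
    (disjoint_empty_right _) (by rw [hs, Fin.card_Iic]) rfl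
  obtain ⟨l, hl⟩ := exists_swl_tw π fun i => if i ∈ z.2 then -1 else 1
  refine ⟨l, ?_⟩
  rw [← tw_ind, hl]
  congr 1
  funext i
  have h2 := @h i
  simp only [sv, sp_apply, ← mem_Iic, h1]
  split_ifs <;> first | rfl | tauto

/-- pairs (support, negative part) -/
def PP (I : Finset (Fin m)) (r : ℕ) : Finset (Finset (Fin m) × Finset (Fin m)) :=
  ((powersetCard r I).sigma powerset).map (Equiv.sigmaEquivProd _ _).toEmbedding

theorem mem_PP {I : Finset (Fin m)} {r : ℕ} {z : Finset (Fin m) × Finset (Fin m)} :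
    z ∈ PP I r ↔ (z.1 ⊆ I ∧ z.1.card = r) ∧ z.2 ⊆ z.1 := by
  rw [PP, mem_map_equiv, mem_sigma, mem_powersetCard, mem_powerset]
  rfl

theorem card_PP (I : Finset (Fin m)) (r : ℕ) : (PP I r).card = I.card.choose r * 2 ^ r := by
  rw [PP, card_map, card_sigma, sum_congr rfl fun T hT => by rw [card_powerset, (mem_powersetCard.1 hT).2], sum_const,
    card_powersetCard, smul_eq_mul]

section HW

variable {k L : Type} [Field k] [AddCommGroup L] [Module k L] {H : HW (eC m).rc 2 k L}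

theorem card_le_cL (hX : H.X) {s : Fin m} (hs : H.lam s ≠ 0) (S : Finset (PR m))
    (P : Finset (Finset (Fin m) × Finset (Fin m)))
    (h : ∀ z ∈ P, z.2 ⊆ z.1 ∧ z.1.card = s + 1 ∧ ∃ b ∈ S, (eC m).rc.pair (tw (sv z)) (true, b) < 0) :
    P.card ≤ H.cL S := by
  rw [← card_image_of_injOn (f := fun z => tw (sv z)) fun z hz z' hz' e => sv_inj (h z hz).1 (h z' hz').1 (tw_inj e)]
  refine hX.card_le_cL_of_le S (HW.dom_single s) (H.single_le hs) _ fun ν hν => ?_
  obtain ⟨z, hz, rfl⟩ := mem_image.1 hν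
  exact ⟨orb (h z hz).1 (h z hz).2.1, (h z hz).2.2⟩

theorem two_mul_le_d {s : Fin m} (hs : H.lam s ≠ 0) (h : s.1 + 1 < m) : 2 * m ≤ H.d := by
  have h1 := H.card_le_d_of_le (HW.dom_single s) (H.single_le hs) ((PP univ (s + 1)).image fun z => tw (sv z))
    fun ν hν => by
      obtain ⟨z, hz, rfl⟩ := mem_image.1 hν
      exact orb (mem_PP.1 hz).2 (mem_PP.1 hz).1.2
  rw [card_image_of_injOn fun z hz z' hz' e => sv_inj (mem_PP.1 hz).2 (mem_PP.1 hz').2 (tw_inj e), card_PP, card_univ,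
    Fintype.card_fin, pow_succ] at h1
  have h2 := Nat.mul_le_mul (le_choose (k := s.1 + 1) (by omega) h) (Nat.mul_le_mul_right 2 (Nat.one_le_two_pow (n := s)))
  omega

variable {o : Fin m} (ho : o.1 = 0)
include ho

/-- **the count** -/
theorem count (hX : H.X) {s : Fin m} (hs : H.lam s ≠ 0) (h : s.1 + 1 < m) {S : Finset (PR m)}
    (h1 : ∀ j (h : o < j), pl o j h.le ∈ S) (I : Finset (Fin m)) (h2 : ∀ j (h : o < j), j ∉ I → mn o j h ∈ S) :
    (m - 1).choose s * 2 ^ s.1 + (m - 1).choose (s + 1) * 2 ^ (s.1 + 1) ≤ H.cL S + I.card.choose (s + 1) := by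
  have hc : (univ.erase o).card = m - 1 := by rw [card_erase_of_mem (mem_univ _), card_univ, Fintype.card_fin]
  have lt : ∀ {j}, j ∈ univ.erase o → o < j := fun {j} hj => by
    have := Fin.val_ne_of_ne (mem_erase.1 hj).1
    rw [Fin.lt_def]; omega
  have no : ∀ {T : Finset (Fin m)}, T ⊆ univ.erase o → o ∉ T := fun e e' => notMem_erase _ _ (e e')
  have e1 : ((PP (univ.erase o) s).image fun z => (insert o z.1, insert o z.2)).card = (m - 1).choose s * 2 ^ s.1 := by
    rw [card_image_of_injOn, card_PP, hc]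
    intro z hz z' hz' e
    obtain ⟨⟨a1, -⟩, a2⟩ := mem_PP.1 (mem_coe.1 hz)
    obtain ⟨⟨b1, -⟩, b2⟩ := mem_PP.1 (mem_coe.1 hz')
    obtain ⟨e1, e2⟩ := Prod.ext_iff.1 e
    exact Prod.ext (insert_erase_invOn.2.injOn (no a1) (no b1) e1)
      (insert_erase_invOn.2.injOn (no (a2.trans a1)) (no (b2.trans b1)) e2)
  have e2 := card_filter_add_card_filter_not (s := PP (univ.erase o) (s + 1)) fun z => z.2 = ∅ ∧ z.1 ⊆ I
  have e3 : ((PP (univ.erase o) (s + 1)).filter fun z => z.2 = ∅ ∧ z.1 ⊆ I).card ≤ I.card.choose (s + 1) := by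
    rw [← card_powersetCard]
    refine card_le_card_of_injOn Prod.fst (fun z hz => ?_) fun z hz z' hz' e => ?_
    · obtain ⟨a1, a2⟩ := mem_filter.1 (mem_coe.1 hz)
      exact mem_coe.2 (mem_powersetCard.2 ⟨a2.2, (mem_PP.1 a1).1.2⟩)
    · exact Prod.ext e ((mem_filter.1 (mem_coe.1 hz)).2.1.trans (mem_filter.1 (mem_coe.1 hz')).2.1.symm)
  have e4 := card_le_cL hX hs S (((PP (univ.erase o) s).image fun z => (insert o z.1, insert o z.2)) ∪
    (PP (univ.erase o) (s + 1)).filter fun z => ¬ (z.2 = ∅ ∧ z.1 ⊆ I)) fun z hz => by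
    rcases mem_union.1 hz with hz | hz
    · obtain ⟨z, hz', rfl⟩ := mem_image.1 hz
      obtain ⟨⟨a1, a3⟩, a2⟩ := mem_PP.1 hz'
      obtain ⟨j, b1, b2⟩ := exists_mem_notMem_of_card_lt_card (s := z.1) (t := univ.erase o) (by omega)
      refine ⟨insert_subset_insert _ a2, by rw [card_insert_of_notMem (no a1), a3], _, h1 j (lt b1), ?_⟩
      have b3 := (mem_erase.1 b1).1
      rw [pair_pl, if_neg b3.symm]
      simp only [sv, mem_insert, true_or, if_true, b3, false_or, if_neg b2, if_neg (mt (@a2 j) b2)]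
      omega
    · obtain ⟨hz, b1⟩ := mem_filter.1 hz
      obtain ⟨⟨a1, a3⟩, a2⟩ := mem_PP.1 hz
      have a4 : sv z o = 0 := by rw [sv, if_neg (no (a2.trans a1)), if_neg (no a1)]
      refine ⟨a2, a3, ?_⟩
      by_cases b2 : z.2 = ∅
      · obtain ⟨j, b3, b4⟩ := not_subset.1 (not_and.1 b1 b2)
        refine ⟨_, h2 j (lt (a1 b3)) b4, ?_⟩
        rw [pair_mn, a4, sv, b2, if_neg (notMem_empty _), if_pos b3]
        omega
      · obtain ⟨j, b3⟩ := nonempty_iff_ne_empty.2 b2
        refine ⟨_, h1 j (lt (a1 (a2 b3))), ?_⟩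
        rw [pair_pl, if_neg (lt (a1 (a2 b3))).ne, a4, sv, if_pos b3]
        omega
  rw [card_union_of_disjoint (disjoint_left.2 fun z hz hz' => by
    obtain ⟨z, -, rfl⟩ := mem_image.1 hz
    exact no (mem_PP.1 (mem_filter.1 hz').1).1.1 (mem_insert_self _ _)), e1] at e4
  rw [card_PP, hc] at e2
  omega

/-- the natural module -/
theorem cG_nat (h : ∀ i, i ≠ o → H.lam i = 0) : H.cG (Sie m) ≤ m := by
  have h1 : H.lz = Pi.single o 1 := funext fun i => by
    obtain ⟨j, hj⟩ := H.exists_lam_pos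
    have h2 := H.lam_lt i
    obtain rfl : j = o := by by_contra e; have := h j e; omega
    rw [HW.lz_apply, Pi.single_apply]
    split_ifs with e
    · subst e; omega
    · rw [h i e]; rfl
  have h2 : x0 H = fun i => if i = o then 1 else 0 := by
    rw [x0, h1, ← tw_ind, ew_tw]
    funext i
    simp only [Fin.le_def, Fin.ext_iff]
    split_ifs <;> omega
  have h3 : H.Min := fun b => by
    rw [← tw_x0, h2]
    by_cases hb : b ∈ Sie m
    · obtain ⟨i, j, e, rfl⟩ := exists_pl hb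
      rw [pair_pl]
      simp only [Fin.ext_iff]
      split_ifs <;> omega
    · obtain ⟨i, j, e, rfl⟩ := exists_mn hb
      rw [pair_mn]
      split_ifs <;> omega
  refine (h3.cG_le _ (univ.image fun i => tw (-Pi.single i 1)) fun μ hμ ⟨b, hb, h4⟩ => ?_).trans
    (card_image_le.trans (by rw [card_univ, Fintype.card_fin]))
  obtain ⟨π, ε, rfl⟩ := (ext_C H).1 hμ
  obtain ⟨i, j, e, rfl⟩ := exists_pl hb
  have h5 : ∀ a, sp π ε (x0 H) a = if a = π.symm o then (ε (π.symm o) : ℤ) else 0 := fun a => by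
    simp only [sp_apply, h2, Equiv.eq_symm_apply]
    split_ifs with e
    · rw [← e, Equiv.symm_apply_apply, mul_one]
    · rw [mul_zero]
  rcases Int.units_eq_one_or (ε (π.symm o)) with h6 | h6
  · rw [pair_pl, h5, h5, h6, Units.val_one] at h4
    split_ifs at h4 <;> omega
  · refine mem_image.2 ⟨π.symm o, mem_univ _, congrArg tw (funext fun a => ?_)⟩
    rw [h5, h6, Pi.neg_apply, Pi.single_apply]
    split_ifs <;> rfl

end HW

section three

variable {k L : Type} [Field k] [AddCommGroup L] [Module k L] {H : HW (eC 3).rc 2 k L}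

theorem cL_mixed (hX : H.X) (h0 : H.lam 0 ≠ 0) (h1 : H.lam 1 ≠ 0) (h2 : H.lam 2 = 0) {S : Finset (PR 3)}
    (hS : ∀ j (h : 0 < j), pl 0 j h.le ∈ S) : 11 ≤ H.cL S := by
  have e : x0 H = ![2, 1, 0] := by
    have a0 := H.lam_lt 0
    have a1 := H.lam_lt 1
    have b0 := x0_step H 0
    have b1 := x0_step H 1
    have b2 := x0_step H 2
    rw [dif_pos (by decide)] at b0 b1
    rw [dif_neg (by decide)] at b2
    change _ = _ + x0 H 1 at b0
    change _ = _ + x0 H 2 at b1
    funext i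
    fin_cases i <;> simp <;> omega
  have h3 : 11 ≤ ((univ.image fun z : Equiv.Perm (Fin 3) × (Fin 3 → ℤˣ) => sp z.1 z.2 ![2, 1, 0]).filter
    fun ν => ν 0 + ν 1 < 0 ∨ ν 0 + ν 2 < 0).card := by decide +kernel
  rw [← card_image_of_injective _ tw_inj] at h3
  refine h3.trans (hX.card_le_cL S _ fun ν hν => ?_)
  obtain ⟨ν, hν', rfl⟩ := mem_image.1 hν
  obtain ⟨a1, a2⟩ := mem_filter.1 hν'
  obtain ⟨z, -, rfl⟩ := mem_image.1 a1
  refine ⟨e ▸ ext_sp H _ _, ?_⟩
  rcases a2 with a2 | a2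
  · exact ⟨_, hS 1 (by decide), by rwa [pair_pl, if_neg (by decide)]⟩
  · exact ⟨_, hS 2 (by decide), by rwa [pair_pl, if_neg (by decide)]⟩

theorem qm3 : TF.QM (eC 3).rc (fun b => b.1.1 ≠ b.1.2) (pl 0 1 (by decide)) (Pi.single 1 1) where
  wt := by decide +kernel
  hσ := by decide
  sh_s := by decide +kernel
  dom c h := by
    have h0 := h 0
    have h1 := h 1
    have h2 := h 2
    have e : (eC 3).rc.C = ![![2, -1, 0], ![-1, 2, -2], ![0, -1, 2]] := by decide +kernel
    simp only [funext_iff, Fin.forall_fin_succ, Pi.sub_apply, RC.toWt, e, Fin.sum_univ_three] at h0 h1 h2 ⊢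
    simp at h0 h1 h2 ⊢
    omega

theorem cG_two (h0 : H.lam 0 = 0) (h1 : H.lam 1 ≠ 0) (h2 : H.lam 2 = 0) : H.cG (Sie 3) ≤ 11 := by
  have hl : H.lam = Pi.single 1 1 := by
    have a1 := H.lam_lt 1
    funext i
    fin_cases i <;> simp <;> omega
  have h3 := qm3.m0_le hl (i := 0) (i' := 1) (by decide +kernel)
  have h4 := qm3.cG_le hl (Sie 3) (univ.filter fun x => x.2.1.1 ≠ x.2.1.2 ∧ ¬ (x.1 = true ∧ ps x.2.1.2 < 3))
    (by simp only [mem_filter, mem_univ, true_and, mem_Sie]; decide +kernel)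
  have h5 : (univ.filter fun x : Bool × PR 3 => x.2.1.1 ≠ x.2.1.2 ∧ ¬ (x.1 = true ∧ ps x.2.1.2 < 3)).card = 9 := by
    decide +kernel
  omega

end three

end Cfsg.Agent.TwoF.DC.TC.Sht
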