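import Cfsg.Agent.TwoF.DC.TC.Sp4B
import Cfsg.Agent.TwoF.DC.TC.Num
import Cfsg.Agent.TwoF.DC.TC.ShortB
import Cfsg.Agent.TwoF.DC.Close
import Cfsg.Agent.TwoF.DC.Pow.Main
import Cfsg.Agent.H183.OutSp4

/-!
# TwoF, defining characteristic, `Sp_4(2^f)` (3): the row (helper62)
-/

set_option autoImplicit false
set_option linter.unusedSectionVars false
set_option linter.unusedVariables false
set_option maxHeartbeats 400000

namespace Cfsg.Agent.TwoF.DC.TC

namespace S4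

open Module Finset Sum Cfsg.Agent.H45.Uni Cfsg.Agent.H45.UniE Cfsg.Agent.TwoF.Gen Cfsg.Agent.H45.UniS Cfsg.Agent.H421.UniS
open Cfsg.Agent.ClassicalGeometry Cfsg.Agent.ClassicalGeometry.Sp4Graph

section abs

variable [hp : Fact (Nat.Prime 2)] {Φ k G : Type} [Fintype Φ] [DecidableEq Φ] [Field k] [IsAlgClosed k] [CharP k 2]
  [Group G] {D : RDat 2 (Fin 2) Φ k G} {T S : Type} [Group T] [Finite T] [Group S] {M : Std D T S} {C : Can D}
  {θ : MulAut T}

theorem G4.row (H : G4 M C θ) (hM : M.Full fun l => l 1 = 0) {S' : Type} [Group S']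
    (hc : ∀ (K : Type) [Group K] [Finite K], IsQuasisimple K → ¬ 2 ∣ Nat.card (Subgroup.center K) →
      Nonempty (K ⧸ Subgroup.center K ≃* S') → Nonempty (T ≃* K)) : Row 2 S' := by
  let _ : Algebra (ZMod 2) k := ZMod.algebra k 2
  have key : ∀ (Y : Type) [Group Y] [Finite Y] (V : Type) [AddCommGroup V] [Module (ZMod 2) V] [Finite V]
      (K : Subgroup Y) (ρ : Representation (ZMod 2) Y V), Stp 2 K ρ → Nonempty (K ⧸ Subgroup.center K ≃* S') →
      ∀ A, Off 2 ρ A → (∃ B ≤ K, Off 2 ρ B ∧ Cub ρ B) ∨ ¬ Irr ρ K ∧ ∃ B, Off 2 ρ B ∧ Cub ρ B := by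
    intro Y _ _ V _ _ _ K ρ hs he A hA
    obtain ⟨e⟩ := hc K hs.qs hs.cop he
    obtain ⟨A, -, hA, hmin⟩ := exists_min_off ((off_bc k A).2 hA)
    have := hs.normal
    have := hs.nontrivial
    have h1 : (K.subtype.comp e.toMonoidHom).range = K := by
      rw [MonoidHom.range_comp, MonoidHom.range_eq_top.2 e.surjective, ← MonoidHom.range_eq_map, Subgroup.range_subtype]
    have X : Sit M C (bc k ρ) (K.subtype.comp e.toMonoidHom)
        ((MulAut.congr e.symm).toMonoidHom.comp MulAut.conjNormal) (Irr ρ K) :=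
      { inj := bc_injective k hs.faithful
        ψinj := K.subtype_injective.comp e.injective
        cj := fun y t => congrArg Subtype.val (e.apply_symm_apply (MulAut.conjNormal y (e t))).symm
        cent := fun y hy => by
          rw [h1]
          refine hs.cent fun x hx => ?_
          obtain ⟨s, rfl⟩ := h1.ge hx
          rw [← mul_inv_eq_iff_eq_mul.1 (hy s)]
        cty := fun g => ⟨H.cfa, H.deg1, boxDeg2 2 _ Φ k G D H.cfa.fa, H.pow,
          boxSt 2 _ Φ k G D T S M C H.cfa H.pow Y V K ρ hs _ ((range_comp _ g).trans h1), inferInstance,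
          Module.nontrivial_of_finrank_pos (R := k) (by rw [Module.finrank_baseChange]; exact finrank_pos)⟩ }
    rcases H.main X hA hM hmin with ⟨B, h8, h9, h10⟩ | ⟨h8, h9⟩
    · exact Or.inl ⟨B, h1 ▸ h8, (off_bc k B).1 h9, (cub_bc k B).1 h10⟩
    · exact Or.inr ⟨h8, A, (off_bc k A).1 hA, (cub_bc k A).1 h9⟩
  exact ⟨fun Y _ _ V _ _ _ K ρ hs he A hA => (key Y V K ρ hs he A hA).elim (fun ⟨B, _, h⟩ => ⟨B, h⟩) fun h => h.2,
    fun Y _ _ V _ _ _ K ρ hs he A hA hirr _ _ _ =>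
      (key Y V K ρ hs he A hA).elim (fun ⟨B, h, h', _⟩ => ⟨B, h, h'⟩) fun h => (h.1 hirr).elim⟩

end abs

/-! ### roots and weights -/

/-- `2 ε_0` -/
def r0 : PR 2 := pl 0 0 le_rfl
/-- `ε_0 + ε_1` -/
def r1 : PR 2 := pl 0 1 (by decide)
/-- `2 ε_1` -/
def r2 : PR 2 := pl 1 1 le_rfl
/-- `ε_0 - ε_1` -/
def r3 : PR 2 := TC.mn 0 1 (by decide)

theorem rt_cases (b : PR 2) : b = r0 ∨ b = r1 ∨ b = r2 ∨ b = r3 := by revert b; decide

/-- the weights of the natural module -/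
def W4 : Finset (Fin 2 → ℤ) := {![1, 0], ![-1, 1], ![1, -1], ![-1, 0]}

theorem ab_le (Sg : Finset (PR 2)) (h : (eC 2).rc.Ab 2 Sg) : Sg.card ≤ 3 := by
  by_contra h1
  have h2 : Sg = univ := Finset.eq_univ_of_card _ (le_antisymm (card_le_univ _)
    (by rw [show Fintype.card (PR 2) = 4 by decide]; omega))
  exact Sht.ab h r1 (b := r2) (b' := r3) (h2 ▸ mem_univ _) (h2 ▸ mem_univ _) (by decide) (by decide)

section hw

variable {k L : Type} [Field k] [AddCommGroup L] [Module k L] (H : HW (eC 2).rc 2 k L) (h : H.lam = w1)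

include h

theorem lz_eq : H.lz = ![1, 0] := funext fun i => by rw [HW.lz_apply, h]; revert i; decide

theorem min4 : H.Min := fun b => by rw [lz_eq H h]; revert b; decide +kernel

theorem ext4 {ν : Fin 2 → ℤ} (hν : ν ∈ W4) : H.Ext ν := by
  have h1 : ∀ ν ∈ W4, ∃ l ∈ ([[], [0], [1, 0], [0, 1, 0]] : List (List (Fin 2))), ν = (eC 2).rc.swl l ![1, 0] := by
    decide +kernel
  obtain ⟨l, -, e⟩ := h1 ν hν
  exact ⟨l, by rw [lz_eq H h]; exact e⟩

theorem d4 : H.d = 4 :=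
  le_antisymm ((min4 H h).d_le W4 (by rw [lz_eq H h]; decide) (by decide +kernel))
    (H.card_le_d W4 fun ν hν => (ext4 H h hν).isWt)

theorem le_cL {Sg : Finset (PR 2)} {b b' : PR 2} (hb : b ∈ Sg) (hb' : b' ∈ Sg) : (if b = b' then 1 else 2) ≤ H.cL Sg := by
  have h1 : ∀ b b' : PR 2, (if b = b' then 1 else 2) ≤
      (W4.filter fun ν => (eC 2).rc.pair ν (true, b) < 0 ∨ (eC 2).rc.pair ν (true, b') < 0).card := by decide +kernel
  exact (h1 b b').trans ((min4 H h).x.card_le_cL Sg _ fun ν hν => ⟨ext4 H h (mem_filter.1 hν).1,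
    (mem_filter.1 hν).2.elim (fun e => ⟨b, hb, e⟩) fun e => ⟨b', hb', e⟩⟩)

theorem cG4 : H.cG (Sie 2) ≤ 2 := Sht.cG_nat (o := 0) rfl fun i hi => by rw [h]; exact Pi.single_eq_of_ne hi _

end hw

/-! ### the graph homomorphism on root elements -/

section grp

variable {k : Type} [Field k] [CharP k 2]

theorem Z_val (b : PR 2) (t : k) (x y : II 2) : (Z b t).1 x y = (if x = y then 1 else 0) +
    if y = b.1.1.swap ∧ x = b.1.2 ∨ y = b.1.2.swap ∧ x = b.1.1 then t else 0 := by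
  rw [entry, Z]
  rcases rt_cases b with rfl | rfl | rfl | rfl
  on_goal 1 => rw [show r0.1.2 = r0.1.1 from rfl, X_long]
  on_goal 2 => rw [X_short (by decide) (by decide)]
  on_goal 3 => rw [show r2.1.2 = r2.1.1 from rfl, X_long]
  on_goal 4 => rw [X_short (by decide) (by decide)]
  all_goals
    rcases x with x | x <;> rcases y with y | y <;> fin_cases x <;> fin_cases y <;>
      simp [r0, r1, r2, r3, pl, TC.mn, bv, om, sg, CharTwo.neg_eq, CharTwo.sub_eq_add]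

theorem gr_Z {b b' : PR 2} {n : ℕ} (h : (b, b', n) ∈ [(r0, r1, 1), (r1, r0, 2), (r2, r3, 1), (r3, r2, 2)]) (t : k) :
    graphHom k (Z b t) = Z b' (t ^ n) := by
  refine Subtype.ext (Matrix.ext fun x y => ?_)
  rw [graphHom_coe, mn_apply]
  simp only [Z_val]
  simp only [List.mem_cons, Prod.mk.injEq, List.not_mem_nil, or_false] at h
  rcases h with ⟨rfl, rfl, rfl⟩ | ⟨rfl, rfl, rfl⟩ | ⟨rfl, rfl, rfl⟩ | ⟨rfl, rfl, rfl⟩ <;>
    rcases x with x | x <;> rcases y with y | y <;> fin_cases x <;> fin_cases y <;>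
      simp [r0, r1, r2, r3, pl, TC.mn, pa, pb, CharTwo.add_self_eq_zero, sq]

theorem mn_gr (g : SG 2 k) : H45.UniS.mn 0 (graphHom k g).1 = H45.UniS.mn 1 g.1 := by
  have h1 : ∀ A : Matrix (II 2) (II 2) k, H45.UniS.mn 0 A = A (inl 0) (inl 0) := fun A => Matrix.det_fin_one _
  have h2 : ∀ A : Matrix (II 2) (II 2) k, H45.UniS.mn 1 A =
      A (inl 0) (inl 0) * A (inl 1) (inl 1) - A (inl 0) (inl 1) * A (inl 1) (inl 0) := fun A => Matrix.det_fin_two _
  rw [h1, h2, CharTwo.sub_eq_add]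
  rfl

theorem gr_le {A : Set (PR 2)} (h : ∀ b ∈ A, ∃ b' ∈ A, ∃ n, (b, b', n) ∈ [(r0, r1, 1), (r1, r0, 2), (r2, r3, 1), (r3, r2, 2)])
    {g : SG 2 k} (hg : g ∈ Subgroup.closure {g : SG 2 k | ∃ b ∈ A, ∃ t, g = Z b t}) :
    graphHom k g ∈ Subgroup.closure {g : SG 2 k | ∃ b ∈ A, ∃ t, g = Z b t} := by
  refine Subgroup.mem_comap.1 ((Subgroup.closure_le _).2 ?_ hg)
  rintro _ ⟨b, hb, t, rfl⟩
  obtain ⟨b', h1, n, h2⟩ := h b hb
  exact Subgroup.subset_closure ⟨b', h1, _, gr_Z h2 t⟩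

theorem Z_comm (b : PR 2) (s t : k) : Z b s * Z r0 t = Z r0 t * Z b s := by
  have h : ∀ b : PR 2, b.1.1 ≠ b.1.2.swap ∧ b.1.1 ≠ r0.1.1.swap ∧ b.1.2 ≠ r0.1.1.swap := by decide
  exact R0 (h b).1 (h r0).1 (h b).2.1 (h b).2.1 (h b).2.2 (h b).2.2 s t

variable [hp : Fact (Nat.Prime 2)] [IsAlgClosed k] {T S : Type} [Group T] [Finite T] [Group S]
  (M : Std (DC 2 2 k) T S) (C : Can (DC 2 2 k))

include C in
theorem two_le_F1 {B : Subgroup T}
    (h : B.map M.φ ≤ Subgroup.closure {g : SG 2 k | ∃ b ∈ ({r0, r1} : Finset (PR 2)), ∃ t, g = Z b t}) : 2 ≤ F1 M B := by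
  have h1 := ((C.rep w1 w1_lt w1_ne).cod_le_cG h).trans (((C.H w1 w1_lt w1_ne).cG_mono (S' := Sie 2) (by decide)).trans
    (cG4 _ (C.lam _ _ _)))
  have h2 : dd (DC 2 2 k) w1 = 4 := d4 _ (C.lam w1 w1_lt w1_ne)
  rw [C.ρ_eq, cod] at h1
  rw [dd] at h2
  rw [F1]
  omega

theorem g4 (hC : C.Fa) {θ : MulAut T} (triv : ∀ γ : M.Gr, γ = 1) (two : 2 ≤ M.f) (hFr : M.Fr = mapS (frobenius k 2))
    (hθ : ∀ s, M.φ (θ s) = graphHom k (M.φ s)) (aut : ∀ β : MulAut T, ∃ (s : T) (i : ℕ), β = MulAut.conj s * θ ^ i) :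
    G4 M C θ := by
  have h1 := boxDeg1 2 _ _ k _ (DC 2 2 k)
  have h2 : dd (DC 2 2 k) w1 = 4 := d4 _ (C.lam w1 w1_lt w1_ne)
  have h3 : ∀ s, M.φ (θ (θ s)) = M.Fr (M.φ s) := fun s => by
    rw [hθ, hθ, hFr]
    exact Subtype.ext (Matrix.ext fun x y => by rw [graphHom_graphHom, mapS_val, frobenius_def])
  have h4 : (DC 2 2 k).U = Subgroup.closure {g : SG 2 k | ∃ b ∈ (Set.univ : Set (PR 2)), ∃ t, g = Z b t} :=
    congrArg Subgroup.closure (Set.ext fun g => exists_congr fun b => (and_iff_right trivial).symm)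
  have h5 := fun Sg => C.cL_add_u w1 w1_lt w1_ne Sg
  refine ⟨hC, h1, Pw.boxPow 2 _ _ k _ _ T S M C, triv, two, fun s => ?_, h3, fun u hu => ?_, aut, h2, ab_le,
    fun Sg ⟨b, hb⟩ => ?_, fun Sg h => ?_, ?_, ?_⟩
  · rw [hθ, DC_Δ, DC_Δ, mn_gr]
  · refine M.mem_U_of h1 hC.fa ?_
    have h6 := M.φ_U hu
    rw [hθ]
    rw [h4] at h6 ⊢
    refine gr_le (fun b _ => ?_) h6
    rcases rt_cases b with rfl | rfl | rfl | rfl
    exacts [⟨r1, trivial, 1, by simp⟩, ⟨r0, trivial, 2, by simp⟩, ⟨r3, trivial, 1, by simp⟩, ⟨r2, trivial, 2, by simp⟩]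
  · have h6 : _ ≤ (C.H w1 w1_lt w1_ne).cL Sg := le_cL _ (C.lam w1 w1_lt w1_ne) hb hb
    have h7 := h5 Sg
    rw [if_pos rfl] at h6
    omega
  · obtain ⟨b, hb, b', hb', e⟩ := Finset.one_lt_card.1 h
    have h6 : _ ≤ (C.H w1 w1_lt w1_ne).cL Sg := le_cL _ (C.lam w1 w1_lt w1_ne) hb hb'
    have h7 := h5 Sg
    rw [if_neg e] at h6
    omega
  · obtain ⟨x, hx, e⟩ := M.exists_of_fix h1 hC.fa ((DC 2 2 k).z_mem_U r0 1) (by
      rw [M.tw_apply, triv M.σ, M.gr_one, M.iter_z, one_pow])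
    refine ⟨x, hx, fun u hu => M.φ_inj ?_, M.φ_inj (by rw [h3, e, M.Fr_z, one_pow]), fun e' => ?_⟩
    · rw [map_mul, map_mul, e]
      refine (Subgroup.mem_centralizer_singleton_iff.1 ((Subgroup.closure_le _).2 ?_ (M.φ_U hu)))
      rintro _ ⟨b, t, rfl⟩
      exact Subgroup.mem_centralizer_singleton_iff.2 (Z_comm b t 1)
    · have h6 := hθ x
      rw [e', e, DC_z, gr_Z (b' := r1) (n := 1) (by simp)] at h6
      have h7 := congrArg (fun g : SG 2 k => g.1 (inl 0) (inr 0)) h6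
      simp [Z_val, r0, r1, pl] at h7
  · have hc : ∀ b ∈ ({r0, r1} : Finset (PR 2)), ∀ b' ∈ ({r0, r1} : Finset (PR 2)), ∀ s t : k,
        Commute (Z b s) (Z b' t) := fun b hb b' hb' s t => by
      rcases mem_insert.1 hb' with rfl | hb'
      · exact Z_comm b s t
      rcases mem_insert.1 hb with rfl | hb
      · exact (Z_comm b' t s).symm
      · rw [mem_singleton.1 hb, mem_singleton.1 hb']
        exact (Z_add r1 s t).symm.trans (add_comm s t ▸ Z_add r1 t s)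
    obtain ⟨B, hB1, hB2, hB3⟩ := h1.sub hC.fa _ _ _ _ (M.tw_Tw M.σ M.f) M.f_pos {r0, r1}
      (fun b hb => by rwa [triv M.σ, map_one]) hc
    have h6 : (B.comap M.φ).map M.φ = B := Subgroup.map_comap_eq_self fun x hx => by
      obtain ⟨u, -, e⟩ := M.exists_of_fix h1 hC.fa
        (Subgroup.closure_mono (by rintro _ ⟨b, -, t, rfl⟩; exact ⟨b, t, rfl⟩) (hB1 hx)) (hB2 x hx)
      exact ⟨u, e⟩
    have h7 : IsElementaryAbelian 2 B := elemAb_of_le (elemAb_closure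
      (by rintro _ ⟨b, hb, t, rfl⟩ _ ⟨b', hb', t', rfl⟩; exact hc b hb b' hb' t t')
      (by rintro _ ⟨b, hb, t, rfl⟩; exact (DC 2 2 k).z_pow b t)) hB1
    refine ⟨B.comap M.φ, elemAb_of (fun a ha b hb => M.φ_inj ?_) fun a ha => M.φ_inj ?_, ?_,
      two_le_F1 M C (h6.le.trans hB1), two_le_F1 M C ?_⟩
    · rw [map_mul, map_mul]; exact elemAb_comm h7 ha hb
    · rw [map_pow, map_one]; exact h7.2 _ ha
    · rw [← Subgroup.card_map_of_injective M.φ_inj, h6, hB3, mul_comm]; rfl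
    · rintro _ ⟨_, ⟨x, hx, rfl⟩, rfl⟩
      refine (hθ x).symm ▸ gr_le (A := ({r0, r1} : Finset (PR 2))) (fun b hb => ?_) (hB1 hx)
      rcases mem_insert.1 hb with rfl | hb
      · exact ⟨r1, by simp, 1, by simp⟩
      · exact ⟨r0, by simp, 2, by simp [mem_singleton.1 hb]⟩

end grp

/-! ### the finite group -/

section fin

open Cfsg.Agent.ClassicalGeometry.Sp4GraphAut Cfsg.Agent.H183.OutSp4

theorem aut_congr {A B : Type} [Group A] [Group B] (e : A ≃* B) {θ : MulAut A}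
    (h : ∀ β : MulAut A, ∃ (s : A) (i : ℕ), β = MulAut.conj s * θ ^ i) (β : MulAut B) :
    ∃ (s : B) (i : ℕ), β = MulAut.conj s * MulAut.congr e θ ^ i := by
  obtain ⟨β, rfl⟩ := (MulAut.congr e).surjective β
  obtain ⟨s, i, rfl⟩ := h β
  exact ⟨e s, i, by rw [map_mul, map_pow]; congr 1; ext; simp [MulAut.congr]⟩

variable {F : Type} [Field F] [Fintype F] [CharP F 2]

theorem aut_psp {f : ℕ} (hf : 1 ≤ f) (hF : Fintype.card F = 2 ^ f) (β : MulAut (PSp 2 F)) :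
    ∃ (s : PSp 2 F) (i : ℕ), β = MulAut.conj s * gamma F ^ i := by
  let g : Out (PSp 2 F) := QuotientGroup.mk (gamma F)
  have h1 : 2 * f ∣ orderOf g := by
    have h1 : gamma F ^ orderOf g ∈ Inn (PSp 2 F) := by
      rw [← QuotientGroup.eq_one_iff, QuotientGroup.mk_pow]
      exact pow_orderOf_eq_one g
    rcases Nat.even_or_odd' (orderOf g) with ⟨j, hj | hj⟩ <;> rw [hj] at h1
    · exact hj ▸ Nat.mul_dvd_mul_left 2 (dvd_of_pow_eq hf hF (pow_eq_of_inn h1))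
    · exact (gamma_pow_odd_not_inn j h1).elim
  have h2 : Subgroup.zpowers g = ⊤ := Subgroup.eq_top_of_card_eq _ (by
    rw [Nat.card_zpowers]
    exact le_antisymm orderOf_le_card ((out_psp4 hf hF).2.le.trans (Nat.le_of_dvd (orderOf_pos g) h1)))
  obtain ⟨i, hi⟩ := mem_powers_iff_mem_zpowers.2 (h2.ge (Subgroup.mem_top (QuotientGroup.mk β)))
  obtain ⟨s, hs⟩ := QuotientGroup.eq.1 (show (QuotientGroup.mk (gamma F ^ i) : Out (PSp 2 F)) = QuotientGroup.mk β from hi)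
  exact ⟨(gamma F ^ i) s, i, by rw [← mul_conj, show MulAut.conj s = _ from hs, mul_inv_cancel_left]⟩

theorem aut_sp {f : ℕ} (hf : 1 ≤ f) (hF : Fintype.card F = 2 ^ f) (β : MulAut (SG 2 F)) :
    ∃ (s : SG 2 F) (i : ℕ), β = MulAut.conj s * (show MulAut (SG 2 F) from graphEquiv F) ^ i := by
  let e : SG 2 F ≃* PSp 2 F := MulEquiv.ofBijective (QuotientGroup.mk' _)
    ⟨fun A B h => mk_injective one_le_two h, QuotientGroup.mk'_surjective _⟩
  have h := aut_congr e.symm (aut_psp hf hF) β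
  rwa [show MulAut.congr e.symm (gamma F) = graphEquiv F from MulEquiv.ext fun x => e.symm_apply_eq.2 rfl] at h

theorem gr_map {k : Type} [Field k] [CharP k 2] (ω : F →+* k) (g : SG 2 F) :
    mapS ω (graphHom F g) = graphHom k (mapS ω g) :=
  Subtype.ext (Matrix.ext fun x y => by simp only [mapS_val, graphHom_coe, mn_apply, map_add, map_mul])

theorem exists_θ {k : Type} [Field k] [CharP k 2] (ω : F →+* k) {f : ℕ} (hf : 1 ≤ f) (hF : Fintype.card F = 2 ^ f)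
    {K : Subgroup (SG 2 k)} (hK : K = (mapS ω).range) : Subgroup.center K = ⊥ ∧ ∃ θ : MulAut K,
      (∀ s, (θ s : SG 2 k) = graphHom k s) ∧ ∀ β : MulAut K, ∃ (s : K) (i : ℕ), β = MulAut.conj s * θ ^ i := by
  subst hK
  let e := MonoidHom.ofInjective (mapS_inj (m := 2) ω)
  refine ⟨(Subgroup.eq_bot_iff_forall _).2 fun x hx => ?_, _, fun s => ?_, aut_congr e (aut_sp hf hF)⟩
  · obtain ⟨x, rfl⟩ := e.surjective x
    rw [Subgroup.mem_bot.1 ((center_eq_bot one_le_two).le (Subgroup.mem_center_iff.2 fun g => e.injective (by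
      rw [map_mul, map_mul, Subgroup.mem_center_iff.1 hx]) : x ∈ _)), map_one]
  · obtain ⟨s, rfl⟩ := e.surjective s
    exact (congrArg (fun x => (e (graphHom F x) : SG 2 k)) (e.symm_apply_apply s)).trans (gr_map ω s)

end fin

end S4

open S4 in
/-- **`Sp_4(2^f)`** -/
theorem boxSp4 (hS : BoxShort) : BoxSp4 := by
  intro F _ _ _ h3
  obtain ⟨⟨f, hf⟩, -, hF⟩ := FiniteField.card F 2
  replace hF : Fintype.card F = 2 ^ f := hF
  let k := AlgebraicClosure F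
  let ω := algebraMap F k
  have h1 : okS = fun l : Fin 2 → ℕ => l 1 = 0 := funext fun l => propext
    ⟨fun h => h 1 (by decide), fun h => Fin.forall_fin_two.2 ⟨fun e => (e (by decide)).elim, fun _ => h⟩⟩
  have hC := comb_C (k := k) (ok := fun l => l 1 = 0) hf (h1 ▸ hS 2 le_rfl k _ (DC 2 2 k) rfl) ⟨w1, w1_lt, w1_ne, rfl⟩
  have hfin := (PC 2 2 k f hf).finite_TT hC.fa
  have h2 := TT_eq hf hF ω hC.fa
  obtain ⟨π, hπ, hk⟩ := exists_π ω h2
  obtain ⟨hZ, θ, h4, h5⟩ := exists_θ ω hf hF h2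
  have h6 := S0270.result (F := F) 2 le_rfl fun _ => h3
  have h7 := H837.RC.KilledP2.psp_nonab (F := F) le_rfl fun _ => h3
  have h8 := (PC 2 2 k f hf).cover_of hC.fa h6 h7 hπ hk (S2092.result hF 2 le_rfl (fun _ => hF ▸ h3) (by omega))
    (d := Nat.gcd 2 (2 ^ f - 1)) (a := 0)
    (by rw [Nat.card_congr Multiplicative.toAdd, Nat.card_zmod, pow_zero, mul_one]) (Nat.gcd_pos_of_pos_left _ two_pos)
    (le_card_Zc hf two_pos)
  let M := (PC 2 2 k f hf).std hC.fa (1 : _ →* Unit) (fun _ => ⟨1, rfl⟩)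
    ((PC 2 2 k f hf).perfect_of hC.fa (perfect_of_simple h6 h7) hπ hk) fun K _ _ hK _ e =>
      (not_nontrivial _ (e.nontrivial_congr.1 hK.2.toNontrivial)).elim
  have hM : M.Full fun l => l 1 = 0 := Tws.full _ hC.fa hC fun α =>
    ⟨1, 1, 1, 0, one_mem _, Commute.one_left _, fun s => ⟨s, by rw [M.gr_one]; simp, rfl⟩⟩
  obtain ⟨C⟩ := boxHW 2 _ _ k _ (DC 2 2 k)
  refine (g4 M C (C.fa_of_full hM) (fun _ => rfl) ?_ rfl h4 h5).row hM fun K _ _ hK hp ⟨e⟩ => ?_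
  · by_contra h9
    rw [hF, show f = 1 by have : ¬ 2 ≤ f := h9; omega] at h3
    omega
  obtain ⟨ψ, hψ, h9⟩ := h8 K hK hp e
  refine ⟨MulEquiv.ofBijective ψ ⟨(injective_iff_map_eq_one _).2 fun s hs => Subgroup.mem_bot.1 (hZ.le (hk ?_)), hψ⟩⟩
  rw [MonoidHom.mem_ker, ← h9, hs, QuotientGroup.mk_one, map_one]

end Cfsg.Agent.TwoF.DC.TC
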