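import Cfsg.Agent.TwoF.DC.TC.Iface

/-!
# TwoF, defining characteristic, type `B` in characteristic two: the spin modules (helper64)
-/

set_option autoImplicit false
set_option linter.unusedSectionVars false

namespace Cfsg.Agent.TwoF.DC.TC

open Finset Matrix Sum

namespace Spin

/-! ### numerics -/

theorem chain {P : ℕ → Prop} {lo hi : ℕ} (h : ∀ q, lo ≤ q → q < hi → (P q ↔ P (q + 1))) {a b : ℕ} (h1 : lo ≤ a)
    (h2 : a ≤ hi) (h3 : lo ≤ b) (h4 : b ≤ hi) (ha : P a) : P b := by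
  have key : ∀ q, lo ≤ q → q ≤ hi → (P q ↔ P lo) := fun q hq => by
    induction q, hq using Nat.le_induction with
    | base => exact fun _ => Iff.rfl
    | succ q hq ih => exact fun h5 => (h q hq h5).symm.trans (ih (by omega))
  exact (key b h3 h4).2 ((key a h1 h2).1 ha)

theorem sum_aux (N e : ℕ) : ∀ k, k + e ≤ N + 1 → 2 * ∑ a ∈ range k, (N - (a + e)) + k * k + 2 * k * e = 2 * k * N + k
  | 0, _ => by simp
  | k + 1, h => by
    have h1 := sum_aux N e k (by omega)
    obtain ⟨r, hr⟩ : ∃ r, N = k + e + r := ⟨N - (k + e), by omega⟩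
    rw [sum_range_succ, show N - (k + e) = r by omega]
    generalize ∑ a ∈ range k, (N - (a + e)) = s at h1 ⊢
    subst hr
    nlinarith

theorem pow_seven {m : ℕ} (h : 7 ≤ m) : (4 * m + 1) * (4 * m + 1) < 9 * 2 ^ m := by
  induction m, h using Nat.le_induction with
  | base => norm_num
  | succ m hm ih => rw [pow_succ]; nlinarith

theorem pow_five {k : ℕ} (h : 5 ≤ k) : k * k + 1 < 2 ^ k := by
  induction k, h using Nat.le_induction with
  | base => norm_num
  | succ k hk ih => rw [pow_succ]; nlinarith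

theorem pow_three {m : ℕ} (h : 3 ≤ m) : 6 * (m * m) + 4 < 2 ^ m * (2 ^ m - 1) + 2 * m ∧ 8 * m < 2 ^ (m - 1) * 2 ^ m := by
  obtain ⟨n, rfl⟩ : ∃ n, m = n + 3 := ⟨m - 3, by omega⟩
  obtain ⟨u, hu⟩ : ∃ u, 2 ^ n = n + 1 + u := Nat.exists_eq_add_of_le Nat.lt_two_pow_self
  rw [show n + 3 - 1 = n + 2 from rfl, pow_add, pow_add, hu, show (n + 1 + u) * 2 ^ 3 - 1 = 8 * n + 7 + 8 * u by omega]
  constructor <;> nlinarith [Nat.zero_le (n * u), Nat.zero_le (u * u), Nat.zero_le (n * n)]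

theorem num3 {k e c s t : ℕ} (hk : 1 ≤ k) (hm : 3 ≤ k + e) (hc : 2 ^ (k + e) ≤ c + 1 * 2 ^ e)
    (hs : 2 * s + 3 * (k * k) ≤ 4 * k * (k + e) + k) (ht : t * c ≤ 2 * s) : t * 2 ^ (k + e) + 4 ≤ 8 * (k + e) := by
  rcases Nat.eq_zero_or_pos t with rfl | ht0
  · omega
  rcases eq_or_lt_of_le hk with rfl | hk2
  · rw [add_comm 1 e, pow_succ] at *
    have h1 : t * 2 ^ e ≤ t * c := Nat.mul_le_mul_left t (by omega)
    rw [← mul_assoc]
    omega
  by_cases h7 : 7 ≤ k + e
  · have h1 := pow_seven h7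
    have h2 : 4 * 2 ^ e ≤ 2 ^ (k + e) := by
      rw [pow_add]; exact Nat.mul_le_mul_right _ (Nat.pow_le_pow_right (n := 2) two_pos hk2)
    have h3 : c ≤ t * c := Nat.le_mul_of_pos_left c ht0
    have h4 : 12 * (2 * s) ≤ (4 * (k + e) + 1) * (4 * (k + e) + 1) := by
      zify at hs ⊢
      nlinarith [sq_nonneg (4 * ((k : ℤ) + e) + 1 - 6 * k)]
    omega
  · have h1 : t * (2 ^ (k + e) - 2 ^ e) ≤ t * c := Nat.mul_le_mul_left t (by omega)
    have h2 : k ≤ 6 := by omega
    have h3 : e ≤ 4 := by omega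
    clear hc
    interval_cases k <;> interval_cases e <;> first
      | exact absurd (by decide) h7
      | (simp only [Nat.reduceAdd, Nat.reducePow, Nat.reduceSub] at h1 ⊢; omega)

theorem num1 {k e c s t : ℕ} (hk : 2 ≤ k) (hm : 3 ≤ k + e) (hc : 2 ^ (k + e) ≤ c + (k + 1) * 2 ^ e)
    (hs : 2 * s + k ≤ k * k) (ht : t * c ≤ 2 * s) : t * 2 ^ (k + e) + 4 ≤ 8 * (k + e) := by
  have h0 : k < 2 ^ k := Nat.lt_two_pow_self
  obtain ⟨r, hr⟩ : ∃ r, 2 ^ k = k + 1 + r := Nat.exists_eq_add_of_le h0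
  rw [pow_add, hr, add_mul (k + 1)] at hc
  have h1 : t * (r * 2 ^ e) ≤ t * c := Nat.mul_le_mul_left t (by omega)
  rw [mul_left_comm] at h1
  rw [pow_add, mul_left_comm]
  generalize t * 2 ^ e = u at h1 ⊢
  by_cases h5 : 5 ≤ k
  · have h2 := pow_five h5
    rcases Nat.eq_zero_or_pos u with rfl | hu
    · omega
    · have : r ≤ r * u := Nat.le_mul_of_pos_right r hu
      omega
  · have h2 : k ≤ 4 := by omega
    interval_cases k
    · obtain rfl : r = 1 := by omega
      omega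
    · obtain rfl : r = 4 := by omega
      omega
    · obtain rfl : r = 11 := by omega
      omega

variable {m : ℕ}

/-! ### roots of type `B` -/

/-- the root combinatorics of type `B` -/
abbrev rB (m : ℕ) : RC (Fin m) (PR m) := (eC m).dual.rc

theorem card_roots (S : Finset (PR m)) {k N e : ℕ} (h : ∀ b ∈ S, ps b.1.1 < k ∧ ps b.1.1 + e ≤ ps b.1.2 ∧ ps b.1.2 < N)
    (hk : k + e ≤ N + 1) : 2 * S.card + k * k + 2 * k * e ≤ 2 * k * N + k := by
  have h1 : S.card ≤ ((range k).sigma fun a => Ico (a + e) N).card :=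
    card_le_card_of_injOn (fun b => ⟨ps b.1.1, ps b.1.2⟩) (fun b hb => by simpa [and_assoc] using h b hb)
      fun a _ b _ e => by
        simp only [Sigma.mk.injEq, heq_eq_eq] at e
        exact PR.ext' e.1 e.2
  simp only [card_sigma, Nat.card_Ico] at h1
  have := sum_aux N e k hk
  omega

theorem cf_pos (b : PR m) (K : Fin m) : 0 < (rB m).cf b K ↔ ps b.1.1 ≤ K ∧ ps b.1.2 + K + 1 < 2 * m := by
  have h1 := coC_eq b K
  have h2 := b.2
  have h3 := K.2
  rw [PS_cv, PS_wv, PS_wv] at h1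
  show 0 < coC b K ↔ _
  omega

theorem cf_le (b : PR m) {K : Fin m} (hK : K.1 = 0) : (rB m).cf b K ≤ 1 := by
  have h1 := coC_eq b K
  have h2 := b.2
  have h3 : ps b.1.1 = ps b.1.2 ∨ ps b.1.1 ≠ ps b.1.2 := em _
  rw [PS_cv, PS_wv, PS_wv] at h1
  show coC b K ≤ 1
  omega

theorem pair_B (a b : PR m) :
    (rB m).pair ((rB m).wt (true, a)) (true, b) = xv (cv a) b.1.1 + xv (cv a) b.1.2 :=
  (Euc.pair_wt _ _).trans (rv_dot b _)

theorem pair_ge (z x : Bool × PR m) : -2 ≤ (rB m).pair ((rB m).wt z) x := by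
  obtain ⟨a, b, -, h1, -⟩ := rt_exists x
  obtain ⟨c, d, -, -, h2⟩ := rt_exists z
  have h3 : ∀ e, -1 ≤ xv ((eC m).cx z) e := fun e => by
    rw [h2]
    split_ifs with h
    · rw [xv_wv']; omega
    · rw [ps_eq] at h
      rw [xv_add, xv_wv', xv_wv']; omega
  rw [Euc.pair_wt]
  show -2 ≤ (eC m).rx x ⬝ᵥ (eC m).cx z
  rw [h1, add_dotProduct, wv_dot, wv_dot]
  have := h3 a
  have := h3 b
  omega

theorem nz {a b : PR m} (h : (rB m).pair ((rB m).wt (true, a)) (true, b) < 0) : (rB m).NZ 2 (true, b) (true, a) := by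
  refine (rB m).nz_of_zero (by decide) ((rB m).isRt_add (by simp [ng]) h) fun ⟨z, hz⟩ => ?_
  have h1 := pair_ge z (true, b)
  have h2 := (rB m).pair_string (true, b) (true, a) 1
  rw [one_smul, ← hz] at h2
  rw [RC.wt] at h1
  omega

theorem idl_add {S : Finset (PR m)} (hS : (rB m).Idl 2 S) {b β : PR m} (hb : b ∈ S)
    (h : (rB m).pair ((rB m).wt (true, b)) (true, β) < 0) : ∃ a ∈ S, cv a = cv β + cv b := by
  obtain ⟨z, hz⟩ := (nz h).1
  have h1 : z.1 = true := (rB m).pos_of_vec_ge fun j => by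
    rw [hz, Pi.add_apply, RC.vec_true, RC.vec_true]; positivity
  obtain ⟨t, a⟩ := z
  cases h1
  exact ⟨a, hS b hb β a ((rB m).cf_of_vec hz) (nz h), (eC m).dual.cf_add_iff'.1 ((rB m).cf_of_vec hz)⟩

/-- the radical of a maximal parabolic subalgebra -/
def rad (K : Fin m) : Finset (PR m) := univ.filter fun b => 0 < (rB m).cf b K

theorem mem_rad' {K : Fin m} {b : PR m} : b ∈ rad K ↔ 0 < (rB m).cf b K := by simp [rad]

theorem mem_rad {K : Fin m} {b : PR m} : b ∈ rad K ↔ ps b.1.1 ≤ K ∧ ps b.1.2 + K + 1 < 2 * m :=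
  mem_rad'.trans (cf_pos b K)

theorem up_rad (K : Fin m) : (rB m).Up (rad K) := fun b hb β a n h => by
  rw [mem_rad'] at hb ⊢
  rw [h, Pi.add_apply]; omega

theorem zi_rad {K j : Fin m} (h : j ≠ K) : (rB m).zi j ∉ rad K := by
  rw [mem_rad', RC.cf_zi, Pi.single_eq_of_ne' h]; exact lt_irrefl _

theorem s_rad {K j : Fin m} (h : j ≠ K) (b : PR m) (hb : b ∈ rad K) : (rB m).s j b ∈ rad K := by
  have h1 := (rB m).cf_s j b (fun e => zi_rad h (e ▸ hb)) K
  rw [if_neg h.symm] at h1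
  rw [mem_rad'] at hb ⊢
  omega

/-- an abelian ideal lies in the radical of a maximal parabolic subalgebra -/
theorem exists_rad {S : Finset (PR m)} (h0 : S.Nonempty) (hA : (rB m).Ab 2 S) (hI : (rB m).Idl 2 S) :
    ∃ K, S ⊆ rad K := by
  obtain ⟨b0, hb0, hm⟩ := exists_max_image S (fun b => ps b.1.1) h0
  obtain ⟨K, hK⟩ := exists_inl b0.lt
  have h1 : ps b0.1.1 = K := by rw [hK]; rfl
  refine ⟨K, fun b hb => mem_rad.2 ⟨h1 ▸ hm b hb, ?_⟩⟩
  by_contra h2
  have h3 := b.2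
  have h4 := b0.2
  have h5 := K.2
  have h6 := ps_swap b.1.2
  by_cases h7 : ps b.1.2 + K + 1 = 2 * m
  · refine hA b hb b0 hb0 (nz ?_)
    simp only [pair_B, xv_cv, xv_wv']
    omega
  · obtain ⟨a, ha, h8⟩ := idl_add hI hb0 (β := ⟨(b.1.2.swap, inr K), by simp only [ps_inr]; omega⟩) (by
      simp only [pair_B, xv_cv, xv_wv', ps_inr]
      omega)
    refine hA b hb a ha (nz ?_)
    simp only [pair_B, h8, xv_add, xv_cv, xv_wv', ps_inr]
    omega

/-- the root with the positions `p`, `q` lies in `S` -/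
def In (S : Finset (PR m)) (p q : ℕ) : Prop := ∃ b ∈ S, ps b.1.1 = p ∧ ps b.1.2 = q

section inv

variable {S : Finset (PR m)} {K : Fin m} (hs : ∀ j, j ≠ K → ∀ b ∈ S, (rB m).s j b ∈ S)
include hs

theorem step {p q p' q' j : ℕ} (hj : j < m) (hK : j ≠ K) (h : In S p q)
    (h1 : p' = if p = j then j + 1 else if p = j + 1 then j else if p = 2 * m - 1 - j then 2 * m - 2 - j
      else if p = 2 * m - 2 - j then 2 * m - 1 - j else p)
    (h2 : q' = if q = j then j + 1 else if q = j + 1 then j else if q = 2 * m - 1 - j then 2 * m - 2 - j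
      else if q = 2 * m - 2 - j then 2 * m - 1 - j else q) (h3 : p' ≤ q' ∧ p' + q' + 1 < 2 * m) : In S p' q' := by
  obtain ⟨b, hb, rfl, rfl⟩ := h
  replace h1 : p' = ps (rI ⟨j, hj⟩ b.1.1) := h1.trans (ps_rI ⟨j, hj⟩ _).symm
  replace h2 : q' = ps (rI ⟨j, hj⟩ b.1.2) := h2.trans (ps_rI ⟨j, hj⟩ _).symm
  subst h1 h2
  have h4 := hs ⟨j, hj⟩ (Fin.ne_of_val_ne hK) b hb
  rw [show (rB m).s ⟨j, hj⟩ b = ⟨(_, _), h3⟩ from dif_pos h3] at h4
  exact ⟨_, h4, rfl, rfl⟩

theorem stepA {p q : ℕ} (h1 : p < q) (h2 : q < m) (h3 : q ≠ K) : In S p q ↔ In S p (q + 1) :=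
  ⟨fun h => step hs h2 h3 h (by split_ifs <;> omega) (by split_ifs <;> omega) (by omega),
    fun h => step hs h2 h3 h (by split_ifs <;> omega) (by split_ifs <;> omega) (by omega)⟩

theorem stepB {p q : ℕ} (h1 : p + 1 < q) (h2 : q < m) (h3 : p ≠ K) : In S p q ↔ In S (p + 1) q :=
  ⟨fun h => step hs (j := p) (by omega) h3 h (by split_ifs <;> omega) (by split_ifs <;> omega) (by omega),
    fun h => step hs (j := p) (by omega) h3 h (by split_ifs <;> omega) (by split_ifs <;> omega) (by omega)⟩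

theorem stepC {p : ℕ} (h1 : p + 1 < m) (h3 : p ≠ K) : In S p p ↔ In S (p + 1) (p + 1) :=
  ⟨fun h => step hs (j := p) (by omega) h3 h (by split_ifs <;> omega) (by split_ifs <;> omega) (by omega),
    fun h => step hs (j := p) (by omega) h3 h (by split_ifs <;> omega) (by split_ifs <;> omega) (by omega)⟩

theorem all_plus {p q : ℕ} (h : In S p q) (h1 : p < q) (h2 : q ≤ K) {a b : ℕ} (h3 : a < b) (h4 : b ≤ K) : In S a b := by
  have hK := K.2
  have hA : ∀ p q : ℕ, p + 1 ≤ q → q < K → (In S p q ↔ In S p (q + 1)) := fun p q h h' => stepA hs h (by omega) (by omega)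
  refine chain (hA a) (a := K) (by omega) le_rfl h3 h4 ?_
  refine chain (P := fun p => In S p K) (lo := 0) (hi := K - 1) (fun p _ h => stepB hs (by omega) hK (by omega))
    (a := p) (by omega) (by omega) (by omega) (by omega) ?_
  exact chain (hA p) h1 h2 (by omega) le_rfl h

theorem all_short (hI : (rB m).Idl 2 S) {p q : ℕ} (h : In S p q) (h1 : p ≤ K) (h2 : ¬ (p < q ∧ q ≤ K)) {a : ℕ}
    (h3 : a ≤ K) : In S a a := by
  have hK := K.2
  refine chain (P := fun p => In S p p) (lo := 0) (hi := K) (fun p _ h => stepC hs (by omega) (by omega)) (a := p)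
    (by omega) h1 (by omega) h3 ?_
  have h4 : p ≤ q := by obtain ⟨b, -, rfl, rfl⟩ := h; exact b.2.1
  rcases eq_or_lt_of_le h4 with rfl | h4
  · exact h
  obtain ⟨q', h5, b, hb, rfl, rfl⟩ : ∃ q', m ≤ q' ∧ In S p q' := by
    by_cases h5 : m ≤ q
    · exact ⟨q, h5, h⟩
    · exact ⟨m, le_rfl, chain (P := In S p) (lo := K + 1) (hi := m) (fun q h h' => stepA hs (by omega) h' (by omega)) (a := q)
        (by omega) (by omega) hK le_rfl h⟩
  have h6 := ps_swap b.1.2
  have h7 := b.2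
  obtain ⟨a, ha, h8⟩ := idl_add hI hb (β := ⟨(b.1.2.swap, b.1.2.swap), by dsimp only; omega⟩) (by
    simp only [pair_B, xv_cv, xv_wv']
    omega)
  have h9 : a = ⟨(b.1.1, b.1.1), by dsimp only; omega⟩ := cv_inj (by
    rw [h8, cv, cv, cv, if_pos rfl, if_pos rfl, if_neg (by rw [ps_eq]; omega), wv_swap]
    abel)
  exact ⟨a, ha, by rw [h9], by rw [h9]⟩

end inv

/-! ### the weights of the spin module -/

/-- sign vectors -/
def sg (T : Finset (Fin m)) : Fin m → ℤ := fun i => if i ∈ T then -1 else 1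

/-- the weight of a sign vector -/
def tb (T : Finset (Fin m)) : Fin m → ℤ := fun i => (rv (zc i) ⬝ᵥ sg T) / 2

theorem xv_sg (T : Finset (Fin m)) (a : II m) : xv (sg T) a = 1 ∨ xv (sg T) a = -1 := by
  rcases a with i | i <;> simp only [xv, sg] <;> split_ifs <;> simp

theorem xv_sg_of {T : Finset (Fin m)} {a : II m} {i : Fin m} (h : ps a = i) : xv (sg T) a = -1 ↔ i ∈ T := by
  rw [ps_inj (b := inl i) h, xv_inl, sg]
  split_ifs with e <;> simp [e]

theorem isW_tb (T : Finset (Fin m)) : (eC m).dual.IsW 2 (tb T) (sg T) := fun i => by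
  show rv (zc i) ⬝ᵥ sg T = 2 * ((rv (zc i) ⬝ᵥ sg T) / 2)
  have h1 := xv_sg T (zc i).1.1
  have h2 := xv_sg T (zc i).1.2
  rw [rv_dot]
  omega

theorem tb_inj : Function.Injective (tb (m := m)) := fun T T' h => by
  have h1 := (isW_tb T).uniq (h ▸ isW_tb T')
  ext i
  have h2 := congrFun h1 i
  simp only [sg] at h2
  split_ifs at h2 with e e' e' <;> simp [e, e'] at h2 ⊢

theorem pair_tb (T : Finset (Fin m)) (b : PR m) :
    2 * (rB m).pair (tb T) (true, b) = xv (sg T) b.1.1 + xv (sg T) b.1.2 :=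
  ((isW_tb T).pair (true, b)).symm.trans (rv_dot b _)

theorem card_compl (K : Fin m) (U : Finset (Finset (Fin m))) :
    (univ.filter fun T : Finset (Fin m) => T ∩ Iic K ∈ U).card ≤ U.card * 2 ^ (m - 1 - K) := by
  rw [← Fin.card_Ioi, ← card_powerset, ← card_product]
  refine card_le_card_of_injOn (fun T => (T ∩ Iic K, T ∩ Ioi K)) (fun T hT => ?_) fun T _ T' _ e => ?_
  · exact mem_coe.2 (mem_product.2 ⟨(mem_filter.1 hT).2, mem_powerset.2 inter_subset_right⟩)
  · ext i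
    have h1 := Finset.ext_iff.1 (congrArg Prod.fst e) i
    have h2 := Finset.ext_iff.1 (congrArg Prod.snd e) i
    rcases le_or_gt i K with h | h
    · simpa [h] using h1
    · simpa [h] using h2

section spin

variable {k L : Type} [Field k] [AddCommGroup L] [Module k L] (H : HW (rB m) 2 k L) (h : okL H.lam)
include h

theorem ext_iff {ν : Fin m → ℤ} : H.Ext ν ↔ ∃ T, ν = tb T := by
  have h0 : (eC m).dual.IsW 2 H.lz (sg ∅) := fun i => by
    show rv (zc i) ⬝ᵥ sg ∅ = 2 * (H.lam i : ℤ)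
    rw [rv_zc_dot]
    split_ifs with hi
    · simp [sg, h i hi]
    · obtain ⟨j, hj⟩ := H.exists_lam_pos
      have h1 : ¬ j.1 + 1 < m := fun e => hj.ne' (h j e)
      have h2 := H.lam_lt j
      rw [show i = j from Fin.ext (by omega), show H.lam j = 1 by omega]
      simp [sg]
  rw [bc_B.ext_iff H two_ne_zero h0]
  constructor
  · rintro ⟨π, ε, h1⟩
    refine ⟨univ.filter fun i => ε i = -1, h1.inj two_ne_zero ?_⟩
    convert isW_tb _ using 1
    funext i
    rcases Int.units_eq_one_or (ε i) with e | e <;> simp [sp, sg, e]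
  · rintro ⟨T, rfl⟩
    refine ⟨1, fun i => if i ∈ T then -1 else 1, ?_⟩
    convert isW_tb T using 1
    funext i
    by_cases e : i ∈ T <;> simp [sp, sg, e]

theorem ext_tb (T : Finset (Fin m)) : H.Ext (tb T) := (ext_iff H h).2 ⟨T, rfl⟩

theorem min : H.Min := fun b => by
  obtain ⟨T, hT⟩ := (ext_iff H h).1 H.ext_lz
  have h1 := pair_tb T b
  have h2 := xv_sg T b.1.1
  have h3 := xv_sg T b.1.2
  rw [hT]
  omega

theorem le_d : 2 ^ m ≤ H.d := by
  have h1 := H.card_le_d (univ.image tb) fun μ hμ => by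
    obtain ⟨T, -, rfl⟩ := mem_image.1 hμ
    exact (ext_tb H h T).isWt
  simpa [card_image_of_injective _ tb_inj] using h1

theorem faith (b : PR m) : H.E (true, b) 1 ≠ 0 := by
  have h1 : ∀ a, a = b.1.1 ∨ a = b.1.2 → xv (sg (univ.filter fun i => inl i = b.1.1 ∨ inl i = b.1.2)) a = -1 := by
    rintro (i | i) ha
    · simp [xv, sg, ha]
    · have h2 := b.2
      have h3 := i.2
      rw [xv_inr, sg, if_neg]
      simp only [mem_filter, mem_univ, true_and, ps_eq, ps_inl, ps_inr] at ha ⊢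
      omega
  have h2 := pair_tb (univ.filter fun i => inl i = b.1.1 ∨ inl i = b.1.2) b
  rw [h1 _ (Or.inl rfl), h1 _ (Or.inr rfl)] at h2
  obtain ⟨v, hv, h0⟩ := H.isWt_iff.1 (ext_tb H h (univ.filter fun i => inl i = b.1.1 ∨ inl i = b.1.2)).isWt
  exact fun e => h0 ((min H h).x.ext (ext_tb H h _) (x := (true, b)) (by omega) hv (by rw [e]; rfl))

theorem le_cL (S : Finset (PR m)) (K : Fin m) (U : Finset (Finset (Fin m)))
    (hU : ∀ T, T ∩ Iic K ∉ U → ∃ i ∈ T, ∃ j ∈ T, In S i j) : 2 ^ m ≤ H.cL S + U.card * 2 ^ (m - 1 - K) := by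
  have h1 := (min H h).x.card_le_cL S ((univ.filter fun T : Finset (Fin m) => ¬ T ∩ Iic K ∈ U).image tb) fun ν hν => by
    obtain ⟨T, hT, rfl⟩ := mem_image.1 hν
    obtain ⟨i, hi, j, hj, b, hb, h1, h2⟩ := hU T (mem_filter.1 hT).2
    have h3 := pair_tb T b
    rw [(xv_sg_of h1).2 hi, (xv_sg_of h2).2 hj] at h3
    exact ⟨ext_tb H h T, b, hb, by omega⟩
  have h2 := card_compl K U
  have h3 := card_filter_add_card_filter_not (s := univ) fun T : Finset (Fin m) => T ∩ Iic K ∈ U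
  rw [card_image_of_injective _ tb_inj] at h1
  rw [card_univ, Fintype.card_finset, Fintype.card_fin] at h3
  omega

theorem cG_le {K : Fin m} (hK : K.1 = 0) : H.cG (rad K) ≤ 2 ^ (m - 1) := by
  refine ((min H h).cG_le _ ((univ.erase K).powerset.image fun T => tb (insert K T)) ?_).trans
    (card_image_le.trans (by simp))
  rintro μ hμ ⟨b, hb, h1⟩
  obtain ⟨T, rfl⟩ := (ext_iff H h).1 hμ
  have h2 := pair_tb T b
  have h3 := xv_sg T b.1.1
  have h4 := xv_sg T b.1.2
  have h5 : K ∈ T := (xv_sg_of (a := b.1.1) (by have := (mem_rad.1 hb).1; omega)).1 (by omega)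
  exact mem_image.2 ⟨T.erase K, mem_powerset.2 (erase_subset_erase _ (subset_univ _)), by rw [insert_erase h5]⟩

theorem cubic {K : Fin m} (hK : K.1 = 0) : ∀ a ∈ rad K, ∀ b ∈ rad K, ∀ c ∈ rad K, ∀ l r n, 0 < l → 0 < r → 0 < n →
    H.E (true, a) l * H.E (true, b) r * H.E (true, c) n = 0 := by
  let θ : PR m := ⟨(inl K, inl K), by have := K.2; simp only [ps]; omega⟩
  have h1 : ∀ a ∈ rad K, (rB m).pair ((rB m).wt (true, a)) (true, θ) = 2 := fun a ha => by
    have h2 := mem_rad.1 ha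
    have h3 := a.2
    simp only [pair_B, θ, xv_cv, xv_wv', ps_inl]
    omega
  refine H.cubic_of_wt _ fun a ha b hb c hc l r n hl hr hn μ hμ h2 => ?_
  have h3 := (min H h).pair_le h2 (true, θ)
  have h4 := (min H h).pair_le hμ (false, θ)
  simp only [RC.pair_add, RC.pair_smul, h1 a ha, h1 b hb, h1 c hc] at h3
  rw [RC.pair_false] at h4
  omega

end spin

theorem card_rad {K : Fin m} (hK : K.1 = 0) : 2 * m - 1 ≤ (rad K).card := by
  have h1 : (univ.erase (inr K : II m)).card ≤ (rad K).card := by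
    refine card_le_card_of_surjOn (fun b => b.1.2) fun c hc => ?_
    have h2 : ps c ≠ ps (inr K : II m) := fun e => (mem_erase.1 hc).1 (ps_inj e)
    have h3 := ps_lt c
    rw [ps_inr] at h2
    exact ⟨⟨(inl K, c), by simp only [ps_inl]; omega⟩, mem_coe.2 (mem_rad.2 (by simp only [ps_inl]; omega)), rfl⟩
  simpa [two_mul] using h1

/-- the lower bound for the codimension -/
theorem key (hm : 3 ≤ m) {S : Finset (PR m)} {K : Fin m} (h0 : S.Nonempty) (hS : S ⊆ rad K) (hI : (rB m).Idl 2 S)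
    (hs : ∀ j, j ≠ K → ∀ b ∈ S, (rB m).s j b ∈ S) : ∃ c, (∀ t, t * c ≤ 2 * S.card → t * 2 ^ m + 4 ≤ 8 * m) ∧
      ∀ (k L : Type) [Field k] [AddCommGroup L] [Module k L] (H : HW (rB m) 2 k L), okL H.lam → c ≤ H.cL S := by
  have hK := K.2
  obtain ⟨e, he⟩ : ∃ e, m = K + 1 + e := ⟨m - 1 - K, by omega⟩
  have he' : m - 1 - K = e := by omega
  by_cases h1 : ∀ b ∈ S, ps b.1.1 < ps b.1.2 ∧ ps b.1.2 ≤ K
  · obtain ⟨b, hb⟩ := h0
    have h2 := card_roots S (k := K + 1) (N := K + 1) (e := 1) (fun b hb => by have := h1 b hb; omega) le_rfl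
    have h3 := h1 b hb
    refine ⟨2 ^ m - (K + 1 + 1) * 2 ^ e, fun t ht => ?_, fun k L _ _ _ H h => ?_⟩
    · have h4 := num1 (k := K + 1) (e := e) (by omega) (by omega) (by rw [← he]; omega) (by nlinarith) ht
      rwa [← he] at h4
    · have h4 := le_cL H h S K (insert ∅ ((Iic K).image singleton)) fun T hT => by
        obtain ⟨i, j, hi, hj, hij⟩ : ∃ i j, i ∈ T ∩ Iic K ∧ j ∈ T ∩ Iic K ∧ i ≠ j := by
          refine one_lt_card_iff.1 (lt_of_not_ge fun h5 => hT ?_)
          rcases eq_empty_or_nonempty (T ∩ Iic K) with h6 | ⟨i, hi⟩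
          · rw [h6]; exact mem_insert_self _ _
          · exact mem_insert_of_mem (mem_image.2 ⟨i, (mem_inter.1 hi).2,
              (eq_singleton_iff_unique_mem.2 ⟨hi, fun j hj => card_le_one.1 h5 j hj i hi⟩).symm⟩)
        rw [mem_inter, mem_Iic] at hi hj
        rcases lt_or_gt_of_ne hij with h5 | h5
        · exact ⟨i, hi.1, j, hj.1, all_plus hs ⟨b, hb, rfl, rfl⟩ h3.1 h3.2 h5 hj.2⟩
        · exact ⟨j, hj.1, i, hi.1, all_plus hs ⟨b, hb, rfl, rfl⟩ h3.1 h3.2 h5 hi.2⟩
      have h5 : (insert ∅ ((Iic K).image singleton) : Finset (Finset (Fin m))).card ≤ K + 1 + 1 :=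
        (card_insert_le _ _).trans (Nat.succ_le_succ (card_image_le.trans (Fin.card_Iic K).le))
      have h6 := Nat.mul_le_mul_right (2 ^ e) h5
      rw [he'] at h4
      omega
  · simp only [not_forall] at h1
    obtain ⟨b, hb, h1⟩ := h1
    have h2 := card_roots S (k := K + 1) (N := K + 1 + 2 * e) (e := 0) (fun b hb => by
      have := mem_rad.1 (hS hb); have := b.2; omega) (by omega)
    refine ⟨2 ^ m - 1 * 2 ^ e, fun t ht => ?_, fun k L _ _ _ H h => ?_⟩
    · have h4 := num3 (k := K + 1) (e := e) (by omega) (by omega) (by rw [← he]; omega) (by nlinarith) ht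
      rwa [← he] at h4
    · have h4 := le_cL H h S K {∅} fun T hT => by
        obtain ⟨i, hi⟩ := nonempty_iff_ne_empty.2 fun e => hT (mem_singleton.2 e)
        rw [mem_inter, mem_Iic] at hi
        exact ⟨i, hi.1, i, hi.1, all_short hs hI ⟨b, hb, rfl, rfl⟩ (mem_rad.1 (hS hb)).1 h1 hi.2⟩
      rw [he', card_singleton] at h4
      omega

end Spin

open Spin in
/-- **type `B`, characteristic two, spin modules** -/
theorem boxSpin : BoxSpin := by
  rintro m hm k G _ _ _ ⟨D, R, h1, h2, h3, h4, h5, h6, cm, h8⟩ rfl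
  refine ⟨fun L _ _ H h => Spin.faith H h, fun σ F hok hT S h0 hA hI hv => ?_,
    fun _ σ J _ _ L _ _ H rep hok S _ _ sl hsl _ hle => ?_⟩
  · obtain ⟨K, hK⟩ := exists_rad h0 hA hI
    obtain ⟨S', hS, h0', hI', hv', hs⟩ := hT (rad K) (up_rad K) ⟨S, hK, h0, hv⟩
    obtain ⟨c, hc, hc'⟩ := key hm h0' hS hI' fun j hj => hs j (zi_rad hj) (s_rad hj)
    have hp : 2 ^ m = 2 * 2 ^ (m - 1) := by rw [← pow_succ', Nat.sub_add_cancel (by omega)]
    have hd : ∀ j, F.dbl j = false := fun j => by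
      by_contra hj
      have e1 := (single_le_sum (fun _ _ => Nat.zero_le _) (mem_univ j)).trans hv'
      rw [if_pos (by simpa using hj)] at e1
      have e2 := Nat.mul_le_mul (hc' k _ (F.H j) (hok j)) (show 2 ^ m ≤ 2 * (F.H j).d - (F.H j).cL S' by
        have := le_d (F.H j) (hok j); have := (F.H j).cL_le_d S'; omega)
      have e3 := hc (2 ^ (m - 1)) (by rw [hp] at e2; nlinarith)
      have e4 := (pow_three hm).2
      omega
    have ht := hc (Fintype.card F.J) (by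
      have e1 : ∑ _j : F.J, 2 * c ≤ F.val S' := sum_le_sum fun j _ => by
        rw [if_neg (by simp [hd j])]; exact Nat.mul_le_mul_left 2 (hc' k _ (F.H j) (hok j))
      rw [sum_const, card_univ, smul_eq_mul, mul_left_comm] at e1
      omega)
    let K0 : Fin m := ⟨0, by omega⟩
    have e0 := card_rad (K := K0) rfl
    refine ⟨rad K0, card_pos.1 (by omega), fun b hb => hb, fun b hb b' hb' s t => ?_,
      fun j _ => cubic (F.H j) (hok j) rfl, fun j hj => by simp [hd j] at hj, ?_⟩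
    · have e1 := cm b b' s t
      rw [Set.eq_empty_of_forall_notMem (s := Set.ofPred _), Subgroup.closure_empty, Subgroup.mem_bot] at e1
      · exact commutatorElement_eq_one_iff_commute.1 e1
      · rintro _ ⟨a, u, ⟨r, n, hr, hn, e2⟩, -⟩
        have e3 := congrFun e2 K0
        have e4 := cf_le a (K := K0) rfl
        have e5 := Nat.mul_pos hr (mem_rad'.1 hb)
        have e6 := Nat.mul_pos hn (mem_rad'.1 hb')
        simp only [Pi.add_apply, Pi.smul_apply, smul_eq_mul, rB] at e3 e4 e5 e6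
        omega
    · have e1 : F.valG (rad K0) ≤ ∑ _j : F.J, 2 ^ m := sum_le_sum fun j _ => by
        rw [if_neg (by simp [hd j]), hp]; exact Nat.mul_le_mul_left 2 (cG_le (F.H j) (hok j) rfl)
      rw [sum_const, card_univ, smul_eq_mul] at e1
      omega
  · exfalso
    obtain ⟨j⟩ := ‹Nonempty J›
    have e1 := (single_le_sum (fun _ _ => Nat.zero_le _) (mem_univ j)).trans hle
    have e2 := le_d (H j) (hok j)
    have e3 := Nat.mul_le_mul e2 (Nat.sub_le_sub_right e2 1)
    obtain ⟨n, hn⟩ : ∃ n, 2 * m = n + 1 := ⟨2 * m - 1, by omega⟩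
    have e4 := card_roots S (k := m) (N := n) (e := 0) (fun b _ => by have := b.2; omega) (by omega)
    have e5 := (pow_three hm).1
    have e6 : 2 * m * n + 2 * m = 4 * (m * m) := by rw [← mul_add_one, ← hn]; ring
    omega

end Cfsg.Agent.TwoF.DC.TC
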