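import Cfsg.Agent.TwoF.DC.TC.Main
import Cfsg.Agent.TwoF.DC.TC.Short
import Cfsg.Agent.TwoF.DC.TC.Spin
import Cfsg.Agent.TwoF.DC.TC.Sp4C

/-!
# TwoF, defining characteristic, type C: the field `psp` of `Types` (helper34)
-/

set_option autoImplicit false

namespace Cfsg.Agent.TwoF.DC.TC

/-- **symplectic groups in defining characteristic** -/
theorem psp : TBox fun p S _ => IsPSpChar p S := psp_of (boxShort boxSie) boxSpin (boxSp4 (boxShort boxSie))

end Cfsg.Agent.TwoF.DC.TC
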