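import Cfsg.Agent.TwoF.DC.Pow.One

/-!
# TwoF, defining characteristic: tools for the exceptional characteristics (helper62)

* G1 `Cty` : the context `Ctx` without the combinatorial statements;
* G2 `fxW_le_mul` : the fixed vectors of a `p`-group in a tensor product, through one factor;
* G3 `Trf` : transfer of patterns along an isomorphism of the finite groups.
-/

set_option autoImplicit false
set_option linter.unusedSectionVars false
set_option linter.unusedVariables false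
set_option maxHeartbeats 400000

namespace Cfsg.Agent.TwoF.DC.TC

open Module Finset Cfsg.Agent.H45.Uni Cfsg.Agent.H45.UniE Cfsg.Agent.TwoF.Gen

/-! ### G1 -/

section G1

variable {p : ℕ} [hp : Fact p.Prime] {ι Φ k G : Type} [Fintype ι] [DecidableEq ι] [Fintype Φ] [DecidableEq Φ] [Field k]
  [Infinite k] [CharP k p] [Group G] {D : RDat p ι Φ k G} {T S : Type} [Group T] [Finite T] [Group S]
  {Y U : Type} [Group Y] [Finite Y] [AddCommGroup U] [Module k U]

/-- the hypotheses of the assembly which do not depend on the type -/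
structure Cty (M : Std D T S) (C : Can D) (ρ : Representation k Y U) (ψ : T →* Y) (irrK : Prop) : Prop where
  cfa : C.Fa
  deg1 : Deg1 D
  deg2 : Deg2 D
  pow : M.Pow C
  st : M.St ρ ψ irrK
  fd : FiniteDimensional k U
  nt : Nontrivial U

theorem _root_.Cfsg.Agent.TwoF.DC.Ctx.cty {M : Std D T S} {ok : (ι → ℕ) → Prop} {C : Can D} {ρ : Representation k Y U}
    {ψ : T →* Y} {irrK : Prop} (X : Ctx M ok C ρ ψ irrK) : Cty M C ρ ψ irrK :=
  ⟨X.cfa, X.deg1, X.deg2, X.pow, X.st, X.fd, X.nt⟩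

namespace Cty

variable {M : Std D T S} {C : Can D} {ρ : Representation k Y U} {ψ : T →* Y} {irrK : Prop} (X : Cty M C ρ ψ irrK)

include X

/-- the full context -/
theorem ctx {ok : (ι → ℕ) → Prop} (h1 : M.Full ok) (h2 : ∀ n ∈ M.N ρ ψ, ∀ a, n a ≠ 0 → ok (n a))
    (h3 : Function.Injective ρ) (h4 : ∀ y, ∃ s h γ j, M.Acts ψ y s h γ j)
    (h5 : ∀ y, (∀ s, y * ψ s * y⁻¹ = ψ s) → y ∈ ψ.range) : Ctx M ok C ρ ψ irrK :=
  ⟨h1, X.deg1, X.deg2, X.pow, X.st, fun n hn h0 => h2 n ((M.mem_N ρ ψ).2 ⟨hn, h0⟩), X.fd, X.nt, h3, h4, h5⟩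

theorem fa : D.Fa := X.cfa.fa

omit X in
theorem pats {n : Fin M.f → ι → ℕ} (hn : n ∈ M.N ρ ψ) : n ∈ M.pats := ((M.mem_N ρ ψ).1 hn).1

omit X in
theorem res {n : Fin M.f → ι → ℕ} (hn : n ∈ M.N ρ ψ) (a : Fin M.f) (i : ι) : n a i < p := M.mem_pats.1 (pats hn) a i

omit X in
theorem one_le_mult {n : Fin M.f → ι → ℕ} (hn : n ∈ M.N ρ ψ) : 1 ≤ M.mult (ρ.comp ψ) n :=
  Nat.pos_of_ne_zero ((M.mem_N ρ ψ).1 hn).2

theorem indep : iSupIndep (M.V ρ ψ) := by
  intro n
  by_cases hn : n ∈ M.pats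
  · refine (X.st.indep ⟨n, hn⟩).mono (M.V_eq ρ ψ hn).le (iSup₂_le fun n' hn' => ?_)
    by_cases h : n' ∈ M.pats
    · rw [M.V_eq ρ ψ h]
      exact le_iSup₂_of_le (f := fun (j : M.pats) (_ : j ≠ ⟨n, hn⟩) => M.Vc (ρ.comp ψ) j) ⟨n', h⟩
        (fun e => hn' (congrArg Subtype.val e)) le_rfl
    · rw [Std.V, if_neg h]; exact bot_le
  · rw [Std.V, if_neg hn]; exact disjoint_bot_left

theorem finrank_Wc {n : Fin M.f → ι → ℕ} (hn : n ∈ M.pats) : finrank k (M.Wc n) = M.Dn n := X.pow.dim n hn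

theorem finrank_fix {n : Fin M.f → ι → ℕ} (hn : n ∈ M.pats) (B : Subgroup T) :
    finrank k ↥(M.V ρ ψ n ⊓ fx ρ (B.map ψ)) = M.mult (ρ.comp ψ) n * finrank k (M.fxW n B) := by
  rw [M.V_eq ρ ψ hn]; exact X.st.fix n hn B

theorem finrank_V {n : Fin M.f → ι → ℕ} (hn : n ∈ M.pats) :
    finrank k (M.V ρ ψ n) = M.mult (ρ.comp ψ) n * M.Dn n := by
  have h := X.finrank_fix hn ⊥
  rwa [Subgroup.map_bot, fx_bot, inf_top_eq, M.fxW_bot, X.finrank_Wc hn] at h

theorem V_eq_bot {n : Fin M.f → ι → ℕ} (hn : n ∉ M.N ρ ψ) : M.V ρ ψ n = ⊥ := by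
  have := X.fd
  by_cases h : n ∈ M.pats
  · have h1 : M.mult (ρ.comp ψ) n = 0 := by
      by_contra h2; exact hn ((M.mem_N ρ ψ).2 ⟨h, h2⟩)
    rw [← Submodule.finrank_eq_zero, X.finrank_V h, h1, zero_mul]
  · exact if_neg h

theorem span : ⨆ n ∈ M.N ρ ψ, M.V ρ ψ n = ⊤ := by
  rw [eq_top_iff, ← X.st.span]
  refine iSup₂_le fun n hn => ?_
  rw [← M.V_eq ρ ψ hn]
  by_cases h : n ∈ M.N ρ ψ
  · exact le_iSup₂_of_le (f := fun n (_ : n ∈ M.N ρ ψ) => M.V ρ ψ n) n h le_rfl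
  · rw [X.V_eq_bot h]; exact bot_le

theorem finrank_U : finrank k U = ∑ n ∈ M.N ρ ψ, finrank k (M.V ρ ψ n) := by
  have := X.fd
  rw [← finrank_biSup_of_indep X.indep, X.span, finrank_top]

theorem finrank_U' : finrank k U = ∑ n ∈ M.N ρ ψ, M.mult (ρ.comp ψ) n * M.Dn n :=
  X.finrank_U.trans (Finset.sum_congr rfl fun _ hn => X.finrank_V (pats hn))

theorem N_nonempty : (M.N ρ ψ).Nonempty := by
  have := X.nt
  by_contra h
  have h1 := X.span
  rw [Finset.not_nonempty_iff_eq_empty.1 h] at h1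
  simp at h1

theorem ne_zero {n : Fin M.f → ι → ℕ} (hn : n ∈ M.N ρ ψ) : n ≠ 0 := by
  rintro rfl
  exact ((M.mem_N ρ ψ).1 hn).2 X.st.zero

theorem mult_act {n : Fin M.f → ι → ℕ} (hn : n ∈ M.pats) (j : ℕ) :
    M.mult (ρ.comp ψ) (M.act 1 j n) = M.mult (ρ.comp ψ) n := by
  induction j with
  | zero => rw [M.act_one_zero]
  | succ j ih =>
    have h := X.st.shift _ (M.act_mem hn 1 j)
    rw [M.act_act (Commute.one_left _), mul_one, add_comm] at h
    rw [h, ih]

theorem mult_actN {n : Fin M.f → ι → ℕ} (hn : n ∈ M.N ρ ψ) (j : ℕ) :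
    M.mult (ρ.comp ψ) (M.act 1 j n) = M.mult (ρ.comp ψ) n := X.mult_act (pats hn) j

theorem sh : M.Sh (M.N ρ ψ) := fun n hn =>
  (M.mem_N ρ ψ).2 ⟨M.act_mem (pats hn) 1 1, by rw [X.mult_actN hn]; exact ((M.mem_N ρ ψ).1 hn).2⟩

theorem le_Dn {n : Fin M.f → ι → ℕ} (hn : n ∈ M.pats) {W : Submodule k ((Fin M.f → G) → k)} (h : W ≤ M.Wc n) :
    finrank k W ≤ M.Dn n := by
  have := X.pow.fd n hn
  rw [← X.finrank_Wc hn]
  exact Submodule.finrank_mono h

theorem le_codOn {n : Fin M.f → ι → ℕ} (hn : n ∈ M.N ρ ψ) {A : Subgroup Y} {x : ℕ}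
    (h : finrank k ↥(M.V ρ ψ n ⊓ fx ρ A) ≤ M.mult (ρ.comp ψ) n * x) :
    M.mult (ρ.comp ψ) n * (M.Dn n - x) ≤ codOn ρ (M.V ρ ψ n) A := by
  rw [codOn, X.finrank_V (pats hn), Nat.mul_sub]
  omega

theorem sum_le_cod {O : Finset (Fin M.f → ι → ℕ)} (hO : O ⊆ M.N ρ ψ) {A : Subgroup Y}
    (hA : ∀ n ∈ O, Inv ρ A (M.V ρ ψ n)) (x : (Fin M.f → ι → ℕ) → ℕ)
    (h : ∀ n ∈ O, finrank k ↥(M.V ρ ψ n ⊓ fx ρ A) ≤ M.mult (ρ.comp ψ) n * x n) :
    ∑ n ∈ O, M.mult (ρ.comp ψ) n * (M.Dn n - x n) ≤ cod ρ A := by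
  have := X.fd
  exact (Finset.sum_le_sum fun n hn => X.le_codOn (hO hn) (h n hn)).trans (sum_codOn_le_cod X.indep O hA)

theorem sum_le_cod_inner {O : Finset (Fin M.f → ι → ℕ)} (hO : O ⊆ M.N ρ ψ) (B : Subgroup T) :
    ∑ n ∈ O, M.mult (ρ.comp ψ) n * (M.Dn n - finrank k (M.fxW n B)) ≤ cod ρ (B.map ψ) :=
  X.sum_le_cod hO (fun n _ => (M.inv_V ρ ψ n).mono (Subgroup.map_le_range _ _)) _
    fun n hn => (X.finrank_fix (pats (hO hn)) B).le

theorem cod_le_sum (B : Subgroup T) :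
    cod ρ (B.map ψ) ≤ ∑ n ∈ M.N ρ ψ, M.mult (ρ.comp ψ) n * (M.Dn n - finrank k (M.fxW n B)) := by
  have := X.fd
  have h1 := sum_finrank_le_of_indep (X.indep.mono fun n => (inf_le_left : M.V ρ ψ n ⊓ fx ρ (B.map ψ) ≤ _))
    (M.N ρ ψ) (U := fx ρ (B.map ψ)) fun n _ => inf_le_right
  rw [cod, X.finrank_U, tsub_le_iff_right]
  refine le_trans ?_ (Nat.add_le_add_left h1 _)
  rw [← Finset.sum_add_distrib]
  refine Finset.sum_le_sum fun n hn => ?_
  have h2 := pats hn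
  rw [X.finrank_V h2, X.finrank_fix h2, ← mul_add, Nat.sub_add_cancel (X.le_Dn h2 (M.fxW_le n B))]

/-- **the codimension of an inner subgroup** -/
theorem cod_eq (B : Subgroup T) :
    cod ρ (B.map ψ) = ∑ n ∈ M.N ρ ψ, M.mult (ρ.comp ψ) n * (M.Dn n - finrank k (M.fxW n B)) :=
  le_antisymm (X.cod_le_sum B) (X.sum_le_cod_inner subset_rfl B)

theorem exists_Sg {B : Subgroup T} (hB : B ≤ M.E.U) (hc : ∀ x ∈ B, ∀ y ∈ B, x * y = y * x) {r : ℕ}
    (hr : Nat.card B = p ^ r) : ∃ Sg : Fin M.f → Finset Φ, r ≤ ∑ a, (Sg a).card ∧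
      (∀ a, D.R.Ab p (Sg a) ∧ D.R.Idl p (Sg a)) ∧ ∀ n ∈ M.pats, finrank k (M.fxW n B) ≤ ∏ a, C.u (n a) (Sg a) := by
  obtain ⟨Sg, h1, h2, h3⟩ := X.pow.inner X.cfa B hB hc
  rw [hr, Nat.pow_le_pow_iff_right hp.out.one_lt] at h1
  exact ⟨Sg, h1, h2, h3⟩

theorem cub_of {B : Subgroup T} (h : ∀ n ∈ M.N ρ ψ, Cub (M.ρW n) B) : Cub ρ (B.map ψ) := by
  rintro _ ⟨a, ha, rfl⟩ _ ⟨b, hb, rfl⟩ _ ⟨c, hc, rfl⟩
  rw [← LinearMap.ker_eq_top, eq_top_iff, ← X.span]
  refine iSup₂_le fun n hn => ?_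
  rw [M.V_eq ρ ψ (pats hn)]
  refine iSup₂_le fun θ hθ => ?_
  rintro _ ⟨F, rfl⟩
  have h1 : ∀ (s : T) (F : M.Wc n), (ρ (ψ s) - 1) (θ F) = θ ((M.ρW n s - 1) F) := fun s F => by
    rw [LinearMap.sub_apply, LinearMap.sub_apply, map_sub, hθ s F]; rfl
  have h2 := DFunLike.congr_fun (h n hn a ha b hb c hc) F
  rw [LinearMap.mem_ker, Module.End.mul_apply, Module.End.mul_apply, h1, h1, h1]
  rw [Module.End.mul_apply, Module.End.mul_apply] at h2
  rw [h2]
  exact map_zero θ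

theorem single {n : Fin M.f → ι → ℕ} (hn : n ∈ M.pats) {a : Fin M.f} (ha : M.supp n = {a}) (B : Subgroup T) :
    M.Dn n = dd D (n a) ∧ finrank k (M.fxW n B) = finrank k (fx (ρc D (n a)) (B.map M.φ)) := by
  refine ⟨by rw [M.Dn_eq, ha, Finset.prod_singleton], ?_⟩
  have h := (X.pow.single a (n a) (M.mem_pats.1 hn a) B).1
  rwa [← M.eq_single ha] at h

end Cty

end G1

/-! ### G2 -/

/-- dimension bound for intertwiners of a `p`-group -/
theorem finrank_le_of_pgrp {k T H W : Type*} [Field k] [Group T] [AddCommGroup H] [Module k H] [AddCommGroup W]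
    [Module k W] [FiniteDimensional k H] [FiniteDimensional k W] {p : ℕ} [Fact p.Prime] [CharP k p] {P : Subgroup T}
    [Finite P] (hP : IsPGroup p P) (τ : Representation k T H) (ξ : Representation k T W) (Z : Submodule k (H →ₗ[k] W))
    (hZ : ∀ x ∈ Z, ∀ b ∈ P, ∀ h, x (τ b h) = ξ b (x h)) : finrank k Z ≤ finrank k H * finrank k (fx ξ P) := by
  have key : ∀ (n : ℕ) (S : Submodule k H), Inv τ P S → finrank k H ≤ finrank k S + n →
      ∀ Z : Submodule k (H →ₗ[k] W), (∀ x ∈ Z, ∀ b ∈ P, ∀ h, x (τ b h) = ξ b (x h)) → (∀ x ∈ Z, ∀ h ∈ S, x h = 0) →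
      finrank k Z ≤ n * finrank k (fx ξ P) := by
    intro n
    induction n with
    | zero =>
      intro S _ hS Z _ h
      have h1 : S = ⊤ := Submodule.eq_top_of_finrank_eq (le_antisymm (Submodule.finrank_le S) hS)
      rw [(Submodule.eq_bot_iff Z).2 fun x hx => LinearMap.ext fun v => h x hx v (h1 ▸ trivial), finrank_bot]
      exact Nat.zero_le _
    | succ n ih =>
      intro S hI hS Z hZ h
      by_cases h1 : S = ⊤
      · rw [(Submodule.eq_bot_iff Z).2 fun x hx => LinearMap.ext fun v => h x hx v (h1 ▸ trivial), finrank_bot]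
        exact Nat.zero_le _
      obtain ⟨v, -, hv, h2⟩ := exists_mem_fxQ hP hI (inv_top P) fun e => h1 (top_le_iff.1 e)
      let e : (H →ₗ[k] W) →ₗ[k] W := LinearMap.applyₗ v
      have h3 := LinearMap.finrank_range_add_finrank_ker (e.domRestrict Z)
      have h4 : finrank k (LinearMap.range (e.domRestrict Z)) ≤ finrank k (fx ξ P) := by
        refine Submodule.finrank_mono ?_
        rintro _ ⟨x, rfl⟩ b hb
        show ξ b (x.1 v) = x.1 v
        rw [← hZ x x.2 b hb, ← sub_eq_zero, ← map_sub]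
        exact h x x.2 _ (h2 b hb)
      have h5 := ih (S ⊔ Submodule.span k {v}) (inv_of_cm_le (W := S ⊔ Submodule.span k {v}) ((le_fxQ_iff.1
        (sup_le (le_fxQ hI) ((Submodule.span_singleton_le_iff_mem _ _).2 h2))).trans le_sup_left) le_rfl) (by
        have := Submodule.finrank_lt_finrank_of_lt (s := S) (t := S ⊔ Submodule.span k {v})
          (left_lt_sup.2 fun e => hv (e (Submodule.mem_span_singleton_self v)))
        omega) ((LinearMap.ker (e.domRestrict Z)).map Z.subtype) (by rintro _ ⟨x, -, rfl⟩; exact hZ x x.2) (by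
        rintro _ ⟨x, hx, rfl⟩
        exact sup_le (a := S) (c := LinearMap.ker x.1) (h x x.2) ((Submodule.span_singleton_le_iff_mem _ _).2 hx))
      rw [Submodule.finrank_map_subtype_eq] at h5
      rw [Nat.succ_mul]
      omega
  exact key _ ⊥ (inv_bot P) (Nat.le_add_left _ _) Z hZ fun x _ h hh => by rw [(Submodule.mem_bot k).1 hh, map_zero]

section G2

open Pw

variable {p : ℕ} [hp : Fact p.Prime] {α ι Φ k G : Type} [Fintype α] [DecidableEq α] [Fintype ι] [DecidableEq ι]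
  [Fintype Φ] [DecidableEq Φ] [Field k] [IsAlgClosed k] [CharP k p] [Group G] {D : RDat p ι Φ k G} (C : Can D)

/-- fix the coordinate `a` -/
def fr (a : α) (y : G) : ((α → G) → k) →ₗ[k] ((α → G) → k) := LinearMap.funLeft k k fun g => Function.update g a y

theorem fr_apply (a : α) (y : G) (F : (α → G) → k) (g : α → G) : fr a y F g = F (Function.update g a y) := rfl

include C in
theorem fr_mem {n : α → ι → ℕ} (hn : ∀ a i, n a i < p) (a : α) (y : G) {F : (α → G) → k} (hF : F ∈ Tr (cw D n)) :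
    fr a y F ∈ Tr (cw D (Function.update n a 0)) := by
  rw [Tr_cw C hn] at hF
  rw [Tr_cw C (n := Function.update n a 0) fun c i => by
    by_cases h : c = a
    · rw [h, Function.update_self]; exact hp.out.pos
    · rw [Function.update_of_ne h]; exact hn c i]
  refine mem_PT.2 fun c g => ?_
  by_cases h : c = a
  · have h1 : sl c g (fr a y F) = F (Function.update g a y) • D.toFDat.cc 0 := funext fun x => by
      rw [sl_apply, fr_apply, h, Function.update_idem]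
      simp [FDat.cc]
    rw [h1, h, Function.update_self]
    exact Submodule.smul_mem _ _ (self_mem_Tr _)
  · have h1 : sl c g (fr a y F) = sl c (Function.update g a y) F := funext fun x => by
      rw [sl_apply, fr_apply, sl_apply, Function.update_comm h]
    rw [h1, Function.update_of_ne h]
    exact mem_PT.1 hF c _

include C in
/-- the tensor lemma for a group `T` acting through `ψ` -/
theorem fx_cw_le {n : α → ι → ℕ} (hn : ∀ a i, n a i < p) {T : Type} [Group T] (ψ : T →* (α → G)) {B : Subgroup T}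
    [Finite B] (hB : IsPGroup p B) (a : α) : finrank k (fx ((ρTr (cw D n)).comp ψ : Representation k T _) B) ≤
      (∏ c ∈ univ.erase a, dd D (n c)) *
        finrank k (fx ((ρc D (n a)).comp ((Pi.evalMonoidHom (fun _ => G) a).comp ψ) : Representation k T _) B) := by
  have hn' : ∀ c i, Function.update n a 0 c i < p := fun c i => by
    by_cases h : c = a
    · rw [h, Function.update_self]; exact hp.out.pos
    · rw [Function.update_of_ne h]; exact hn c i
  have h1 := fd_cw C hn'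
  have h2 := fd_Lc C (hn a)
  let W' := Tr (cw D (Function.update n a 0))
  have h3 : ∀ (F : Tr (cw D n)) (l : Dual k W'), (fun y => l ⟨fr a y F.1, fr_mem C hn a y F.2⟩) ∈ Lc D (n a) := by
    intro F l
    obtain ⟨c, hc⟩ := exists_lam l
    have h4 : (fun y => l ⟨fr a y F.1, fr_mem C hn a y F.2⟩) = ∑ g ∈ c.support, c g • sl a g F.1 := funext fun y => by
      rw [← hc, lam_apply, Finset.sum_apply]
      rfl
    rw [h4]
    exact Submodule.sum_mem _ fun g _ => Submodule.smul_mem _ _ (slL C hn a g F).2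
  let e : Tr (cw D n) →ₗ[k] Dual k W' →ₗ[k] Lc D (n a) := LinearMap.mk₂ k (fun F l => ⟨_, h3 F l⟩)
    (fun F F' l => Subtype.ext (funext fun y => (congrArg l (Subtype.ext (map_add (fr a y) F.1 F'.1))).trans
      (map_add l ⟨_, fr_mem C hn a y F.2⟩ ⟨_, fr_mem C hn a y F'.2⟩)))
    (fun c F l => Subtype.ext (funext fun y => (congrArg l (Subtype.ext (map_smul (fr a y) c F.1))).trans
      (map_smul l c ⟨_, fr_mem C hn a y F.2⟩)))
    (fun F l l' => rfl) fun c F l => rfl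
  have h4 : Function.Injective e := (injective_iff_map_eq_zero _).2 fun F hF => Subtype.ext (funext fun g => by
    have h5 := congrFun (congrArg Subtype.val (DFunLike.congr_fun hF (LinearMap.proj g ∘ₗ W'.subtype))) (g a)
    change F.1 (Function.update g a (g a)) = 0 at h5
    rwa [Function.update_eq_self] at h5)
  rw [(Submodule.equivMapOfInjective e h4 _).finrank_eq]
  refine (finrank_le_of_pgrp hB (Representation.dual ((ρTr (cw D (Function.update n a 0))).comp ψ)) _ _ ?_).trans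
    (le_of_eq (congrArg (· * _) ?_))
  · rintro _ ⟨F, hF, rfl⟩ b hb l
    refine Subtype.ext (funext fun y => congrArg l (Subtype.ext (funext fun g => ?_)))
    show F.1 (Function.update (g * ψ b⁻¹) a y) = F.1 (Function.update g a (y * ψ b a))
    rw [← congrFun (congrArg Subtype.val (hF b hb)) (Function.update (g * ψ b⁻¹) a y)]
    refine congrArg F.1 (funext fun c => ?_)
    by_cases h : c = a
    · rw [h, Pi.mul_apply, Function.update_self, Function.update_self]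
    · rw [Pi.mul_apply, Function.update_of_ne h, Function.update_of_ne h, Pi.mul_apply, map_inv, Pi.inv_apply,
        inv_mul_cancel_right]
  · rw [Subspace.dual_finrank_eq, finrank_cw C hn', ← Finset.mul_prod_erase _ _ (mem_univ a), Function.update_self,
      dd_zero, one_mul]
    exact Finset.prod_congr rfl fun c hc => by rw [Function.update_of_ne (Finset.ne_of_mem_erase hc)]

include C in
/-- **G2, the tensor lemma** -/
theorem fxW_le_mul {T S : Type} [Group T] [Finite T] [Group S] (M : Std D T S) {n : Fin M.f → ι → ℕ} (hn : n ∈ M.pats)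
    {B : Subgroup T} (hB : IsPGroup p B) (a : Fin M.f) :
    finrank k (M.fxW n B) ≤ finrank k (fx (ρc D (n a)) (B.map M.φ)) * ∏ c ∈ univ.erase a, dd D (n c) := by
  rw [← M.finrank_fxW, mul_comm, ← finrank_Kx M a, Kx, ← finrank_fx_Tr, ← fx_comp]
  exact fx_cw_le C (M.mem_pats.1 hn) M.ΦT hB a

end G2

/-! ### G3 -/

section G3

variable {p : ℕ} [hp : Fact p.Prime] {ι Φ ι' Φ' k G G' : Type} [Fintype ι] [DecidableEq ι] [Fintype Φ] [DecidableEq Φ]
  [Fintype ι'] [DecidableEq ι'] [Fintype Φ'] [DecidableEq Φ'] [Field k] [Infinite k] [CharP k p] [Group G] [Group G']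
  {D : RDat p ι Φ k G} {D' : RDat p ι' Φ' k G'} {T S T' S' : Type} [Group T] [Finite T] [Group S] [Group T'] [Finite T']
  [Group S'] {U : Type} [AddCommGroup U] [Module k U]

/-- the tensor products with patterns `n`, `n'` are isomorphic along `e` -/
def Trf (M : Std D T S) (M' : Std D' T' S') (e : T ≃* T') (n : Fin M.f → ι → ℕ) (n' : Fin M'.f → ι' → ℕ) : Prop :=
  ∃ Ξ : M.Wc n ≃ₗ[k] M'.Wc n', ∀ s F, Ξ (M.ρW n s F) = M'.ρW n' (e s) (Ξ F)

variable {M : Std D T S} {M' : Std D' T' S'} {e : T ≃* T'} {n : Fin M.f → ι → ℕ} {n' : Fin M'.f → ι' → ℕ}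

/-- **G3, transfer** -/
theorem trf_of {C : Can D} {C' : Can D'} (hF : C.Fa) (hP : M.Pow C) (hF' : C'.Fa) (hP' : M'.Pow C') (hn : n ∈ M.pats)
    (hn' : n' ∈ M'.pats) (h : ∀ s, M'.cP n' (M'.ΦT (e s)) = M.cP n (M.ΦT s)) : Trf M M' e n n' := by
  obtain ⟨θ, h1, h2⟩ := (Std.cyc hF hP hn).exists_hom (ρ := (M'.ρW n').comp e.toMonoidHom) (v := M'.cW n') fun β hβ =>
    Std.res_inj hF' hP' hn' fun t => by
      obtain ⟨t, rfl⟩ := e.surjective t
      rw [← (Std.lc_eq_zero hF hP hn).1 hβ t, Finsupp.linearCombination_apply, Finsupp.sum, Submodule.coe_sum,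
        Finset.sum_apply]
      refine Finset.sum_congr rfl fun s _ => ?_
      rw [← h, map_mul, map_mul]
      rfl
  have h3 : θ ≠ 0 := fun h0 => (Std.cyc hF' hP' hn').ne (by rw [← h2, h0]; rfl)
  have h4 : LinearMap.range θ = ⊤ := ((Std.cyc hF' hP' hn').irr M'.hyp.Up _ (by
    rintro t - _ ⟨F, rfl⟩
    obtain ⟨t, rfl⟩ := e.surjective t
    exact ⟨_, h1 t F⟩)).resolve_left fun h0 => h3 (LinearMap.range_eq_bot.1 h0)
  exact ⟨LinearEquiv.ofBijective θ ⟨(Std.cyc hF hP hn).inj M.hyp.Up h1 h3, LinearMap.range_eq_top.1 h4⟩, h1⟩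

namespace Trf

variable (h : Trf M M' e n n')

include h

theorem symm : Trf M' M e.symm n' n := by
  obtain ⟨Ξ, h⟩ := h
  exact ⟨Ξ.symm, fun s F => Ξ.symm_apply_eq.2 (by rw [h, e.apply_symm_apply, Ξ.apply_symm_apply])⟩

theorem dim : finrank k (M.Wc n) = finrank k (M'.Wc n') := h.choose.finrank_eq

theorem fix (B : Subgroup T) : finrank k (M.fxW n B) = finrank k (M'.fxW n' (B.map e.toMonoidHom)) := by
  obtain ⟨Ξ, h⟩ := h
  rw [← M.finrank_fxW, ← M'.finrank_fxW, ← LinearEquiv.finrank_map_eq Ξ]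
  refine congrArg (fun N : Submodule k (M'.Wc n') => finrank k N) ?_
  refine le_antisymm ?_ fun F hF => ⟨Ξ.symm F, fun b hb => Ξ.injective ?_, Ξ.apply_symm_apply F⟩
  · rintro _ ⟨F, hF, rfl⟩ _ ⟨b, hb, rfl⟩
    exact (h b F).symm.trans (congrArg Ξ (hF b hb))
  · rw [h, Ξ.apply_symm_apply]
    exact hF _ ⟨b, hb, rfl⟩

theorem cub {B : Subgroup T} (hB : Cub (M.ρW n) B) : Cub (M'.ρW n') (B.map e.toMonoidHom) := by
  obtain ⟨Ξ, h⟩ := h
  rintro _ ⟨a, ha, rfl⟩ _ ⟨b, hb, rfl⟩ _ ⟨c, hc, rfl⟩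
  refine LinearMap.ext fun F => ?_
  obtain ⟨F, rfl⟩ := Ξ.surjective F
  have h1 : ∀ (s : T) (F : M.Wc n), (M'.ρW n' (e.toMonoidHom s) - 1) (Ξ F) = Ξ ((M.ρW n s - 1) F) := fun s F => by
    rw [LinearMap.sub_apply, LinearMap.sub_apply, map_sub, h]; rfl
  have h2 := DFunLike.congr_fun (hB a ha b hb c hc) F
  rw [Module.End.mul_apply, Module.End.mul_apply] at h2
  rw [Module.End.mul_apply, Module.End.mul_apply, h1, h1, h1, h2]
  exact map_zero Ξ

theorem mult (ρ : Representation k T' U) : M.mult (ρ.comp e.toMonoidHom) n = M'.mult ρ n' := by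
  obtain ⟨Ξ, h⟩ := h
  rw [Std.mult, Std.mult, ← LinearEquiv.finrank_map_eq (LinearEquiv.congrLeft U k Ξ)]
  refine congrArg (fun N : Submodule k (M'.Wc n' →ₗ[k] U) => finrank k N) ?_
  refine le_antisymm ?_ fun θ hθ => ⟨θ ∘ₗ Ξ.toLinearMap, fun s F => ?_, LinearMap.ext fun F => ?_⟩
  · rintro _ ⟨θ, hθ, rfl⟩ s F
    obtain ⟨s, rfl⟩ := e.surjective s
    obtain ⟨F, rfl⟩ := Ξ.surjective F
    show θ (Ξ.symm _) = ρ _ (θ (Ξ.symm _))
    rw [← h, Ξ.symm_apply_apply, Ξ.symm_apply_apply]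
    exact hθ s F
  · show θ (Ξ _) = _
    rw [h]
    exact hθ _ _
  · exact congrArg θ (Ξ.apply_symm_apply F)

theorem Vc (ρ : Representation k T' U) : M.Vc (ρ.comp e.toMonoidHom) n = M'.Vc ρ n' := by
  obtain ⟨Ξ, h⟩ := h
  refine le_antisymm (iSup₂_le fun θ hθ => ?_) (iSup₂_le fun θ hθ => ?_)
  · refine le_iSup₂_of_le (f := fun θ (_ : θ ∈ M'.Hm ρ n') => LinearMap.range θ) (θ ∘ₗ Ξ.symm.toLinearMap)
      (fun s F => ?_) (LinearMap.range_comp_of_range_eq_top _ Ξ.symm.range).ge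
    obtain ⟨s, rfl⟩ := e.surjective s
    obtain ⟨F, rfl⟩ := Ξ.surjective F
    show θ (Ξ.symm _) = ρ _ (θ (Ξ.symm _))
    rw [← h, Ξ.symm_apply_apply, Ξ.symm_apply_apply]
    exact hθ s F
  · refine le_iSup₂_of_le (f := fun θ (_ : θ ∈ M.Hm (ρ.comp e.toMonoidHom) n) => LinearMap.range θ)
      (θ ∘ₗ Ξ.toLinearMap) (fun s F => ?_) (LinearMap.range_comp_of_range_eq_top _ Ξ.range).ge
    show θ (Ξ _) = _
    rw [h]
    exact hθ _ _

end Trf

/-- multiplicities of isomorphic modules -/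
theorem mult_congr (M : Std D T S) {U' : Type} [AddCommGroup U'] [Module k U'] {ρ : Representation k T U}
    {ρ' : Representation k T U'} (g : U ≃ₗ[k] U') (h : ∀ s v, g (ρ s v) = ρ' s (g v)) (n : Fin M.f → ι → ℕ) :
    M.mult ρ n = M.mult ρ' n := by
  rw [Std.mult, Std.mult, ← LinearEquiv.finrank_map_eq (LinearEquiv.congrRight (M := M.Wc n) g)]
  refine congrArg (fun N : Submodule k (M.Wc n →ₗ[k] U') => finrank k N) ?_
  refine le_antisymm ?_ fun θ hθ => ⟨g.symm.toLinearMap ∘ₗ θ, fun s F => g.symm_apply_eq.2 ?_, LinearMap.ext fun F => ?_⟩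
  · rintro _ ⟨θ, hθ, rfl⟩ s F
    exact (congrArg g (hθ s F)).trans (h _ _)
  · rw [h, hθ s F]
    exact congrArg _ (g.apply_symm_apply _).symm
  · exact g.apply_symm_apply _

/-- an automorphism induced by an element does not change the multiplicities -/
theorem mult_conj (M : Std D T S) {Y : Type} [Group Y] (ρ : Representation k Y U) {ψ ψ' : T →* Y} {y : Y}
    (h : ∀ t, y * ψ t * y⁻¹ = ψ' t) (n : Fin M.f → ι → ℕ) : M.mult (ρ.comp ψ') n = M.mult (ρ.comp ψ) n :=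
  (mult_congr M (rhoE ρ y) (fun s v => by
    show ρ y (ρ (ψ s) v) = ρ (ψ' s) (ρ y v)
    rw [← h, ← rho_mul, ← rho_mul, inv_mul_cancel_right]) n).symm

end G3

end Cfsg.Agent.TwoF.DC.TC
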