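import Cfsg.Agent.TwoF.DC.TC.Two
import Cfsg.Agent.TwoF.DC.TC.Num
import Cfsg.Agent.TwoF.DC.TC.Dual
import Cfsg.Agent.TwoF.DC.TC.Dim
import Cfsg.Agent.TwoF.DC.TC.SieOdd
import Cfsg.Agent.TwoF.DC.TC.Sz
import Cfsg.Agent.S0245

/-!
# TwoF, defining characteristic, type C: main file (helper34)

`psp_of : BoxShort → BoxSpin → BoxSp4 → TBox IsPSpChar`, `sz`.
-/

set_option autoImplicit false
set_option linter.unusedSectionVars false

namespace Cfsg.Agent.TwoF.DC.TC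

open Finset Cfsg.Agent.H45.UniS

theorem card_Sp_le (F : Type) [Field F] [Fintype F] (m : ℕ) : Nat.card (SG m F) ≤ Fintype.card F ^ (2 * m ^ 2 + m) := by
  have h : ∀ n, ∏ i ∈ range n, (Fintype.card F ^ (2 * (i + 1)) - 1) ≤ Fintype.card F ^ (n ^ 2 + n) := fun n => by
    induction n with
    | zero => simp
    | succ n ih =>
      rw [prod_range_succ, show (n + 1) ^ 2 + (n + 1) = n ^ 2 + n + 2 * (n + 1) by ring, pow_add]
      exact Nat.mul_le_mul ih (Nat.sub_le _ _)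
  rw [S0245.result rfl m, show 2 * m ^ 2 + m = m ^ 2 + (m ^ 2 + m) by ring, pow_add]
  exact Nat.mul_le_mul_left _ (h m)

theorem num_ineq {m : ℕ} (hm : 3 ≤ m) : 2 * m ^ 2 + m + 1 ≤ m * 2 ^ m := by
  have h : 2 * m + 2 ≤ 2 ^ m := by
    induction m, hm using Nat.le_induction with
    | base => norm_num
    | succ n _ ih => rw [pow_succ]; omega
  nlinarith

section two

variable {m : ℕ} {k : Type} [Field k] [IsAlgClosed k] [CharP k 2] {F : Type} [Field F] [Fintype F] {f : ℕ} (hf : 0 < f)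
  (hF : Fintype.card F = 2 ^ f) (ω : F →+* k)

include hf in
theorem gcd_two : Nat.gcd 2 (2 ^ f - 1) = 1 :=
  Nat.coprime_two_left.2 (Nat.Even.sub_odd Nat.one_le_two_pow (Nat.even_pow.2 ⟨even_two, hf.ne'⟩) odd_one)

include hF ω in
theorem num_B (hm : 3 ≤ m) (hFa : (DC 2 m k).Fa) : (PB boxDim (show 2 ≤ m by omega) k f hf).Num (PSp m F) := by
  obtain ⟨h4, h5, h6, h7⟩ := num_aux (m := m) hF ω (by omega) (by omega) (by omega)
  set P := PB boxDim (show 2 ≤ m by omega) k f hf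
  have hfin : Finite P.Zc := by
    have := P.finite_QQ
    exact Finite.of_injective (fun c : P.Zc => (⟨c.1, P.mem_QQ.2 c.2.1⟩ : P.QQ))
      fun a b h => Subtype.ext (congrArg (fun x : P.QQ => x.1) h)
  refine ⟨h4, h5, exists_π ω ((PB_TT _ _ f hf).trans (TT_eq hf hF ω hFa)), _, (gcd_two hf).le.trans Nat.card_pos, h6,
    h7.le.trans ?_⟩
  exact Nat.mul_le_mul_right _ (Nat.mul_le_mul_right f (Nat.le_mul_of_pos_right _ Nat.card_pos))

theorem comb_B {hm : 2 ≤ m} {ok : (Fin m → ℕ) → Prop} (h : Cmb (DB boxDim hm k) ok)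
    (hex : ∃ l : Fin m → ℕ, (∀ i, l i < 2) ∧ l ≠ 0 ∧ ok l) : (PB boxDim hm k f hf).Comb ok := h.comb hex

theorem single_lt (i j : Fin m) : (Pi.single i 1 : Fin m → ℕ) j < 2 := by rw [Pi.single_apply]; split_ifs <;> omega
theorem single_ne (i : Fin m) : (Pi.single i 1 : Fin m → ℕ) ≠ 0 := fun e => by simpa using congrFun e i

theorem dd_bounds (hm : 2 ≤ m) (ν : Fin m → ℕ) (h : ∀ i, ν i < 2) : 1 ≤ dd (DC 2 m k) ν ∧
    (ν ≠ 0 ∧ ¬ okS ν → 2 ^ m ≤ dd (DC 2 m k) ν) ∧ (¬ okL ν → 2 * m ≤ dd (DC 2 m k) ν) ∧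
    (ν ≠ 0 ∧ ¬ okS ν → ¬ okL ν → 2 * m * 2 ^ m ≤ dd (DC 2 m k) ν) := by
  by_cases h0 : ν = 0
  · subst h0
    exact ⟨(dd_zero _).ge, fun h => (h.1 rfl).elim, fun h => (h fun _ _ => rfl).elim, fun h => (h.1 rfl).elim⟩
  · obtain ⟨C⟩ := boxHW 2 _ _ k _ (DC 2 m k)
    obtain ⟨h1, h2, h3, -⟩ := boxDim m hm k _ (C.H ν h h0)
    rw [C.lam] at h2 h3
    exact ⟨le_trans (by omega) h1, fun h => h2 h.2, fun _ => h1, fun h => h3 h.2⟩

include hf hF ω in
theorem row_two_aux (hS : BoxShort) (hB : BoxSpin) (hm : 3 ≤ m) : Row 2 (PSp m F) := by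
  have h2 : 2 ≤ m := by omega
  let _ : Algebra (ZMod 2) k := ZMod.algebra k 2
  have : Nonempty (PR m) := ⟨zc ⟨0, by omega⟩⟩
  have c1 := comb_C hf (hS m h2 k _ (DC 2 m k) rfl) ⟨_, single_lt ⟨0, by omega⟩, single_ne _,
    fun i hi => Pi.single_eq_of_ne (fun e => hi (by rw [e]; show 0 + 1 < m; omega)) _⟩
  have c2 := comb_B hf (hB m hm k _ (DB boxDim h2 k) rfl) ⟨_, single_lt ⟨m - 1, by omega⟩, single_ne _,
    fun i hi => Pi.single_eq_of_ne (fun e => by rw [e] at hi; simp only at hi; omega) _⟩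
  have := (PC 2 m k f hf).finite_TT c1.fa
  have := (PB boxDim h2 k f hf).finite_TT c2.fa
  obtain ⟨π, hπ, hT, hcv, ha⟩ := (PC 2 m k f hf).exists_std c1.fa (num hf hF ω c1.fa h2 (by omega) (by omega))
  obtain ⟨π', hπ', hT', hcv', ha'⟩ := (PB boxDim h2 k f hf).exists_std c2.fa (num_B hf hF ω hm c1.fa)
  have H : Two ((PC 2 m k f hf).std c1.fa π hπ hT hcv) ((PB boxDim h2 k f hf).std c2.fa π' hπ' hT' hcv')
      (MulEquiv.subgroupCongr (PB_TT boxDim h2 f hf)) fun i => ee (zc i) :=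
    { φ := fun s => (MulEquiv.subgroupCongr_apply (PB_TT boxDim h2 f hf) s).symm
      Fr := Eq.refl (mapS (frobenius k 2))
      gr := fun _ => Eq.refl ()
      U := (DB_U _ _).ge
      hh := DB_hh _ _
      pos := fun _ => ee_pos _
      cc := DB_cc _ _ }
  refine row_two (o := f) H ((PC 2 m k f hf).full c1.fa c1 ha) ((PB boxDim h2 k f hf).full c2.fa c2 ha')
    (le_self_pow₀ one_le_two (by omega)) (dd_bounds h2) ?_ ?_
  · rw [(num_aux (m := m) hF ω h2 (by omega) (by omega)).2.2.2, gcd_two hf, one_mul]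
  · have h3 : Nat.card (PC 2 m k f hf).TT ≤ (2 ^ f) ^ (2 * m ^ 2 + m) := by
      rw [TT_eq hf hF ω c1.fa, ← hF, ← Nat.card_congr (MonoidHom.ofInjective (mapS_inj ω)).toEquiv]
      exact card_Sp_le F m
    have h4 : f * Nat.card (PC 2 m k f hf).TT < 2 ^ f * (2 ^ f) ^ (2 * m ^ 2 + m) :=
      Nat.mul_lt_mul_of_lt_of_le Nat.lt_two_pow_self h3 (by positivity)
    refine (Nat.pow_lt_pow_left h4 two_ne_zero).trans_le ?_
    rw [← pow_succ', ← pow_mul, ← pow_mul]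
    refine Nat.pow_le_pow_right two_pos (Nat.mul_le_mul_left f ?_)
    have := num_ineq hm
    nlinarith

end two

/-- **characteristic two, rank at least three** -/
theorem row_even (hS : BoxShort) (hB : BoxSpin) (F : Type) [Field F] [Fintype F] [CharP F 2] {m : ℕ} (hm : 3 ≤ m) :
    Row 2 (PSp m F) := by
  obtain ⟨f, -, hF⟩ := FiniteField.card F 2
  exact row_two_aux f.2 hF (algebraMap F (AlgebraicClosure F)) hS hB hm

/-- **symplectic groups** -/
theorem psp_of (hS : BoxShort) (hB : BoxSpin) (h4 : BoxSp4) : TBox fun p S _ => IsPSpChar p S := by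
  rintro p _ S _ _ _ ⟨F, _, _, _, m, hm, h2, ⟨e⟩⟩
  refine Row.of_equiv ?_ e
  by_cases hp : p = 2
  · subst hp
    rcases hm.eq_or_lt with rfl | h
    · exact h4 F (h2 rfl)
    · exact row_even hS hB F h
  · exact row_odd (boxStd_pow Pw.boxPow) boxOdd p hp F hm h2

/-- **Suzuki groups** -/
theorem sz : TBox fun p S _ => p = 2 ∧ Lie.IsoSuzuki S := fun _ _ S _ _ _ h => by
  obtain ⟨rfl, h⟩ := h
  exact row_Sz S h

end Cfsg.Agent.TwoF.DC.TC
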