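import Cfsg.Agent.TwoF.DC.TC.SieOdd

/-!
# TwoF, defining characteristic, type C, `p = 2`, no spin factor (1): roots (helper89)

A sum of two roots which is a short root has a nonzero structure constant; chains; the shape of the abelian ideals.
-/

set_option autoImplicit false
set_option linter.unusedSectionVars false

namespace Cfsg.Agent.TwoF.DC.TC.Sht

open Finset Matrix Sum

variable {m : ℕ}

theorem nrm_rv (b : PR m) : rv b ⬝ᵥ rv b = if b.1.1 = b.1.2 then 4 else 2 := by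
  have := b.2
  rw [rv_dot, rv, xv_add, xv_add]
  simp only [xv_wv', ps_eq]
  split_ifs <;> omega

theorem nrm_rx (x : Bool × PR m) : (eC m).rx x ⬝ᵥ (eC m).rx x = if x.2.1.1 = x.2.1.2 then 4 else 2 := by
  obtain ⟨_ | _, b⟩ := x
  · exact (neg_dotProduct_neg _ _).trans (nrm_rv b)
  · exact nrm_rv b

/-- a short sum has a nonzero structure constant -/
theorem nz_sh {x y z : Bool × PR m} (h : (eC m).rx z = (eC m).rx x + (eC m).rx y) (hz : z.2.1.1 ≠ z.2.1.2) :
    (eC m).rc.NZ 2 x y := by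
  refine (eC m).rc.nz_of_zero (by decide) (((eC m).isRt_iff _).2 ⟨z, by rw [Euc.E_add, Euc.E_vec, Euc.E_vec, h]⟩)
    fun h' => ?_
  obtain ⟨w, hw⟩ := ((eC m).isRt_iff _).1 h'
  rw [Euc.E_sub, Euc.E_vec, Euc.E_vec] at hw
  have h1 := nrm_rx x
  have h2 := nrm_rx y
  have h3 := nrm_rx w
  have h4 := nrm_rx z
  rw [hw, sub_dotProduct, dotProduct_sub, dotProduct_sub] at h3
  rw [h, if_neg hz, add_dotProduct, dotProduct_add, dotProduct_add] at h4
  split_ifs at h1 h2 h3 <;> omega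

theorem mn_sh {i j : Fin m} (h : i < j) : (mn i j h).1.1 ≠ (mn i j h).1.2 := by simp [mn]
theorem pl_sh {i j : Fin m} (h : i ≤ j) (h' : i ≠ j) : (pl i j h).1.1 ≠ (pl i j h).1.2 := by simpa [pl] using h'

theorem co_mn {i l : Fin m} (h : i < l) (j : Fin m) : 0 < (eC m).rc.co (mn i l h) j ↔ i ≤ j ∧ j < l := by
  have h1 := coC_eq (mn i l h) j
  rw [PS_cv, PS_wv, PS_wv] at h1
  show 0 < coC _ _ ↔ _
  simp only [mn, ps, Fin.le_def, Fin.lt_def] at h h1 ⊢
  split_ifs at h1 <;> omega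

theorem co_pl {i l : Fin m} (h : i ≤ l) (j : Fin m) (h0 : 0 < (eC m).rc.co (pl i l h) j) : i ≤ j := by
  have h1 := coC_eq (pl i l h) j
  rw [PS_cv, PS_wv, PS_wv] at h1
  change 0 < coC _ _ at h0
  simp only [pl, ps, Fin.le_def] at h h0 h1 ⊢
  split_ifs at h1 <;> omega

/-- the chain condition for the short nodes -/
theorem ch_two : (eC m).rc.Ch 2 fun j => j.1 + 1 < m := by
  refine (eC m).rc.ch_of_step fun a j hj h0 => ?_
  have key : ∀ (β : PR m) (i l : Fin m) (h : i < l), rv a = rv β + rv (mn i l h) → i ≤ j → j < l →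
      ∃ β a', (eC m).rc.cf a = (eC m).rc.cf β + (eC m).rc.cf a' ∧ (eC m).rc.NZ 2 (true, β) (false, a) ∧
        0 < (eC m).rc.co a' j := fun β i l h e h1 h2 =>
    ⟨β, _, (eC m).cf_add_iff'.2 e, nz_sh (z := (false, mn i l h)) (by
      show -rv _ = rv β + -rv a
      rw [e]; abel) (mn_sh h), (co_mn h j).2 ⟨h1, h2⟩⟩
  by_cases ha : a ∈ Sie m
  · obtain ⟨i, l, h, rfl⟩ := exists_pl ha
    have h1 := co_pl h j h0
    have h2 : j < ⟨m - 1, by omega⟩ := by rw [Fin.lt_def]; simp only; omega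
    exact Or.inr (key (pl l ⟨m - 1, by omega⟩ (by rw [Fin.le_def]; simp only; omega)) i _ (h1.trans_lt h2)
      (by rw [rv_pl, rv_pl, rv_mn]; abel) h1 h2)
  obtain ⟨i, l, h, rfl⟩ := exists_mn ha
  obtain ⟨h1, h2⟩ := (co_mn h j).1 h0
  rcases h1.eq_or_lt with rfl | h1
  · by_cases h3 : i.1 + 1 = l
    · exact Or.inl (PR.ext' rfl (by show 2 * m - 1 - l = ps (nb i); rw [ps_nb]; omega))
    · have h4 : i < ⟨i.1 + 1, hj⟩ := Nat.lt_succ_self _
      exact Or.inr (key (mn ⟨i.1 + 1, hj⟩ l (by rw [Fin.lt_def] at h ⊢; simp only; omega)) i _ h4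
        (by rw [rv_mn, rv_mn, rv_mn]; abel) le_rfl h4)
  · exact Or.inr (key (mn i j h1) j l h2 (by rw [rv_mn, rv_mn, rv_mn]; abel) le_rfl h2)

theorem s_pl' {i j : Fin m} (h : i < j) (hj : j.1 + 1 < m) :
    (eC m).rc.s j (pl i j h.le) = pl i ⟨j.1 + 1, hj⟩ (h.le.trans (Nat.le_succ _)) := by
  have h0 := Fin.lt_def.1 h
  have h1 : rI j (inl j) = inl ⟨j.1 + 1, hj⟩ := ps_inj (by rw [ps_rI, if_pos (ps_inl j)]; rfl)
  have h2 : rI j (inl i) = inl i := ps_inj (by rw [ps_rI, ps_inl]; split_ifs <;> omega)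
  refine rv_inj ?_
  show rv (mkR (rI j (inl i)) (rI j (inl j)) _) = _
  rw [h1, h2, rv_mkR (by simp only [ps]; omega)]
  rfl

section shape

variable {S : Finset (PR m)}

theorem idl (hI : (eC m).rc.Idl 2 S) {a b : PR m} (β : PR m) (hb : b ∈ S) (h : rv a = rv β + rv b)
    (ha : a.1.1 ≠ a.1.2) : a ∈ S :=
  hI b hb β a ((eC m).cf_add_iff'.2 h) (nz_sh (z := (true, a)) h ha)

theorem ab (hA : (eC m).rc.Ab 2 S) {b b' : PR m} (a : PR m) (hb : b ∈ S) (hb' : b' ∈ S) (h : rv a = rv b + rv b')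
    (ha : a.1.1 ≠ a.1.2) : False :=
  hA b hb b' hb' (nz_sh (z := (true, a)) h ha)

theorem pl_of_mn (hI : (eC m).rc.Idl 2 S) {i j l : Fin m} {h : i < j} (hb : mn i j h ∈ S) (hl : i < l) :
    pl i l hl.le ∈ S := by
  rcases le_total j l with e | e
  · exact idl hI (pl j l e) hb (by rw [rv_pl, rv_pl, rv_mn]; abel) (pl_sh _ hl.ne)
  · exact idl hI (pl l j e) hb (by rw [rv_pl, rv_pl, rv_mn]; abel) (pl_sh _ hl.ne)

/-- the data used for the counts: `S` contains the roots `ε_o + ε_l`, and it is small -/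
structure Shp (o l : Fin m) (S : Finset (PR m)) : Prop where
  mem : ∀ j (h : o < j), pl o j h.le ∈ S
  card : S.card + m ≤ (Sie m).card ∨ (∃ h, mn o l h ∈ S) ∧ S.card + m ≤ (Sie m).card + 2

variable {o l : Fin m} (ho : o.1 = 0) (hl : l.1 + 1 = m)
include ho hl

theorem shp_of_notSub (hA : (eC m).rc.Ab 2 S) (hI : (eC m).rc.Idl 2 S) (h : ¬ S ⊆ Sie m) : Shp o l S := by
  have le : ∀ i, i ≤ l := fun i => by rw [Fin.le_def]; omega
  have fst : ∀ i j h, mn i j h ∈ S → i = o := fun i j h hb => by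
    by_contra e
    have h1 : o < i := by have := Fin.val_ne_of_ne e; rw [Fin.lt_def]; omega
    have h2 : mn o j (h1.trans h) ∈ S := idl hI (mn o i h1) hb (by rw [rv_mn, rv_mn, rv_mn]; abel) (mn_sh _)
    exact ab hA (pl o i h1.le) hb (pl_of_mn hI h2 (h1.trans h)) (by rw [rv_pl, rv_pl, rv_mn]; abel) (pl_sh _ h1.ne)
  have no : ∀ j h, mn o j h ∈ S → ∀ a (e : a ≤ j), o < a → pl a j e ∉ S := fun j h hb a e ha hb' =>
    ab hA (pl o a ha.le) hb hb' (by rw [rv_pl, rv_pl, rv_mn]; abel) (pl_sh _ ha.ne)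
  obtain ⟨b, hb, hb'⟩ := not_subset.1 h
  obtain ⟨i, j, h, rfl⟩ := exists_mn hb'
  obtain rfl := fst i j h hb
  have hil : i < l := h.trans_le (le j)
  have h1 : mn i l hil ∈ S := by
    rcases (le j).eq_or_lt with rfl | e
    · exact hb
    · exact idl hI (mn j l e) hb (by rw [rv_mn, rv_mn, rv_mn]; abel) (mn_sh _)
  refine ⟨fun j h => pl_of_mn hI h1 h, Or.inr ⟨⟨hil, h1⟩, ?_⟩⟩
  let ψ : PR m ⊕ Fin m → PR m := Sum.elim (fun b => if b ∈ Sie m then b else mkR b.1.2.swap b.1.2.swap b)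
    fun a => pl a l (le a)
  have e1 : ∀ a b h, ψ (inl (pl a b h)) = pl a b h := fun a b h => if_pos (pl_mem a b h)
  have e2 : ∀ a b h, ψ (inl (mn a b h)) = pl b b le_rfl := fun a b h =>
    (if_neg (mn_notMem a b h)).trans (rv_inj (rv_mkR (by simp only [mn, swap_inr, ps]; omega) _))
  have e3 : ∀ a, ψ (inr a) = pl a l (le a) := fun _ => rfl
  have cs : ∀ b ∈ S, (∃ a c h, b = pl a c h) ∨ ∃ c h, b = mn i c h := fun b hb => by
    by_cases e : b ∈ Sie m
    · exact Or.inl (exists_pl e)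
    · obtain ⟨a, c, h', rfl⟩ := exists_mn e
      obtain rfl := fst a c h' hb
      exact Or.inr ⟨c, h', rfl⟩
  have mix : ∀ b ∈ S, ∀ a ∈ Ioo i l, ψ (inl b) ≠ ψ (inr a) := fun b hb a ha e => by
    rw [mem_Ioo] at ha
    rcases cs b hb with ⟨a', c, h, rfl⟩ | ⟨c, h, rfl⟩
    · rw [e1, e3] at e
      exact no l hil h1 a _ ha.1 (e ▸ hb)
    · rw [e2, e3, pl_inj] at e
      exact ha.2.ne (e.1.symm.trans e.2)
  have h2 : (S.disjSum (Ioo i l)).card ≤ (Sie m).card := by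
    refine card_le_card_of_injOn ψ (fun z hz => ?_) fun z hz z' hz' e => ?_
    · rcases mem_disjSum.1 (mem_coe.1 hz) with ⟨b, hb, rfl⟩ | ⟨a, -, rfl⟩
      · rcases cs b hb with ⟨a', c, h, rfl⟩ | ⟨c, h, rfl⟩
        · rw [e1]; exact pl_mem _ _ _
        · rw [e2]; exact pl_mem _ _ _
      · exact pl_mem a l (le a)
    · rcases mem_disjSum.1 (mem_coe.1 hz) with ⟨b, hb, rfl⟩ | ⟨a, ha, rfl⟩ <;>
        rcases mem_disjSum.1 (mem_coe.1 hz') with ⟨b', hb', rfl⟩ | ⟨a', ha', rfl⟩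
      · rcases cs b hb with ⟨a, c, h, rfl⟩ | ⟨c, h, rfl⟩ <;> rcases cs b' hb' with ⟨a', c', h', rfl⟩ | ⟨c', h', rfl⟩
        · rw [e1, e1] at e; rw [e]
        · rw [e1, e2] at e; exact (no c' h' hb' c' le_rfl h' (e ▸ hb)).elim
        · rw [e1, e2] at e; exact (no c h hb c le_rfl h (e ▸ hb')).elim
        · rw [e2, e2, pl_inj] at e
          obtain ⟨rfl, -⟩ := e
          rfl
      · exact (mix b hb a' ha' e).elim
      · exact (mix b' hb' a ha e.symm).elim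
      · rw [e3, e3, pl_inj] at e; rw [e.1]
  rw [card_disjSum, Fin.card_Ioo] at h2
  have := Fin.lt_def.1 hil
  omega

theorem shp_of_sub (hI : (eC m).rc.Idl 2 S) (hS : S ⊆ Sie m) (hne : S.Nonempty)
    (hs : ∀ j : Fin m, j.1 + 1 < m → ∀ b ∈ S, (eC m).rc.s j b ∈ S) : S = Sie m ∨ Shp o l S := by
  by_cases h0 : ∃ i, pl i i le_rfl ∈ S
  · left
    obtain ⟨i, hi⟩ := h0
    have st : ∀ (n : ℕ) (h : n + 1 < m), pl ⟨n, by omega⟩ ⟨n, by omega⟩ le_rfl ∈ S ↔ pl ⟨n + 1, h⟩ ⟨n + 1, h⟩ le_rfl ∈ S :=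
      fun n h => ⟨fun e => s_pl (j := ⟨n, by omega⟩) h ▸ hs ⟨n, by omega⟩ h _ e, fun e => by
        have h1 := hs ⟨n, by omega⟩ h _ e
        rwa [← s_pl (j := ⟨n, by omega⟩) h, (eC m).rc.s_s _ fun e =>
          (s_mem_Sie (l := l) (by omega) (j := ⟨n, by omega⟩) h).1 (e ▸ pl_mem _ _ _)] at h1⟩
    have key : ∀ (n : ℕ) (h : n < m), pl ⟨n, h⟩ ⟨n, h⟩ le_rfl ∈ S ↔ pl o o le_rfl ∈ S := by
      intro n
      induction n with
      | zero => intro h; rw [show o = ⟨0, h⟩ from Fin.ext ho]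
      | succ n ih => exact fun h => (st n h).symm.trans (ih _)
    refine hS.antisymm fun b hb => ?_
    obtain ⟨a, c, h, rfl⟩ := exists_pl hb
    have h1 : pl c c le_rfl ∈ S := (key c c.2).2 ((key i i.2).1 hi)
    rcases h.eq_or_lt with rfl | h
    · exact h1
    · exact idl hI (mn a c h) h1 (by rw [rv_pl, rv_pl, rv_mn]; abel) (pl_sh _ h.ne)
  right
  push Not at h0
  obtain ⟨b, hb⟩ := hne
  obtain ⟨i, j, h, rfl⟩ := exists_pl (hS hb)
  have hij : i < j := lt_of_le_of_ne h fun e => h0 i (by subst e; exact hb)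
  have hoi : o ≤ i := by rw [Fin.le_def]; omega
  have h1 : pl o j (hoi.trans h) ∈ S := by
    rcases hoi.eq_or_lt with rfl | e
    · exact hb
    · exact idl hI (mn o i e) hb (by rw [rv_pl, rv_pl, rv_mn]; abel) (pl_sh _ (e.trans hij).ne)
  have key : ∀ (n : ℕ) (h : n + 1 < m), pl o ⟨n + 1, h⟩ (by rw [Fin.le_def]; omega) ∈ S := by
    intro n
    induction n with
    | zero =>
      intro h
      have h2 : (⟨0 + 1, h⟩ : Fin m) ≤ j := by
        have := Fin.lt_def.1 hij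
        rw [Fin.le_def]; simp only; omega
      rcases h2.eq_or_lt with e | e
      · subst e; exact h1
      · exact idl hI (mn _ j e) h1 (by rw [rv_pl, rv_pl, rv_mn]; abel) (pl_sh _ (Fin.ne_of_val_ne (by simp only; omega)))
    | succ n ih =>
      intro h
      have h2 : o < ⟨n + 1, by omega⟩ := by rw [Fin.lt_def]; simp only; omega
      exact s_pl' h2 h ▸ hs ⟨n + 1, by omega⟩ h _ (ih _)
  refine ⟨fun ⟨j, hj⟩ h => ?_, Or.inl ?_⟩
  · obtain ⟨n, rfl⟩ : ∃ n, j = n + 1 := ⟨j - 1, by have := Fin.lt_def.1 h; simp only at this; omega⟩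
    exact key n hj
  · have h2 : (univ.image fun a : Fin m => pl a a le_rfl).card = m := by
      rw [card_image_of_injective _ fun a b e => (pl_inj.1 e).1, card_univ, Fintype.card_fin]
    have h3 := card_le_card (union_subset hS (image_subset_iff.2 fun a (_ : a ∈ univ) => pl_mem a a le_rfl))
    rwa [card_union_of_disjoint (disjoint_right.2 fun b hb hb' => by
      obtain ⟨a, -, rfl⟩ := mem_image.1 hb
      exact h0 a hb'), h2] at h3

omit ho hl in
theorem Shp.card_le (h : Shp o l S) (hm : 2 ≤ m) : S.card ≤ (Sie m).card := by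
  have := h.card
  omega

theorem card_le (hm : 2 ≤ m) (hA : (eC m).rc.Ab 2 S) (hI : (eC m).rc.Idl 2 S) : S.card ≤ (Sie m).card := by
  by_cases h : S ⊆ Sie m
  · exact card_le_card h
  · exact (shp_of_notSub ho hl hA hI h).card_le hm

end shape

end Cfsg.Agent.TwoF.DC.TC.Sht
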