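import Cfsg.Agent.TwoF.DC.TC.Gen
import Cfsg.Agent.TwoF.DC.Asm.Up

/-!
# TwoF, defining characteristic, `Sp_4(2^f)` (1): patterns and the graph automorphism (helper62)
-/

set_option autoImplicit false
set_option linter.unusedSectionVars false
set_option linter.unusedVariables false
set_option maxHeartbeats 400000

namespace Cfsg.Agent.TwoF.DC.TC.S4

open Module Finset Cfsg.Agent.H45.Uni Cfsg.Agent.H45.UniE Cfsg.Agent.TwoF.Gen

variable [hp : Fact (Nat.Prime 2)] {Φ k G : Type} [Fintype Φ] [DecidableEq Φ] [Field k] [IsAlgClosed k] [CharP k 2]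
  [Group G] {D : RDat 2 (Fin 2) Φ k G} {T S : Type} [Group T] [Finite T] [Group S]

/-- the highest weight of the natural module -/
def w1 : Fin 2 → ℕ := Pi.single 0 1

theorem w1_lt (i : Fin 2) : w1 i < 2 := by revert i; decide

theorem w1_ne : w1 ≠ 0 := by decide

theorem eq_w1 {ν : Fin 2 → ℕ} (h0 : ν 0 = 1) (h1 : ν 1 = 0) : ν = w1 := funext (Fin.forall_fin_two.2 ⟨h0, h1⟩)

/-- the fixed vectors in the natural module -/
noncomputable def F1 (M : Std D T S) (B : Subgroup T) : ℕ := finrank k (fx (ρc D w1) (B.map M.φ))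

/-- the data of `Sp_4(2^f)` with its graph automorphism -/
structure G4 (M : Std D T S) (C : Can D) (θ : MulAut T) : Prop where
  cfa : C.Fa
  deg1 : Deg1 D
  pow : M.Pow C
  triv : ∀ γ : M.Gr, γ = 1
  two : 2 ≤ M.f
  Δ0 : ∀ s, D.Δ 0 (M.φ (θ s)) = D.Δ 1 (M.φ s)
  sq : ∀ s, M.φ (θ (θ s)) = M.Fr (M.φ s)
  thU : ∀ u ∈ M.E.U, θ u ∈ M.E.U
  aut : ∀ β : MulAut T, ∃ (s : T) (i : ℕ), β = MulAut.conj s * θ ^ i
  d1 : dd D w1 = 4
  ab : ∀ Sg : Finset Φ, D.R.Ab 2 Sg → Sg.card ≤ 3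
  u1 : ∀ Sg : Finset Φ, Sg.Nonempty → C.u w1 Sg ≤ 3
  u2 : ∀ Sg : Finset Φ, 2 ≤ Sg.card → C.u w1 Sg ≤ 2
  cen : ∃ x ∈ M.E.U, (∀ u ∈ M.E.U, u * x = x * u) ∧ θ (θ x) = x ∧ θ x ≠ x
  zz : ∃ Z : Subgroup T, IsElementaryAbelian 2 Z ∧ 2 ^ (2 * M.f) ≤ Nat.card Z ∧ 2 ≤ F1 M Z ∧
    2 ≤ F1 M (Z.map θ.toMonoidHom)

variable (M : Std D T S)

/-- the action of the graph automorphism on patterns -/
def ta (n : Fin M.f → Fin 2 → ℕ) : Fin M.f → Fin 2 → ℕ := fun a i => if i = 0 then n a 1 else n (M.pos (a + 1)) 0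

theorem ta_zero (n : Fin M.f → Fin 2 → ℕ) (a : Fin M.f) : ta M n a 0 = n a 1 := rfl

theorem ta_one (n : Fin M.f → Fin 2 → ℕ) (a : Fin M.f) : ta M n a 1 = n (M.rot 1 a) 0 := rfl

theorem ta_mem {n : Fin M.f → Fin 2 → ℕ} (hn : n ∈ M.pats) : ta M n ∈ M.pats :=
  M.mem_pats.2 fun a => Fin.forall_fin_two.2 ⟨M.mem_pats.1 hn _ _, M.mem_pats.1 hn _ _⟩

/-- the number of factors -/
def tt (n : Fin M.f → Fin 2 → ℕ) : ℕ := ∑ a, n a 0 + ∑ a, n a 1

theorem tt_ta (n : Fin M.f → Fin 2 → ℕ) : tt M (ta M n) = tt M n := by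
  rw [tt, tt, add_comm]
  exact congrArg (· + _) (Equiv.sum_comp (M.rot 1) fun a => n a 0)

theorem tt_pos {n : Fin M.f → Fin 2 → ℕ} (h : n ≠ 0) : 0 < tt M n := by
  by_contra h0
  have h1 : ∑ a, n a 0 = 0 ∧ ∑ a, n a 1 = 0 := by rw [tt] at h0; omega
  rw [Finset.sum_eq_zero_iff, Finset.sum_eq_zero_iff] at h1
  exact h (funext fun a => funext (Fin.forall_fin_two.2 ⟨h1.1 a (mem_univ a), h1.2 a (mem_univ a)⟩))

theorem single_mem (a : Fin M.f) {ν : Fin 2 → ℕ} (h : ∀ i, ν i < 2) : (Pi.single a ν : Fin M.f → Fin 2 → ℕ) ∈ M.pats :=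
  M.mem_pats.2 fun c i => by
    by_cases hc : c = a
    · rw [hc, Pi.single_eq_same]; exact h i
    · rw [Pi.single_eq_of_ne hc]; exact two_pos

theorem Dn_single (a : Fin M.f) (ν : Fin 2 → ℕ) : M.Dn (Pi.single a ν) = dd D ν := by
  rw [Std.Dn, Finset.prod_eq_single a (fun c _ hc => by rw [Pi.single_eq_of_ne hc, dd_zero]) (by simp),
    Pi.single_eq_same]

theorem F1_conj (g : T) (B : Subgroup T) : F1 M (B.map (MulAut.conj g).toMonoidHom) = F1 M B := by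
  rw [F1, F1, ← fx_comp M.φ, ← fx_comp M.φ, fx_conj, finrank_map_rho]

namespace G4

variable {M} {C : Can D} {θ : MulAut T} (H : G4 M C θ)

include H

theorem act_eq (γ : M.Gr) (j : ℕ) (n : Fin M.f → Fin 2 → ℕ) (a : Fin M.f) : M.act γ j n a = n (M.rot j a) := by
  rw [M.act_apply', H.triv (_ * _), M.comp_gι_one, M.rot_apply]

theorem ta_ta (n : Fin M.f → Fin 2 → ℕ) : ta M (ta M n) = M.act 1 1 n :=
  funext fun a => by rw [H.act_eq]; exact funext (Fin.forall_fin_two.2 ⟨rfl, rfl⟩)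

theorem ta_inj : Function.Injective (ta M) := fun n n' e =>
  M.act_inj (Commute.one_left _) 1 (by rw [← H.ta_ta, e, H.ta_ta])

theorem rot_ne (a : Fin M.f) : M.rot 1 a ≠ a := fun e => by
  have h1 : (a + 1) % M.f = a := congrArg Fin.val e
  have h2 := H.two
  have h3 := a.2
  rcases Nat.lt_or_ge (a + 1) M.f with h | h
  · rw [Nat.mod_eq_of_lt h] at h1; omega
  · rw [show (a : ℕ) + 1 = M.f by omega, Nat.mod_self] at h1; omega

theorem iter_eq (m : ℕ) (s : T) : M.Fr^[m] (M.φ s) = M.Fr^[m % M.f] (M.φ s) := by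
  rw [M.iter_eq m, H.triv (_⁻¹), M.gr_one]

theorem φ_pow (j : ℕ) (s : T) : M.φ ((θ ^ (2 * j)) s) = M.Fr^[j] (M.φ s) := by
  induction j with
  | zero => rfl
  | succ j ih =>
    rw [mul_add, mul_one, add_comm, pow_add, pow_two, MulAut.mul_apply, MulAut.mul_apply, H.sq, ih,
      Function.iterate_succ_apply']

theorem cP_ta (n : Fin M.f → Fin 2 → ℕ) (s : T) : M.cP (ta M n) (M.ΦT (θ s)) = M.cP n (M.ΦT s) := by
  have h1 : ∀ a : Fin M.f, D.Δ 0 (M.ΦT (θ s) a) = D.Δ 1 (M.ΦT s a) := fun a => by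
    rw [M.ΦT_apply, M.ΦT_apply, M.Δ_iter, M.Δ_iter, H.Δ0]
  have h2 : ∀ a : Fin M.f, D.Δ 1 (M.ΦT (θ s) a) = D.Δ 0 (M.ΦT s (M.rot 1 a)) := fun a => by
    rw [M.ΦT_apply, M.ΦT_apply, M.Δ_iter, ← H.Δ0, H.sq, ← M.Δ_iter, ← Function.iterate_succ_apply, H.iter_eq]
    rfl
  simp only [Std.cP, FDat.cc, Fin.prod_univ_two, Finset.prod_mul_distrib, h1, h2, ta_zero, ta_one]
  rw [mul_comm, Equiv.prod_comp (M.rot 1) fun a => D.Δ 0 (M.ΦT s a) ^ n a 0]

theorem trf {n : Fin M.f → Fin 2 → ℕ} (hn : n ∈ M.pats) : Trf M M θ n (ta M n) :=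
  trf_of H.cfa H.pow H.cfa H.pow hn (ta_mem M hn) (H.cP_ta n)

theorem Dn_ta {n : Fin M.f → Fin 2 → ℕ} (hn : n ∈ M.pats) : M.Dn (ta M n) = M.Dn n :=
  (H.pow.dim _ (ta_mem M hn)).symm.trans ((H.trf hn).dim.symm.trans (H.pow.dim _ hn))

theorem ta_single (a : Fin M.f) {ν : Fin 2 → ℕ} (h : ν 1 = 1) : ta M (Pi.single a ν) a = w1 :=
  eq_w1 (by rw [ta_zero, Pi.single_eq_same, h]) (by rw [ta_one, Pi.single_eq_of_ne (H.rot_ne a)]; rfl)

theorem dd_two {ν : Fin 2 → ℕ} (h : ν 0 + ν 1 ≤ 1) : dd D ν = 4 ^ (ν 0 + ν 1) := by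
  rcases Nat.eq_zero_or_pos (ν 1) with h1 | h1
  · rcases Nat.eq_zero_or_pos (ν 0) with h0 | h0
    · rw [show ν = 0 from funext (Fin.forall_fin_two.2 ⟨h0, h1⟩), dd_zero]; rfl
    · rw [eq_w1 (show ν 0 = 1 by omega) h1, H.d1]; rfl
  · have h2 : ν 1 = 1 := by omega
    have h0 : ν 0 = 0 := by omega
    have h3 : ta M (Pi.single M.z0 ν) = Pi.single M.z0 w1 := funext fun c => by
      by_cases hc : c = M.z0
      · rw [hc, H.ta_single _ h2, Pi.single_eq_same]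
      · rw [Pi.single_eq_of_ne hc]
        refine funext (Fin.forall_fin_two.2 ⟨by rw [ta_zero, Pi.single_eq_of_ne hc]; rfl, ?_⟩)
        rw [ta_one, Pi.single_apply]
        split_ifs
        · exact h0
        · rfl
    rw [← Dn_single M M.z0, ← H.Dn_ta (single_mem M _ (Fin.forall_fin_two.2 ⟨by omega, by omega⟩)), h3, Dn_single,
      H.d1, h0, h2]
    rfl

theorem Dn_of {n : Fin M.f → Fin 2 → ℕ} (h : ∀ a, dd D (n a) = 4 ^ (n a 0 + n a 1)) : M.Dn n = 4 ^ tt M n := by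
  rw [Std.Dn, Finset.prod_congr rfl fun a _ => h a, Finset.prod_pow_eq_pow_sum, Finset.sum_add_distrib, tt]

theorem dd_eq {ν : Fin 2 → ℕ} (h : ∀ i, ν i < 2) : dd D ν = 4 ^ (ν 0 + ν 1) := by
  have h0 := h 0
  have h1 := h 1
  by_cases h2 : ν 0 + ν 1 ≤ 1
  · exact H.dd_two h2
  rw [← Dn_single M M.z0, ← H.Dn_ta (single_mem M _ h), H.Dn_of fun c => H.dd_two ?_, tt_ta, tt,
    Finset.sum_eq_single M.z0 (fun c _ hc => by rw [Pi.single_eq_of_ne hc]; rfl) (by simp),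
    Finset.sum_eq_single M.z0 (fun c _ hc => by rw [Pi.single_eq_of_ne hc]; rfl) (by simp), Pi.single_eq_same]
  rw [ta_zero, ta_one]
  by_cases hc : c = M.z0
  · rw [hc, Pi.single_eq_same, Pi.single_eq_of_ne (H.rot_ne _), Pi.zero_apply]; omega
  · rw [Pi.single_eq_of_ne hc, Pi.single_apply, Pi.zero_apply]
    split_ifs
    · omega
    · exact Nat.zero_le _

theorem Dn_eq {n : Fin M.f → Fin 2 → ℕ} (hn : n ∈ M.pats) : M.Dn n = 4 ^ tt M n :=
  H.Dn_of fun a => H.dd_eq (M.mem_pats.1 hn a)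

/-! ### fixed vectors -/

theorem fix_w1 {n : Fin M.f → Fin 2 → ℕ} (hn : n ∈ M.pats) {a : Fin M.f} (ha : n a = w1) {B : Subgroup T}
    (hB : IsPGroup 2 B) : 4 * finrank k (M.fxW n B) ≤ F1 M B * M.Dn n := by
  have h := fxW_le_mul C M hn hB a
  rw [Std.Dn, ← Finset.mul_prod_erase _ _ (mem_univ a), ha, H.d1, mul_left_comm]
  rw [ha] at h
  exact Nat.mul_le_mul_left 4 h

theorem fix_le {n : Fin M.f → Fin 2 → ℕ} (hn : n ∈ M.pats) (h0 : n ≠ 0) {B : Subgroup T} (hB : IsPGroup 2 B) {x : ℕ}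
    (h1 : F1 M B ≤ x) (h2 : F1 M (B.map θ.toMonoidHom) ≤ x) : 4 * finrank k (M.fxW n B) ≤ x * M.Dn n := by
  obtain ⟨a, ha⟩ := Function.ne_iff.1 h0
  have h3 := M.mem_pats.1 hn a
  by_cases h4 : n a 1 = 0
  · refine (H.fix_w1 hn (a := a) (eq_w1 ?_ h4) hB).trans (Nat.mul_le_mul_right _ h1)
    by_contra h5
    exact ha (funext (Fin.forall_fin_two.2 ⟨by have := h3 0; show n a 0 = 0; omega, h4⟩))
  have h5 := single_mem M a h3
  have h6 := H.fix_w1 (ta_mem M h5) (H.ta_single a (by have := h3 1; omega)) (hB.map θ.toMonoidHom)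
  rw [← (H.trf h5).fix, H.Dn_ta h5, Dn_single, (H.pow.single a _ h3 B).1] at h6
  refine (Nat.mul_le_mul_left 4 (fxW_le_mul C M hn hB a)).trans ?_
  rw [Std.Dn, ← Finset.mul_prod_erase _ _ (mem_univ a), ← mul_assoc, ← mul_assoc]
  exact Nat.mul_le_mul_right _ (h6.trans (Nat.mul_le_mul_right _ h2))

theorem F1_le {B : Subgroup T} (hB : IsElementaryAbelian 2 B) {r : ℕ} (hr : Nat.card B = 2 ^ r) :
    r ≤ 3 * M.f ∧ (0 < r → F1 M B ≤ 3) ∧ (M.f < r → F1 M B ≤ 2) := by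
  obtain ⟨g, hg⟩ := M.exists_conj_U (elemAb_isPGroup hB)
  obtain ⟨Sg, h1, h2, h3⟩ := H.pow.inner H.cfa (B.map (MulAut.conj g).toMonoidHom)
    (by rintro _ ⟨x, hx, rfl⟩; exact hg x hx) fun x hx y hy => elemAb_comm (elemAb_map hB _) hx hy
  rw [card_map_conj, hr, Nat.pow_le_pow_iff_right one_lt_two] at h1
  have h4 : ∀ a, F1 M B ≤ C.u w1 (Sg a) := fun a => by
    have h5 := h3 _ (single_mem M a w1_lt)
    rwa [(H.pow.single a _ w1_lt _).1, Finset.prod_eq_single a (fun c _ hc => by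
      rw [Pi.single_eq_of_ne hc, C.u_zero]) (by simp), Pi.single_eq_same, ← F1, F1_conj] at h5
  have h5 : ∀ c, (∀ a, (Sg a).card ≤ c) → r ≤ c * M.f := fun c hc => h1.trans (by
    simpa [mul_comm] using Finset.sum_le_card_nsmul univ (fun a => (Sg a).card) c fun a _ => hc a)
  refine ⟨h5 3 fun a => H.ab _ (h2 a).1, fun h => ?_, fun h => ?_⟩
  · by_contra h6
    have h7 := h5 0 fun a => by
      by_contra h8
      exact h6 ((h4 a).trans (H.u1 _ (Finset.card_pos.1 (by omega))))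
    omega
  · by_contra h6
    have h7 := h5 1 fun a => by
      by_contra h8
      exact h6 ((h4 a).trans (H.u2 _ (by omega)))
    omega

theorem two_le_fix {n : Fin M.f → Fin 2 → ℕ} (hn : n ∈ M.pats) (h : tt M n = 1) {B : Subgroup T} (h1 : 2 ≤ F1 M B)
    (h2 : 2 ≤ F1 M (B.map θ.toMonoidHom)) : 2 ≤ finrank k (M.fxW n B) := by
  have key : ∀ n ∈ M.pats, ∑ a, n a 0 = 1 → ∑ a, n a 1 = 0 → ∀ B, finrank k (M.fxW n B) = F1 M B := by
    intro n hn h3 h4 B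
    obtain ⟨a, -, ha⟩ := Finset.exists_ne_zero_of_sum_ne_zero (h3 ▸ one_ne_zero)
    rw [Finset.sum_eq_zero_iff] at h4
    rw [← Finset.add_sum_erase _ _ (mem_univ a)] at h3
    have h5 : ∑ c ∈ univ.erase a, n c 0 = 0 := by omega
    rw [Finset.sum_eq_zero_iff] at h5
    have h6 : n = Pi.single a w1 := funext fun c => by
      by_cases hc : c = a
      · rw [hc, Pi.single_eq_same]
        exact eq_w1 (by have := M.mem_pats.1 hn a 0; omega) (h4 a (mem_univ a))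
      · rw [Pi.single_eq_of_ne hc]
        exact funext (Fin.forall_fin_two.2 ⟨h5 c (mem_erase.2 ⟨hc, mem_univ c⟩), h4 c (mem_univ c)⟩)
    rw [h6]
    exact (H.pow.single a _ w1_lt B).1
  rw [tt] at h
  rcases Nat.eq_zero_or_pos (∑ a, n a 1) with h3 | h3
  · rwa [key n hn (by omega) h3]
  · rwa [(H.trf hn).fix, key _ (ta_mem M hn) (show ∑ a, n a 1 = 1 by omega)
      ((Equiv.sum_comp (M.rot 1) fun a => n a 0).trans (by omega))]

/-! ### modules -/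

variable {Y U : Type} [Group Y] [Finite Y] [AddCommGroup U] [Module k U] {ρ : Representation k Y U} {ψ : T →* Y}
  {irrK : Prop} (X : Cty M C ρ ψ irrK)

include X

theorem cod_ge {B : Subgroup T} (hB : IsPGroup 2 B) {x c : ℕ} (hx : x + c = 4) (h1 : F1 M B ≤ x)
    (h2 : F1 M (B.map θ.toMonoidHom) ≤ x) : c * finrank k U ≤ 4 * cod ρ (B.map ψ) := by
  rw [X.cod_eq, X.finrank_U', Finset.mul_sum, Finset.mul_sum]
  refine Finset.sum_le_sum fun n hn => ?_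
  have h3 := H.fix_le (Cty.pats hn) (X.ne_zero hn) hB h1 h2
  rw [mul_left_comm, mul_left_comm 4]
  refine Nat.mul_le_mul_left _ ?_
  have h4 : x * M.Dn n + c * M.Dn n = 4 * M.Dn n := by rw [← add_mul, hx]
  omega

/-- **large modules** -/
theorem cod_big (h : 16 * M.f ≤ finrank k U) {B : Subgroup T} (hB : IsElementaryAbelian 2 B) {r : ℕ} (h0 : 0 < r)
    (hr : Nat.card B = 2 ^ r) : 2 * r + 4 ≤ cod ρ (B.map ψ) := by
  obtain ⟨h1, h2, h3⟩ := H.F1_le hB hr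
  obtain ⟨-, h4, h5⟩ := H.F1_le (elemAb_map hB θ.toMonoidHom)
    ((Subgroup.card_map_of_injective θ.injective).trans hr)
  have h6 := H.two
  rcases Nat.lt_or_ge M.f r with h7 | h7
  · have := H.cod_ge X (elemAb_isPGroup hB) (c := 2) rfl (h3 h7) (h5 h7)
    omega
  · have := H.cod_ge X (elemAb_isPGroup hB) (c := 1) rfl (h2 h0) (h4 h0)
    omega

omit H in
theorem sum_digit (H : G4 M C θ) {O : Finset (Fin M.f → Fin 2 → ℕ)} (hO : O ⊆ M.N ρ ψ) (hs : M.Sh O) (i : Fin 2) :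
    ∑ n ∈ O, M.mult (ρ.comp ψ) n * ∑ a, n a i = M.f * ∑ n ∈ O, M.mult (ρ.comp ψ) n * n M.z0 i := by
  simp only [Finset.mul_sum univ]
  rw [Finset.sum_comm, Finset.sum_congr rfl (g := fun _ => ∑ n ∈ O, M.mult (ρ.comp ψ) n * n M.z0 i), Finset.sum_const,
    Finset.card_univ, Fintype.card_fin, smul_eq_mul]
  intro c _
  rw [← M.sum_act (Commute.one_left _) (j := c) (fun n hn => hs.act c hn) fun n => M.mult (ρ.comp ψ) n * n M.z0 i]
  exact Finset.sum_congr rfl fun n hn => by rw [X.mult_actN (hO hn), M.act_z0]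

omit H X in
theorem eight_le {t : ℕ} (h : 2 ≤ t) : 8 * t ≤ 4 ^ t := by
  induction t, h using Nat.le_induction with
  | base => norm_num
  | succ t h ih => rw [pow_succ]; omega

theorem dim_ge {O : Finset (Fin M.f → Fin 2 → ℕ)} (hO : O ⊆ M.N ρ ψ) (h : ∀ n ∈ O, 2 ≤ tt M n) :
    8 * ∑ n ∈ O, M.mult (ρ.comp ψ) n * tt M n ≤ finrank k U := by
  rw [X.finrank_U', Finset.mul_sum]
  refine le_trans (Finset.sum_le_sum fun n hn => ?_) (Finset.sum_le_sum_of_subset hO)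
  rw [mul_left_comm, H.Dn_eq (Cty.pats (hO hn))]
  exact Nat.mul_le_mul_left _ (eight_le (h n hn))

/-- both kinds of digits in all patterns -/
theorem mixed (h : ∀ n ∈ M.N ρ ψ, ∀ i, ∃ a, n a i ≠ 0) : 16 * M.f ≤ finrank k U := by
  have h1 : ∀ n ∈ M.N ρ ψ, ∀ i, 1 ≤ ∑ a, n a i := fun n hn i => by
    obtain ⟨a, ha⟩ := h n hn i
    exact (Nat.pos_of_ne_zero ha).trans_le (Finset.single_le_sum (f := fun a => n a i) (fun _ _ => Nat.zero_le _) (mem_univ a))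
  have h2 : ∀ i, M.f ≤ ∑ n ∈ M.N ρ ψ, M.mult (ρ.comp ψ) n * ∑ a, n a i := fun i => by
    have h3 : 0 < ∑ n ∈ M.N ρ ψ, M.mult (ρ.comp ψ) n * ∑ a, n a i :=
      Finset.sum_pos (fun n hn => Nat.mul_pos (Cty.one_le_mult hn) (h1 n hn i)) X.N_nonempty
    rw [sum_digit X H subset_rfl X.sh] at h3 ⊢
    exact Nat.le_mul_of_pos_right _ (Nat.pos_of_mul_pos_left h3)
  have h3 := H.dim_ge X subset_rfl fun n hn => Nat.add_le_add (h1 n hn 0) (h1 n hn 1)
  simp only [tt, mul_add, Finset.sum_add_distrib] at h3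
  have := h2 0
  have := h2 1
  omega

theorem sum_tt (hm : ∀ n ∈ M.pats, M.mult (ρ.comp ψ) (ta M n) = M.mult (ρ.comp ψ) n)
    {O : Finset (Fin M.f → Fin 2 → ℕ)} (hO : O ⊆ M.N ρ ψ) (hs : ∀ n ∈ O, ta M n ∈ O) :
    ∃ m, ∑ n ∈ O, M.mult (ρ.comp ψ) n * tt M n = 2 * M.f * m := by
  have h1 : M.Sh O := fun n hn => H.ta_ta n ▸ hs _ (hs n hn)
  have h2 : ∑ n ∈ O, M.mult (ρ.comp ψ) n * n M.z0 1 = ∑ n ∈ O, M.mult (ρ.comp ψ) n * n M.z0 0 :=
    Finset.sum_nbij (ta M) hs (fun a _ b _ e => H.ta_inj e)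
      (Finset.surjOn_of_injOn_of_card_le _ hs (fun a _ b _ e => H.ta_inj e) le_rfl)
      fun n hn => by rw [hm n (Cty.pats (hO hn)), ta_zero]
  refine ⟨∑ n ∈ O, M.mult (ρ.comp ψ) n * n M.z0 0, ?_⟩
  simp only [tt, mul_add, Finset.sum_add_distrib]
  rw [sum_digit X H hO h1, sum_digit X H hO h1, h2]
  ring

/-- **modules which are invariant under the graph automorphism** -/
theorem graph (hψ : Function.Injective ψ) (hm : ∀ n ∈ M.pats, M.mult (ρ.comp ψ) (ta M n) = M.mult (ρ.comp ψ) n) :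
    16 * M.f ≤ finrank k U ∨ Std.Inner 2 ρ ψ := by
  classical
  have hN : ∀ n ∈ M.N ρ ψ, ta M n ∈ M.N ρ ψ := fun n hn =>
    (M.mem_N ρ ψ).2 ⟨ta_mem M (Cty.pats hn), by rw [hm n (Cty.pats hn)]; exact ((M.mem_N ρ ψ).1 hn).2⟩
  by_cases h1 : ∃ n ∈ M.N ρ ψ, 2 ≤ tt M n
  · obtain ⟨n, hn, h1⟩ := h1
    obtain ⟨m, h2⟩ := H.sum_tt X hm (O := (M.N ρ ψ).filter fun n => 2 ≤ tt M n) (filter_subset _ _) fun n hn =>
      mem_filter.2 ⟨hN n (mem_filter.1 hn).1, by rw [tt_ta]; exact (mem_filter.1 hn).2⟩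
    have h3 := H.dim_ge X (O := (M.N ρ ψ).filter fun n => 2 ≤ tt M n) (filter_subset _ _) fun n hn => (mem_filter.1 hn).2
    have h4 : 0 < ∑ n ∈ (M.N ρ ψ).filter fun n => 2 ≤ tt M n, M.mult (ρ.comp ψ) n * tt M n :=
      Finset.sum_pos (fun n hn => Nat.mul_pos (Cty.one_le_mult (mem_filter.1 hn).1) (by have := (mem_filter.1 hn).2; omega))
        ⟨n, mem_filter.2 ⟨hn, h1⟩⟩
    rw [h2] at h3 h4
    have h5 := Nat.le_mul_of_pos_right (2 * M.f) (Nat.pos_of_mul_pos_left h4)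
    exact Or.inl (by omega)
  have h2 : ∀ n ∈ M.N ρ ψ, tt M n = 1 := fun n hn => by
    have h3 := tt_pos M (X.ne_zero hn)
    have h4 : ¬ 2 ≤ tt M n := fun h => h1 ⟨n, hn, h⟩
    omega
  have h3 : ∀ n ∈ M.N ρ ψ, M.Dn n = 4 := fun n hn => by rw [H.Dn_eq (Cty.pats hn), h2 n hn, pow_one]
  obtain ⟨m, h4⟩ := H.sum_tt X hm subset_rfl hN
  rw [Finset.sum_congr rfl fun n hn => by rw [h2 n hn, mul_one]] at h4
  have h5 := X.finrank_U'
  rw [Finset.sum_congr rfl fun n hn => by rw [h3 n hn], ← Finset.sum_mul, h4] at h5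
  refine (Nat.lt_or_ge 1 m).imp (fun h => ?_) fun h => ?_
  · have := Nat.mul_le_mul_left (2 * M.f) (show 2 ≤ m from h)
    omega
  obtain ⟨Z, h6, h7, h8, h9⟩ := H.zz
  have h10 := fun n (hn : n ∈ M.N ρ ψ) => H.two_le_fix (Cty.pats hn) (h2 n hn) h8 h9
  have h11 : cod ρ (Z.map ψ) ≤ 2 * M.f * 2 := by
    refine (X.cod_le_sum Z).trans ((Finset.sum_le_sum fun n hn => Nat.mul_le_mul_left _ (show _ ≤ 2 by
      have := h10 n hn; rw [h3 n hn]; omega)).trans ?_)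
    rw [← Finset.sum_mul, h4]
    exact Nat.mul_le_mul_right _ ((Nat.mul_le_mul_left _ h).trans (mul_one _).le)
  have h12 := Subgroup.card_map_of_injective (K := Z) hψ
  refine ⟨Z.map ψ, Subgroup.map_le_range _ _, ⟨elemAb_map h6 _, fun e => ?_, ?_⟩, X.cub_of fun n hn => ?_⟩
  · rw [← h12, e, Subgroup.card_bot] at h7
    exact (Nat.one_lt_two_pow (by have := H.two; omega)).not_ge h7
  · rw [h12]
    exact (Nat.pow_le_pow_right two_pos h11).trans (by rw [pow_mul]; exact Nat.pow_le_pow_left h7 2)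
  · have := X.pow.fd n (Cty.pats hn)
    refine cub_of_cod_le_two (elemAb_isPGroup h6) ?_
    have h13 := h10 n hn
    rw [cod, M.finrank_fxW, X.finrank_Wc (Cty.pats hn), h3 n hn]
    omega

end G4

end Cfsg.Agent.TwoF.DC.TC.S4
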