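import Cfsg.Agent.TwoF.DC.TC.Sp4A
import Cfsg.Agent.TwoF.DC.Asm.Main

/-!
# TwoF, defining characteristic, `Sp_4(2^f)` (2): the offenders (helper62)
-/

set_option autoImplicit false
set_option linter.unusedSectionVars false
set_option linter.unusedVariables false
set_option maxHeartbeats 400000

namespace Cfsg.Agent.TwoF.DC.TC.S4

open Module Finset Cfsg.Agent.H45.Uni Cfsg.Agent.H45.UniE Cfsg.Agent.TwoF.Gen

theorem mul_conj {T : Type} [Group T] (g : MulAut T) (s : T) : g * MulAut.conj s = MulAut.conj (g s) * g :=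
  MulEquiv.ext fun t => by simp

theorem cyc_two {Q : Type} [Group Q] [Finite Q] [IsCyclic Q] {x y : Q} (hx : x ^ 2 = 1) (hy : y ^ 2 = 1) (h1 : x ≠ 1)
    (h2 : y ≠ 1) : x = y := by
  classical
  have := Fintype.ofFinite Q
  by_contra h
  have h3 := (Finset.card_le_card (s := {1, x, y}) (by
    simp [Finset.insert_subset_iff, hx, hy])).trans (IsCyclic.card_pow_eq_one_le (α := Q) two_pos)
  rw [Finset.card_eq_three.2 ⟨1, x, y, h1.symm, h2.symm, h, rfl⟩] at h3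
  omega

/-- two involutions modulo inner automorphisms -/
theorem inner_of {T : Type} [Group T] [Finite T] {θ : MulAut T} (h : ∀ β : MulAut T, ∃ (s : T) (i : ℕ), β = MulAut.conj s * θ ^ i)
    {a b : MulAut T} (ha : a ^ 2 = 1) (hb : b ^ 2 = 1) (h1 : ∀ s, a ≠ MulAut.conj s) (h2 : ∀ s, b ≠ MulAut.conj s) :
    ∃ s, a * b = MulAut.conj s := by
  let I : Subgroup (MulAut T) := (MulAut.conj : T →* MulAut T).range
  have : I.Normal := ⟨by rintro _ ⟨s, rfl⟩ g; exact ⟨g s, by rw [mul_conj, mul_inv_cancel_right]⟩⟩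
  have h3 : ∀ x : MulAut T, QuotientGroup.mk' I x = 1 ↔ ∃ s, x = MulAut.conj s := fun x =>
    (QuotientGroup.eq_one_iff _).trans ⟨fun ⟨s, e⟩ => ⟨s, e.symm⟩, fun ⟨s, e⟩ => ⟨s, e.symm⟩⟩
  have : IsCyclic (MulAut T ⧸ I) := ⟨⟨QuotientGroup.mk' I θ, fun q => by
    obtain ⟨x, rfl⟩ := QuotientGroup.mk'_surjective I q
    obtain ⟨s, i, rfl⟩ := h x
    exact ⟨i, by rw [map_mul, (h3 _).2 ⟨s, rfl⟩, one_mul, map_pow]; exact zpow_natCast _ _⟩⟩⟩
  have h4 : ∀ x : MulAut T, x ^ 2 = 1 → QuotientGroup.mk' I x ^ 2 = 1 := fun x hx => by rw [← map_pow, hx, map_one]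
  rw [← h3, map_mul, cyc_two (h4 a ha) (h4 b hb) (fun e => ((h3 _).1 e).elim h1) fun e => ((h3 _).1 e).elim h2, ← sq,
    h4 b hb]

variable [hp : Fact (Nat.Prime 2)] {Φ k G : Type} [Fintype Φ] [DecidableEq Φ] [Field k] [IsAlgClosed k] [CharP k 2]
  [Group G] {D : RDat 2 (Fin 2) Φ k G} {T S : Type} [Group T] [Finite T] [Group S]
  {Y U : Type} [Group Y] [Finite Y] [AddCommGroup U] [Module k U]

/-- the module and the action of `Y` on `T` -/
structure Sit (M : Std D T S) (C : Can D) (ρ : Representation k Y U) (ψ : T →* Y) (β : Y →* MulAut T) (irrK : Prop) :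
    Prop where
  inj : Function.Injective ρ
  ψinj : Function.Injective ψ
  cj : ∀ y t, y * ψ t * y⁻¹ = ψ (β y t)
  cent : ∀ y, (∀ s, y * ψ s * y⁻¹ = ψ s) → y ∈ ψ.range
  cty : ∀ g : MulAut T, Cty M C ρ (ψ.comp g.toMonoidHom) irrK

variable {M : Std D T S} {C : Can D} {θ : MulAut T} {ρ : Representation k Y U} {ψ : T →* Y} {β : Y →* MulAut T}
  {irrK : Prop}

theorem range_comp (ψ : T →* Y) (g : MulAut T) : (ψ.comp g.toMonoidHom).range = ψ.range := by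
  rw [MonoidHom.range_comp, MonoidHom.range_eq_top.2 g.surjective, ← MonoidHom.range_eq_map]

namespace Sit

variable (X : Sit M C ρ ψ β irrK)

include X

theorem cty1 : Cty M C ρ ψ irrK := X.cty 1

theorem conj (g : MulAut T) : Sit M C ρ (ψ.comp g.toMonoidHom) ((MulAut.conj g⁻¹).toMonoidHom.comp β) irrK where
  inj := X.inj
  ψinj := X.ψinj.comp g.injective
  cj y t := (X.cj y _).trans (congrArg ψ (MulAut.apply_inv_self T g _).symm)
  cent y h := by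
    rw [range_comp]
    exact X.cent y fun s => by obtain ⟨s, rfl⟩ := g.surjective s; exact h s
  cty g' := X.cty (g * g')

theorem mem_range {y : Y} {s : T} (h : β y = MulAut.conj s) : y ∈ ψ.range := by
  have h1 := X.cent ((ψ s)⁻¹ * y) fun t => by
    have h2 := X.cj y t
    rw [h, MulAut.conj_apply, map_mul, map_mul, map_inv] at h2
    calc _ = (ψ s)⁻¹ * (y * ψ t * y⁻¹) * ψ s := by group
      _ = _ := by rw [h2]; group
  simpa using mul_mem (⟨s, rfl⟩ : ψ s ∈ ψ.range) h1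

theorem cod_big (H : G4 M C θ) (h : 16 * M.f ≤ finrank k U) {B : Subgroup Y} (hB : IsElementaryAbelian 2 B)
    (h1 : B ≤ ψ.range) {r : ℕ} (h0 : 0 < r) (hr : Nat.card B = 2 ^ r) : 2 * r + 4 ≤ cod ρ B := by
  have h2 := Subgroup.map_comap_eq_self h1
  rw [← h2]
  refine H.cod_big X.cty1 h (elemAb_of (fun a ha b hb => X.ψinj ?_) fun a ha => X.ψinj ?_) h0 ?_
  · rw [map_mul, map_mul]; exact elemAb_comm hB ha hb
  · rw [map_pow, map_one]; exact hB.2 _ ha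
  · rw [← Subgroup.card_map_of_injective X.ψinj, h2, hr]

end Sit

namespace G4

variable (H : G4 M C θ)

include H

theorem powU (i : ℕ) {u : T} (hu : u ∈ M.E.U) : (θ ^ i) u ∈ M.E.U := by
  induction i with
  | zero => exact hu
  | succ i ih => rw [pow_succ']; exact H.thU _ ih

theorem invU {u : T} (hu : u ∈ M.E.U) : θ⁻¹ u ∈ M.E.U := by
  obtain ⟨i, hi⟩ := mem_powers_iff_mem_zpowers.2 (inv_mem (Subgroup.mem_zpowers θ))
  exact hi ▸ H.powU i hu

/-- the automorphisms `u * θ ^ i` -/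
def AU : Subgroup (MulAut T) := finSub
  { carrier := {g | ∃ u ∈ M.E.U, ∃ i : ℕ, g = MulAut.conj u * θ ^ i}
    one_mem' := ⟨1, one_mem _, 0, by simp⟩
    mul_mem' := by
      rintro _ _ ⟨u, hu, i, rfl⟩ ⟨u', hu', i', rfl⟩
      exact ⟨u * (θ ^ i) u', mul_mem hu (H.powU i hu'), i + i', by
        rw [map_mul, pow_add, mul_assoc, ← mul_assoc (θ ^ i), mul_conj]; simp only [mul_assoc]⟩ }

theorem exists_red {P : Subgroup (MulAut T)} (hP : IsPGroup 2 P) : ∃ g, ∀ x ∈ P, g * x * g⁻¹ ∈ H.AU := by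
  obtain ⟨g, -, hg⟩ := exists_conj_le (K := H.AU) (L := ⊤) (by
    rw [relIndex_eq_index_comap (K := H.AU) (L := ⊤) MulAut.conj (fun _ => trivial) fun g _ => by
      obtain ⟨s, i, rfl⟩ := H.aut g
      exact ⟨s, 1, one_mem _, i, by simp⟩]
    exact fun h => M.syl (h.trans (Subgroup.index_dvd_of_le fun u hu => ⟨u, hu, 0, by simp⟩))) hP le_top
  exact ⟨g, hg⟩

theorem φ_pow' (s : T) (j : ℕ) (t : T) :
    M.φ ((MulAut.conj s * θ ^ (2 * j)) t) = M.φ s * M.tw 1 j (M.φ t) * (M.φ s)⁻¹ := by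
  rw [MulAut.mul_apply, MulAut.conj_apply, map_mul, map_mul, map_inv, H.φ_pow, M.tw_apply, M.gr_one]

theorem inner_of_fix {g : MulAut T} (hg : g ∈ H.AU) (h : ∀ x ∈ M.E.U, g x = x) : ∃ s, g = MulAut.conj s := by
  obtain ⟨u, hu, i, rfl⟩ := hg
  obtain ⟨j, rfl | rfl⟩ := Nat.even_or_odd' i
  · have : Nonempty Φ := ⟨D.zi 0⟩
    have h1 := (M.triv_U H.deg1 H.cfa.fa (M.tw_Tw 1 (j % M.f)) (Nat.mod_lt _ M.f_pos) (M.φ_U hu) fun x hx => by
      rw [M.tw_apply, ← H.iter_eq, ← M.tw_apply, ← H.φ_pow', h x hx]).1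
    refine ⟨u, ?_⟩
    rw [show θ ^ (2 * j) = 1 from MulEquiv.ext fun t => M.φ_inj (by rw [H.φ_pow, H.iter_eq, h1]; rfl), mul_one]
  · obtain ⟨x, hx, h1, h2, h3⟩ := H.cen
    have h4 : ∀ j : ℕ, (θ ^ (2 * j)) x = x := fun j => by
      induction j with
      | zero => rfl
      | succ j ih => rw [mul_add, mul_one, pow_add, MulAut.mul_apply, pow_two, MulAut.mul_apply, h2, ih]
    have h5 := h x hx
    rw [MulAut.mul_apply, pow_succ', MulAut.mul_apply, h4, MulAut.conj_apply, mul_inv_eq_iff_eq_mul, ← h1 u hu] at h5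
    exact (h3 (mul_left_cancel h5)).elim

variable (X : Sit M C ρ ψ β irrK) {A : Subgroup Y} (hA : Off 2 ρ A) (hU : ∀ a ∈ A, β a ∈ H.AU)

include X hA hU

/-- **large modules have no offenders** -/
theorem big (h : 16 * M.f ≤ finrank k U) : False := by
  have := X.cty1.fd
  obtain ⟨r, hr0, hr, hc⟩ := hA.exists_card
  rcases (inf_le_left : A ⊓ ψ.range ≤ A).eq_or_lt with h1 | h1
  · have := X.cod_big H h hA.1 (h1 ▸ inf_le_right) hr0 hr
    omega
  obtain ⟨a, ha, h2⟩ := SetLike.exists_of_lt h1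
  have h3 : ∀ s, β a ≠ MulAut.conj s := fun s e => h2 ⟨ha, X.mem_range e⟩
  have h4 : ∀ b ∈ A, β b ^ 2 = 1 := fun b hb => by rw [← map_pow, hA.1.2 b hb, map_one]
  obtain ⟨s, rfl, hs⟩ := card_step hr h1 (card_le_mul two_pos (hA.1.2 a ha) fun b hb => by
    by_cases h5 : ∃ s, β b = MulAut.conj s
    · exact ⟨0, by rw [pow_zero, one_mul]; exact ⟨hb, X.mem_range h5.choose_spec⟩⟩
    · obtain ⟨s, h6⟩ := inner_of H.aut (h4 a ha) (h4 b hb) h3 (not_exists.1 h5)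
      exact ⟨1, by rw [pow_one]; exact ⟨mul_mem ha hb, X.mem_range ((map_mul β a b).trans h6)⟩⟩)
  rcases Nat.eq_zero_or_pos s with rfl | h5
  swap
  · have := X.cod_big H h (elemAb_of_le hA.1 inf_le_left) inf_le_right h5 hs
    have := cod_mono (ρ := ρ) h1.le
    omega
  obtain ⟨x, hx, h6⟩ : ∃ x ∈ M.E.U, β a x ≠ x := by
    by_contra! h6
    exact (H.inner_of_fix (hU a ha) h6).elim h3
  have h7 : β a x * x⁻¹ ∈ M.E.U := by
    obtain ⟨u, hu, i, e⟩ := hU a ha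
    rw [e]
    exact mul_mem (mul_mem (mul_mem hu (H.powU i hx)) (inv_mem hu)) (inv_mem hx)
  have h8 : IsPGroup 2 (Subgroup.zpowers (β a x * x⁻¹)) := M.hyp.Up.to_le ((Subgroup.zpowers_le).2 h7)
  have h9 : Nontrivial (Subgroup.zpowers (β a x * x⁻¹)) :=
    (Subgroup.nontrivial_iff_ne_bot _).2 fun e => h6 (mul_inv_eq_one.1 (Subgroup.zpowers_eq_bot.1 e))
  obtain ⟨n, h10, h11⟩ := h8.nontrivial_iff_card.1 h9
  obtain ⟨z, hz⟩ := exists_prime_orderOf_dvd_card' (G := Subgroup.zpowers (β a x * x⁻¹)) 2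
    (h11 ▸ dvd_pow_self 2 h10.ne')
  have h12 : orderOf (ψ z) = 2 := by rw [orderOf_injective ψ X.ψinj, Subgroup.orderOf_coe, hz]
  have h13 := X.cod_big H h (B := Subgroup.zpowers (ψ z)) (elemAb_zpowers (h12 ▸ pow_orderOf_eq_one _))
    ((Subgroup.zpowers_le).2 ⟨_, rfl⟩) one_pos (by rw [Nat.card_zpowers, h12, pow_one])
  have h14 := cod_zpowers_commutator_le (ρ := ρ) a (ψ x)
  rw [X.cj, ← map_inv, ← map_mul, ← MonoidHom.map_zpowers] at h14
  have h15 := cod_mono (ρ := ρ) ((Subgroup.zpowers_le).2 (Subgroup.mem_map_of_mem ψ z.2))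
  have h16 := cod_mono (ρ := ρ) ((Subgroup.zpowers_le).2 ha)
  omega

omit hA hU in
theorem mult_ta (g : MulAut T) {n : Fin M.f → Fin 2 → ℕ} (hn : n ∈ M.pats) :
    M.mult (ρ.comp (ψ.comp (g * θ).toMonoidHom)) n = M.mult (ρ.comp (ψ.comp g.toMonoidHom)) (ta M n) :=
  (H.trf hn).mult (ρ.comp (ψ.comp g.toMonoidHom))

omit hA hU in
theorem mult_even (j : ℕ) {n : Fin M.f → Fin 2 → ℕ} (hn : n ∈ M.pats) :
    M.mult (ρ.comp (ψ.comp (θ ^ (2 * j)).toMonoidHom)) n = M.mult (ρ.comp ψ) n := by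
  induction j with
  | zero => rfl
  | succ j ih =>
    rw [mul_add, mul_one, pow_succ, pow_succ, H.mult_ta X _ hn, H.mult_ta X _ (ta_mem M hn), H.ta_ta,
      (X.cty _).mult_act hn, ih]

/-- an element which induces a graph automorphism -/
theorem odd {y : Y} {s : T} {j : ℕ} (h : β y = MulAut.conj s * θ ^ (2 * j + 1)) : Std.Inner 2 ρ ψ := by
  refine (H.graph X.cty1 X.ψinj fun n hn => ?_).resolve_left (H.big X hA hU)
  rw [← H.mult_even X j (ta_mem M hn), ← H.mult_ta X _ hn, ← pow_succ]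
  refine mult_conj M ρ (y := (ψ s)⁻¹ * y) (fun t => ?_) n
  have h1 := X.cj y t
  rw [h, MulAut.mul_apply, MulAut.conj_apply, map_mul, map_mul, map_inv] at h1
  calc _ = (ψ s)⁻¹ * (y * ψ t * y⁻¹) * ψ s := by group
    _ = _ := by rw [h1]; group; rfl

omit hA hU in
theorem acts {y : Y} {s : T} {j : ℕ} (h : β y = MulAut.conj s * θ ^ (2 * j)) : M.Acts ψ y s 1 1 j :=
  Std.acts_of (X.cj y) (one_mem _) (Commute.one_left _) fun t => by rw [h, H.φ_pow', one_mul, inv_one, mul_one]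

variable (hev : ∀ y s j, β y ≠ MulAut.conj s * θ ^ (2 * j + 1))

include hev

omit hA hU in
theorem all_acts (y : Y) : ∃ s h γ j, M.Acts ψ y s h γ j := by
  obtain ⟨s, i, e⟩ := H.aut (β y)
  obtain ⟨j, rfl | rfl⟩ := Nat.even_or_odd' i
  exacts [⟨s, 1, 1, j, H.acts X e⟩, (hev y s j e).elim]

theorem short (hM : M.Full fun l => l 1 = 0) (hmin : ∀ B < A, B ≠ ⊥ → Nat.card B ^ 2 < 2 ^ cod ρ B)
    (h : ∀ n ∈ M.N ρ ψ, ∀ a, n a 1 = 0) : Std.Inner 2 ρ ψ ∨ ¬ irrK ∧ Cub ρ A :=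
  (X.cty1.ctx hM (fun n hn a _ => h n hn a) X.inj (H.all_acts X hev) X.cent).main hA hmin fun a ha => by
    obtain ⟨u, hu, i, e⟩ := hU a ha
    obtain ⟨j, rfl | rfl⟩ := Nat.even_or_odd' i
    exacts [⟨1, j, u, hu, H.acts X e⟩, (hev a u j e).elim]

theorem even (hM : M.Full fun l => l 1 = 0) (hmin : ∀ B < A, B ≠ ⊥ → Nat.card B ^ 2 < 2 ^ cod ρ B) :
    Std.Inner 2 ρ ψ ∨ ¬ irrK ∧ Cub ρ A := by
  by_cases h1 : ∀ n ∈ M.N ρ ψ, ∀ a, n a 1 = 0
  · exact H.short X hA hU hev hM hmin h1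
  by_cases h0 : ∀ n ∈ M.N ρ ψ, ∀ a, n a 0 = 0
  · have e : ∀ (s : T) (i : ℕ), θ⁻¹ * (MulAut.conj s * θ ^ i) * θ⁻¹⁻¹ = MulAut.conj (θ⁻¹ s) * θ ^ i := fun s i => by
      rw [← mul_assoc, mul_conj]; group
    have h2 := H.short (X.conj θ) hA (fun a ha => by
      obtain ⟨u, hu, i, e'⟩ := hU a ha
      exact ⟨_, H.invU hu, i, by rw [← e, ← e']; rfl⟩) (fun y s j e' => hev y (θ s) j (by
        rw [← MulAut.inv_apply_self T θ s, ← e] at e'
        exact (MulAut.conj θ⁻¹).injective e')) hM hmin fun n hn a =>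
      h0 (ta M n) ((M.mem_N ρ ψ).2 ⟨ta_mem M (Cty.pats hn), by
        rw [← (H.trf (Cty.pats hn)).mult]; exact ((M.mem_N _ _).1 hn).2⟩) a
    rwa [Std.Inner, range_comp] at h2
  refine (H.big X hA hU (H.mixed X.cty1 fun n hn i => ?_)).elim
  obtain ⟨n', hn', a, ha⟩ : ∃ n' ∈ M.N ρ ψ, ∃ a, n' a i ≠ 0 := by
    push Not at h0 h1
    revert i
    exact Fin.forall_fin_two.2 ⟨h0, h1⟩
  obtain ⟨γ, j, -, rfl⟩ := X.cty1.st.trans (H.all_acts X hev) n (Cty.pats hn) n' (Cty.pats hn') ((M.mem_N _ _).1 hn).2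
    ((M.mem_N _ _).1 hn').2
  exact ⟨_, by rwa [H.act_eq] at ha⟩

omit hU hev in
/-- **the outer theorem for `Sp_4(2^f)`** -/
theorem main (hM : M.Full fun l => l 1 = 0) (hmin : ∀ B < A, B ≠ ⊥ → Nat.card B ^ 2 < 2 ^ cod ρ B) :
    Std.Inner 2 ρ ψ ∨ ¬ irrK ∧ Cub ρ A := by
  obtain ⟨g, hg⟩ := H.exists_red ((elemAb_isPGroup hA.1).map β)
  have X' := X.conj g⁻¹
  have hU : ∀ a ∈ A, ((MulAut.conj g⁻¹⁻¹).toMonoidHom.comp β) a ∈ H.AU := fun a ha => hg _ ⟨a, ha, rfl⟩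
  rw [Std.Inner, ← range_comp ψ g⁻¹]
  by_cases h : ∃ y s j, ((MulAut.conj g⁻¹⁻¹).toMonoidHom.comp β) y = MulAut.conj s * θ ^ (2 * j + 1)
  · obtain ⟨y, s, j, h⟩ := h
    exact Or.inl (H.odd X' hA hU h)
  · exact H.even X' hA hU (fun y s j e => h ⟨y, s, j, e⟩) hM hmin

end G4

end Cfsg.Agent.TwoF.DC.TC.S4
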