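import Cfsg.Agent.TwoF.DC.TC.Gen
import Cfsg.Agent.TwoF.DC.Close
import Cfsg.Agent.TwoF.DC.Pow.Main

/-!
# TwoF, defining characteristic: two data on one group (helper34)

`start`, `finish`, `row_of_key` : the parts of `boxRel_of`; `row_two` : the row of a group with a special isogeny.
-/

set_option autoImplicit false
set_option linter.unusedSectionVars false

namespace Cfsg.Agent.TwoF.DC.TC

open Module Finset Cfsg.Agent.H45.Uni Cfsg.Agent.H45.UniE Cfsg.Agent.TwoF.Gen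

variable {p : ℕ} [hp : Fact p.Prime] {ι Φ k G : Type} [Fintype ι] [DecidableEq ι] [Fintype Φ] [DecidableEq Φ] [Field k]
  [IsAlgClosed k] [CharP k p] [Algebra (ZMod p) k] [Group G] {D D' : RDat p ι Φ k G} {T T' S S' : Type} [Group T]
  [Finite T] [Group T'] [Finite T'] [Group S] [Group S'] {Y V : Type} [Group Y] [Finite Y] [AddCommGroup V]
  [Module (ZMod p) V] [Finite V] {K : Subgroup Y} {ρ : Representation (ZMod p) Y V}

/-- the conclusion for one module -/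
def Key (p : ℕ) [Fact p.Prime] {Y V : Type} [Group Y] [AddCommGroup V] [Module (ZMod p) V] (K : Subgroup Y)
    (ρ : Representation (ZMod p) Y V) : Prop :=
  (∃ B ≤ K, Off p ρ B ∧ Cub ρ B) ∨ ¬ Irr ρ K ∧ ∃ B, Off p ρ B ∧ Cub ρ B

theorem row_of_key (H : ∀ (Y : Type) [Group Y] [Finite Y] (V : Type) [AddCommGroup V] [Module (ZMod p) V] [Finite V]
    (K : Subgroup Y) (ρ : Representation (ZMod p) Y V), Stp p K ρ → Nonempty (K ⧸ Subgroup.center K ≃* S) →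
    ∀ A, Off p ρ A → Key p K ρ) : Row p S :=
  ⟨fun Y _ _ V _ _ _ K ρ hs he A hA => (H Y V K ρ hs he A hA).elim (fun ⟨B, _, h⟩ => ⟨B, h⟩) fun h => h.2,
    fun Y _ _ V _ _ _ K ρ hs he A hA hirr _ _ _ =>
      (H Y V K ρ hs he A hA).elim (fun ⟨B, h, h', _⟩ => ⟨B, h, h'⟩) fun h => (h.1 hirr).elim⟩

/-- a reduced situation -/
structure Red (M : Std D T S) (K : Subgroup Y) (ρ : Representation (ZMod p) Y V) (ψ : T →* Y) (A : Subgroup Y) :
    Prop where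
  range : ψ.range = K
  acts : ∀ y, ∃ s h γ j, M.Acts ψ y s h γ j
  off : Off p (bc k ρ) A
  min : ∀ B < A, B ≠ ⊥ → Nat.card B ^ 2 < p ^ cod (bc k ρ) B
  red : ∀ a ∈ A, ∃ γ j, M.Ac ψ a γ j

theorem start [Nonempty Φ] (M : Std D T S) (hM : M.AutFact) (hF : D.Fa) (hs : Stp p K ρ)
    (he : Nonempty (K ⧸ Subgroup.center K ≃* S)) {A : Subgroup Y} (hA : Off p ρ A) : ∃ ψ A, Red M K ρ ψ A := by
  obtain ⟨π, φ, F⟩ := hs.exists_frm he
  obtain ⟨ψ0, hψ0, hπ⟩ := M.cover K hs.qs hs.cop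
    ((QuotientGroup.quotientMulEquivOfEq F.ker_π.symm).trans (QuotientGroup.quotientKerEquivOfSurjective π F.surj))
  replace hπ : ∀ s, π (ψ0 s) = M.π s := hπ
  have := hs.normal
  have h2 : ∀ y, ∃ s h γ j, M.Acts (K.subtype.comp ψ0) y s h γ j := fun y => by
    obtain ⟨s, h, γ, j, hh, hγ, H⟩ := hM (φ y)
    obtain ⟨β, hβ⟩ := M.exists_aut ((MulAut.conj h).toMonoidHom.comp (M.tw γ j))
      (fun t ht => M.tw_inj γ j ((map_eq_one_iff _ (MulAut.conj h).injective).1 ht))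
      fun t => (H t).imp fun t' ht' => by rw [ht'.1, ← M.tw_apply]; rfl
    have h3 : (MulAut.conjNormal y).toMonoidHom.comp ψ0 = ψ0.comp (MulAut.conj s * β).toMonoidHom := by
      refine hom_eq_of_center M.perfect fun t => ?_
      obtain ⟨t', h3, h4⟩ := H t
      rw [← F.ker_π, MonoidHom.mem_ker, map_mul, map_inv, inv_mul_eq_one]
      show π (MulAut.conjNormal y (ψ0 t)) = π (ψ0 (s * β t * s⁻¹))
      rw [← F.conj y (ψ0 t) _ rfl, hπ, hπ, h4, M.φ_inj (h3.trans (by rw [← M.tw_apply]; exact (hβ t).symm))]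
    refine ⟨s, h, γ, j, Std.acts_of (β := fun t => s * β t * s⁻¹)
      (fun t => congrArg Subtype.val (DFunLike.congr_fun h3 t)) hh hγ fun t => ?_⟩
    rw [map_mul, map_mul, map_inv, hβ]
    rfl
  obtain ⟨A, -, hA, hmin⟩ := exists_min_off ((off_bc k A).2 hA)
  obtain ⟨α, h3, h4⟩ := Std.exists_red (boxDeg1 p ι Φ k G D) hF h2 (elemAb_isPGroup hA.1)
  refine ⟨_, A, ?_, h3, hA, hmin, fun a ha => (h4 a ha).elim fun u h => h.2.imp fun γ h' => h'.imp fun j H => ⟨u, h.1, H⟩⟩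
  have h5 : Function.Surjective (ψ0.comp α.toMonoidHom) := hψ0.comp α.surjective
  rw [MonoidHom.comp_assoc, MonoidHom.range_comp, MonoidHom.range_eq_top.2 h5,
    ← MonoidHom.range_eq_map, Subgroup.range_subtype]

theorem cty_of (M : Std D T S) {C : Can D} (hC : C.Fa) (hs : Stp p K ρ) {ψ : T →* Y} (h : ψ.range = K) :
    Cty M C (bc k ρ) ψ (Irr ρ K) :=
  have := hs.nontrivial
  { cfa := hC
    deg1 := boxDeg1 p ι Φ k G D
    deg2 := boxDeg2 p ι Φ k G D hC.fa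
    pow := Pw.boxPow p ι Φ k G D T S M C
    st := boxSt p ι Φ k G D T S M C hC (Pw.boxPow p ι Φ k G D T S M C) Y V K ρ hs _ h
    fd := inferInstance
    nt := Module.nontrivial_of_finrank_pos (R := k) (by rw [Module.finrank_baseChange]; exact finrank_pos) }

theorem finish {M : Std D T S} {ok : (ι → ℕ) → Prop} (hM : M.Full ok) (hs : Stp p K ρ) {ψ : T →* Y} {A : Subgroup Y}
    (R : Red M K ρ ψ A) (hok : ∀ n ∈ M.N (bc k ρ) ψ, ∀ a, n a ≠ 0 → ok (n a)) : Key p K ρ := by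
  obtain ⟨C⟩ := boxHW p ι Φ k G D
  have X := (cty_of M (C.fa_of_full hM) hs R.range).ctx hM hok (bc_injective k hs.faithful) R.acts fun y hy => by
    rw [R.range]
    refine hs.cent fun x hx => ?_
    obtain ⟨s, rfl⟩ := R.range.ge hx
    rw [← mul_inv_eq_iff_eq_mul.1 (hy s)]
  rcases X.main R.off R.min R.red with ⟨B, h8, h9, h10⟩ | ⟨h8, h9⟩
  · exact Or.inl ⟨B, R.range ▸ h8, (off_bc k B).1 h9, (cub_bc k B).1 h10⟩
  · exact Or.inr ⟨h8, A, (off_bc k A).1 R.off, (cub_bc k A).1 h9⟩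

omit [Algebra (ZMod p) k] in
theorem dim_le (hs : Stp p K ρ) (he : Nonempty (K ⧸ Subgroup.center K ≃* S)) {A : Subgroup Y} (hA : Off p ρ A) {o : ℕ}
    (ho : Nat.card (MulAut S) ≤ o * Nat.card S) {ψ : T →* Y} (h : ψ.range = K) :
    p ^ finrank (ZMod p) V ≤ (o * Nat.card T) ^ 2 := by
  obtain ⟨π, φ, F⟩ := hs.exists_frm he
  have : Finite S := Finite.of_surjective π F.surj
  refine (hs.big hA).trans (Nat.pow_le_pow_left ((Subgroup.card_le_card_group _).trans ?_) 2)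
  rw [← φ.ker.card_mul_index, Subgroup.index_ker, F.ker_φ, hs.card_centralizer]
  refine (Nat.mul_le_mul_left _ ((Subgroup.card_le_card_group _).trans ho)).trans ?_
  rw [mul_left_comm, ← F.card_K, ← h]
  exact Nat.mul_le_mul_left _ (Nat.card_le_card_of_surjective _ ψ.rangeRestrict_surjective)

/-! ### transfer -/

/-- two data on the same group -/
structure Two (M : Std D T S) (M' : Std D' T' S') (e : T' ≃* T) (w : ι → ℕ) : Prop where
  φ : ∀ s, M'.φ s = M.φ (e s)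
  Fr : M'.Fr = M.Fr
  gr : ∀ γ : M.Gr, γ = 1
  U : D.U ≤ D'.U
  hh : {g | ∃ i c, g = D'.hh i c} = {g | ∃ i c, g = D.hh i c}
  pos : ∀ i, 0 < w i
  cc : ∀ l g, D'.toFDat.cc l g = D.toFDat.cc (fun i => w i * l i) g

theorem exists_exp {q : ℕ} (hq : 1 < q) (n : ℕ) : ∃ l < q, (l = 0 → n = 0) ∧ ∀ x : k, x ^ q = x → x ^ l = x ^ n := by
  induction n using Nat.strong_induction_on with
  | _ n ih =>
    by_cases h : n < q
    · exact ⟨n, h, id, fun _ _ => rfl⟩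
    · obtain ⟨l, h1, h2, h3⟩ := ih (n - q + 1) (by omega)
      refine ⟨l, h1, fun h0 => by have := h2 h0; omega, fun x hx => ?_⟩
      rw [h3 x hx, pow_succ, ← congrArg (x ^ (n - q) * ·) hx, ← pow_add, Nat.sub_add_cancel (not_lt.1 h)]

namespace Two

variable {M : Std D T S} {M' : Std D' T' S'} {e : T' ≃* T} {w : ι → ℕ} (H : Two M M' e w)
include H

theorem acts {ψ : T →* Y} {y : Y} {s : T} {h : G} {γ : M.Gr} {j : ℕ} (h1 : M.Acts ψ y s h γ j) :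
    M'.Acts (ψ.comp e.toMonoidHom) y (e.symm s) h 1 j := by
  refine ⟨H.hh ▸ h1.1, Commute.one_left _, fun s₁ => ?_⟩
  obtain ⟨s₂, h2, h3⟩ := h1.2.2 (e s₁)
  refine ⟨e.symm s₂, by rw [H.φ, H.φ, H.Fr, e.apply_symm_apply, h2, H.gr γ, M.gr_one, M'.gr_one], h3.trans ?_⟩
  simp

theorem red (hF : D'.Fa) {ψ : T →* Y} {A : Subgroup Y} (R : Red M K ρ ψ A) : Red M' K ρ (ψ.comp e.toMonoidHom) A where
  range := by
    rw [MonoidHom.range_comp, MonoidHom.range_eq_top.2 e.surjective, ← MonoidHom.range_eq_map, R.range]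
  acts y := by
    obtain ⟨s, h, γ, j, h1⟩ := R.acts y
    exact ⟨_, _, _, _, H.acts h1⟩
  off := R.off
  min := R.min
  red a ha := by
    obtain ⟨γ, j, u, hu, h1⟩ := R.red a ha
    exact ⟨1, j, e.symm u, M'.mem_U_of (boxDeg1 p ι Φ k G D') hF
      (by rw [H.φ, e.apply_symm_apply]; exact H.U (M.φ_U hu)), H.acts h1⟩

theorem pat {C : Can D} {C' : Can D'} (hC : C.Fa) (hC' : C'.Fa) {U : Type} [AddCommGroup U] [Module k U]
    {σ : Representation k Y U} {ψ : T →* Y} {n' : Fin M'.f → ι → ℕ} (hn' : n' ∈ M'.N σ (ψ.comp e.toMonoidHom)) :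
    ∃ n ∈ M.N σ ψ, ∀ i, (∀ a, n a i = 0) → ∀ a, n' a i = 0 := by
  have hq : 1 < p ^ M.f := Nat.one_lt_pow M.f_pos.ne' hp.out.one_lt
  choose l h1 h2 h3 using fun i => exists_exp (k := k) hq (w i * M'.lw n' i)
  have h4 : (fun a : Fin M.f => dig p l a) ∈ M.pats := M.mem_pats.2 fun a i => Nat.mod_lt _ hp.out.pos
  have h5 := trf_of (e := e) hC' (Pw.boxPow p ι Φ k G D' T' S' M' C') hC (Pw.boxPow p ι Φ k G D T S M C)
    ((M'.mem_N _ _).1 hn').1 h4 fun s => by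
      rw [M.cP_ΦT, M'.cP_ΦT, M.lw_dig h1, H.cc, H.φ]
      refine prod_congr rfl fun i _ => h3 i _ ?_
      rw [← M.Δ_iter, ← M.gr_one (M.Fr^[M.f] _), ← H.gr M.σ, M.φ_fix]
  refine ⟨_, (M.mem_N _ _).2 ⟨h4, h5.mult (σ.comp ψ) ▸ ((M'.mem_N _ _).1 hn').2⟩, fun i hi a => ?_⟩
  have h6 : l i = 0 := by
    rw [← M.lw_dig h1]
    exact sum_eq_zero fun a _ => mul_eq_zero_of_left (hi a) _
  have h7 := (mul_eq_zero.1 (h2 i h6)).resolve_left (H.pos i).ne'
  exact (mul_eq_zero.1 (sum_eq_zero_iff.1 h7 a (mem_univ a))).resolve_right (pow_pos hp.out.pos _).ne'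

end Two

/-! ### mixed patterns -/

theorem card_mul_le {α : Type} [Fintype α] [DecidableEq α] (d : α → ℕ) (L : Finset α) {a0 : α} {x y : ℕ} (hy : 2 ≤ y)
    (h1 : ∀ a, 1 ≤ d a) (h2 : ∀ a ∈ L, y ≤ d a) (h3 : x ≤ d a0) (h4 : a0 ∈ L → x * y ≤ d a0) :
    L.card * (x * y) ≤ ∏ a, d a := by
  have h5 : y ^ (L.erase a0).card ≤ ∏ a ∈ univ.erase a0, d a :=
    (pow_card_le_prod _ _ _ fun a ha => h2 a (mem_of_mem_erase ha)).trans
      (prod_le_prod_of_subset_of_one_le' (erase_subset_erase _ (subset_univ _)) fun a _ _ => h1 a)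
  have h6 : ∀ n : ℕ, n + 1 ≤ y ^ n := fun n => Nat.lt_two_pow_self.trans_le (Nat.pow_le_pow_left hy n)
  rw [← mul_prod_erase _ _ (mem_univ a0), mul_comm]
  by_cases h : a0 ∈ L
  · rw [← card_erase_add_one h]
    exact Nat.mul_le_mul (h4 h) ((h6 _).trans h5)
  · rw [erase_eq_of_notMem h] at h5
    rcases Nat.eq_zero_or_pos L.card with h7 | h7
    · rw [h7]; exact Nat.zero_le _
    · obtain ⟨n, hn⟩ := Nat.exists_eq_add_of_le' h7
      rw [hn] at h5 ⊢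
      rw [mul_assoc]
      exact Nat.mul_le_mul h3 (le_trans (by rw [pow_succ']; exact Nat.mul_le_mul_left _ (h6 n)) h5)

theorem mixed {M : Std D T S} {C : Can D} {U : Type} [AddCommGroup U] [Module k U] {σ : Representation k Y U}
    {ψ : T →* Y} {irrK : Prop} (X : Cty M C σ ψ irrK) (hg : ∀ γ : M.Gr, γ = 1)
    (hacts : ∀ y, ∃ s h γ j, M.Acts ψ y s h γ j) {P Q : (ι → ℕ) → Prop} {x y : ℕ} (hy : 2 ≤ y)
    (h1 : ∀ ν : ι → ℕ, (∀ i, ν i < p) → 1 ≤ dd D ν ∧ (P ν → y ≤ dd D ν) ∧ (Q ν → x ≤ dd D ν) ∧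
      (P ν → Q ν → x * y ≤ dd D ν)) {n n' : Fin M.f → ι → ℕ} (hn : n ∈ M.N σ ψ) (hn' : n' ∈ M.N σ ψ) {a a' : Fin M.f}
    (ha : P (n a)) (ha' : Q (n' a')) : M.f * (x * y) ≤ finrank k U := by
  classical
  have h2 : ∀ (j : ℕ) (n : Fin M.f → ι → ℕ) a, M.act 1 j n a = n (M.rot j a) := fun j n a => by
    rw [M.act_apply', hg (_ * _), M.comp_gι_one, M.rot_apply]
  have h3 : ∀ n'' ∈ M.N σ ψ, (univ.filter fun b => P (n'' b)).card * (x * y) ≤ M.mult (σ.comp ψ) n'' * M.Dn n'' := by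
    intro n'' hn''
    obtain ⟨γ, j, -, e⟩ := X.st.trans hacts n' (Cty.pats hn') n'' (Cty.pats hn'') ((M.mem_N _ _).1 hn').2
      ((M.mem_N _ _).1 hn'').2
    have h4 : Q (n'' ((M.rot j).symm a')) := by rw [e, hg γ, h2, Equiv.apply_symm_apply]; exact ha'
    refine le_trans ?_ (Nat.le_mul_of_pos_left _ (Cty.one_le_mult hn''))
    exact card_mul_le (fun b => dd D (n'' b)) _ hy (fun b => (h1 _ (Cty.res hn'' b)).1)
      (fun b hb => (h1 _ (Cty.res hn'' b)).2.1 (mem_filter.1 hb).2) ((h1 _ (Cty.res hn'' _)).2.2.1 h4)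
      fun hb => (h1 _ (Cty.res hn'' _)).2.2.2 (mem_filter.1 hb).2 h4
  rw [X.finrank_U']
  refine le_trans ?_ (sum_le_sum h3)
  rw [← sum_mul]
  refine Nat.mul_le_mul_right _ (le_trans ?_ (card_biUnion_le
    (t := fun n'' : Fin M.f → ι → ℕ => univ.filter fun b => P (n'' b))))
  refine (card_fin M.f).ge.trans (card_le_card fun b _ =>
    mem_biUnion.2 ⟨M.act 1 (M.f - b + a) n, X.sh.act _ hn, mem_filter.2 ⟨mem_univ _, ?_⟩⟩)
  have h4 : (b : ℕ) + (M.f - b + a) = a + M.f * 1 := by have := b.2; omega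
  rwa [h2, M.rot_apply, h4, M.pos_add_mul, M.pos_val]

/-- **the row of a group with two data**; `P i` : the node `i` is of the first kind -/
theorem row_two [Nonempty Φ] {M : Std D T S} {M' : Std D' T' S'} {e : T' ≃* T} {w : ι → ℕ} (H : Two M M' e w)
    {ok : (ι → ℕ) → Prop} {P : ι → Prop} (hM : M.Full ok) (hM' : M'.Full fun l => ∀ i, P i → l i = 0) {x y o : ℕ}
    (hy : 2 ≤ y) (h1 : ∀ ν : ι → ℕ, (∀ i, ν i < p) → 1 ≤ dd D ν ∧ (ν ≠ 0 ∧ ¬ ok ν → y ≤ dd D ν) ∧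
      ((¬ ∀ i, P i → ν i = 0) → x ≤ dd D ν) ∧ (ν ≠ 0 ∧ ¬ ok ν → (¬ ∀ i, P i → ν i = 0) → x * y ≤ dd D ν))
    (ho : Nat.card (MulAut S) ≤ o * Nat.card S) (hlt : (o * Nat.card T) ^ 2 < p ^ (M.f * (x * y))) : Row p S := by
  refine row_of_key fun Y _ _ V _ _ _ K ρ hs he A hA => ?_
  obtain ⟨C⟩ := boxHW p ι Φ k G D
  obtain ⟨C'⟩ := boxHW p ι Φ k G D'
  obtain ⟨ψ, A', R⟩ := start M hM.aut (C.fa_of_full hM).fa hs he hA
  by_cases h2 : ∀ n ∈ M.N (bc k ρ) ψ, ∀ a, n a ≠ 0 → ok (n a)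
  · exact finish hM hs R h2
  by_cases h3 : ∀ n ∈ M.N (bc k ρ) ψ, ∀ a i, P i → n a i = 0
  · refine finish hM' hs (H.red (C'.fa_of_full hM').fa R) fun n' hn' a _ i hi => ?_
    obtain ⟨n, hn, h4⟩ := H.pat (C.fa_of_full hM) (C'.fa_of_full hM') hn'
    exact h4 i (fun a => h3 n hn a i hi) a
  simp only [not_forall] at h2
  obtain ⟨n, hn, a, h4, h5⟩ := h2
  obtain ⟨n', h3⟩ := not_forall.1 h3
  obtain ⟨hn', h3⟩ := Classical.not_imp.1 h3
  obtain ⟨a', h3⟩ := not_forall.1 h3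
  have h6 := mixed (cty_of M (C.fa_of_full hM) hs R.range) H.gr R.acts hy h1 hn hn' ⟨h4, h5⟩ h3
  rw [Module.finrank_baseChange] at h6
  exact (((dim_le hs he hA ho R.range).trans_lt hlt).not_ge (Nat.pow_le_pow_right hp.out.pos h6)).elim

end Cfsg.Agent.TwoF.DC.TC
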